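import Cfsg.Agent.ThreeJoin.RankOne
import Cfsg.Agent.Lib.Hall
import Mathlib.Data.Nat.ChineseRemainder

/-!
# Four primes, pairwise but not triply joined, force nonsolvability
-/

set_option autoImplicit false
set_option linter.unusedSectionVars false
set_option linter.style.haveILetI false

namespace Cfsg.Agent.ThreeJoin

open Subgroup
open scoped Pointwise

universe u

variable {G : Type u} [Group G] [Finite G]

/-- Any two distinct primes of `σ` are orders of commuting elements. -/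
def Joined (G : Type u) [Group G] (σ : Finset ℕ) : Prop :=
  ∀ ⦃p⦄, p ∈ σ → ∀ ⦃q⦄, q ∈ σ → p ≠ q → ∃ a b : G, orderOf a = p ∧ orderOf b = q ∧ Commute a b

theorem orderOf_conj' (g a : G) : orderOf (g * a * g⁻¹) = orderOf a :=
  orderOf_injective (MulAut.conj g).toMonoidHom (MulAut.conj g).injective a

theorem exists_conj_mem [Group.IsSolvable G] {π : Set ℕ} {L : Subgroup G}
    (hL : Cfsg.IsPiHall π L) {S : Subgroup G} (hS : Hall.PiNum π (Nat.card S)) :
    ∃ g : G, ∀ u ∈ S, g * u * g⁻¹ ∈ L := by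
  obtain ⟨g, hg⟩ := Hall.le_conj_isPiHall hL hS
  refine ⟨g, fun u hu => hg ?_⟩
  rw [SZ.mem_conj_smul]
  simpa [mul_assoc] using hu

theorem hall_elt [Group.IsSolvable G] {π : Set ℕ} {L : Subgroup G} (hL : Cfsg.IsPiHall π L) {x : ℕ}
    (hx : x.Prime) (hxπ : x ∈ π) {a : G} (ha : orderOf a = x) : ∃ b ∈ L, orderOf b = x := by
  obtain ⟨g, hg⟩ := exists_conj_mem hL (S := zpowers a)
    (by rw [Nat.card_zpowers, ha]; simpa using Hall.piNum_prime_pow hx hxπ 1)
  exact ⟨_, hg a (mem_zpowers a), by rw [orderOf_conj', ha]⟩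

theorem hall_isE [Group.IsSolvable G] {π : Set ℕ} {L : Subgroup G} (hL : Cfsg.IsPiHall π L) {x : ℕ}
    (hx : x.Prime) (hxπ : x ∈ π) {E : Subgroup G} (hE : IsE x E) :
    ∃ E' : Subgroup G, IsE x E' ∧ E' ≤ L := by
  haveI := Fact.mk hx
  obtain ⟨k, hk⟩ := IsPGroup.iff_card.1 (Signalizer.elemAb_isPGroup hE.elem)
  obtain ⟨g, hg⟩ := exists_conj_mem hL (S := E) (by rw [hk]; exact Hall.piNum_prime_pow hx hxπ k)
  refine ⟨E.map (MulAut.conj g).toMonoidHom, ⟨⟨⟨⟨?_⟩⟩, ?_⟩, ?_⟩, ?_⟩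
  · rintro ⟨_, a, ha, rfl⟩ ⟨_, b, hb, rfl⟩
    exact Subtype.ext ((hE.comm ha hb).map (MulAut.conj g).toMonoidHom).eq
  · rintro _ ⟨a, ha, rfl⟩
    rw [← map_pow, hE.pow_eq ha, map_one]
  · exact hE.card.trans (Subgroup.card_map_of_injective (MulAut.conj g).injective).ge
  · rintro _ ⟨a, ha, rfl⟩
    exact hg a ha

theorem hall_pair [Group.IsSolvable G] {π : Set ℕ} {L : Subgroup G} (hL : Cfsg.IsPiHall π L)
    {r s : ℕ} (hr : r.Prime) (hs : s.Prime) (hrs : r ≠ s) (hrπ : r ∈ π) (hsπ : s ∈ π) {a b : G}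
    (ha : orderOf a = r) (hb : orderOf b = s) (hab : Commute a b) :
    ∃ a' ∈ L, ∃ b' ∈ L, orderOf a' = r ∧ orderOf b' = s ∧ Commute a' b' := by
  have hcop : r.Coprime s := (Nat.coprime_primes hr hs).2 hrs
  obtain ⟨g, hg⟩ := exists_conj_mem hL (S := zpowers (a * b)) (by
    rw [Nat.card_zpowers, hab.orderOf_mul_eq_mul_orderOf_of_coprime (by rw [ha, hb]; exact hcop),
      ha, hb]
    simpa using (Hall.piNum_prime_pow hr hrπ 1).mul (Hall.piNum_prime_pow hs hsπ 1))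
  have key : ∀ {a b : G} {r s : ℕ}, r.Coprime s → orderOf a = r → orderOf b = s → Commute a b →
      a ∈ zpowers (a * b) := by
    intro a b r s hcop ha hb hab
    obtain ⟨k, hk1, hk2⟩ := Nat.chineseRemainder hcop 1 0
    refine ⟨(k : ℤ), ?_⟩
    show (a * b) ^ (k : ℤ) = a
    rw [zpow_natCast, hab.mul_pow, (pow_eq_pow_iff_modEq (x := a) (m := 1)).2 (ha ▸ hk1),
      (pow_eq_pow_iff_modEq (x := b) (m := 0)).2 (hb ▸ hk2), pow_one, pow_zero, mul_one]
  exact ⟨_, hg a (key hcop ha hb hab), _,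
    hg b (hab.eq ▸ key hcop.symm hb ha hab.symm), by rw [orderOf_conj', ha],
    by rw [orderOf_conj', hb], hab.map (MulAut.conj g).toMonoidHom⟩

theorem exists_hall_le [Group.IsSolvable G] {π π' : Set ℕ} (hsub : π' ⊆ π) {H : Subgroup G}
    (hH : Cfsg.IsPiHall π H) : ∃ L : Subgroup G, Cfsg.IsPiHall π' L ∧ L ≤ H := by
  obtain ⟨L, hL⟩ := Hall.exists_isPiHall (G := G) π'
  obtain ⟨g, hg⟩ := Hall.le_conj_isPiHall hH (S := L) fun x hx hd => hsub (hL.1 x hx hd)
  exact ⟨_, Hall.isPiHall_conj hL g, hg⟩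

theorem le_hall_of_normalized [Group.IsSolvable G] {π : Set ℕ} {H L N : Subgroup G}
    (hL : Cfsg.IsPiHall π L) (hLH : L ≤ H) (hNH : N ≤ H)
    (hn : ∀ g ∈ H, ∀ v ∈ N, g * v * g⁻¹ ∈ N) (hN : Hall.PiNum π (Nat.card N)) : N ≤ L := by
  have hL' : Cfsg.IsPiHall π (L.subgroupOf H) := Hall.isPiHall_iff.2 ⟨by
    rw [Nat.card_congr (subgroupOfEquivOfLe hLH).toEquiv]; exact hL.1,
    fun x hx hxπ hd => hL.2 x hx hxπ (hd.trans (relIndex_dvd_index_of_le hLH))⟩
  haveI : (N.subgroupOf H).Normal := ⟨fun v hv g => hn g g.2 v hv⟩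
  obtain ⟨g, hg⟩ := Hall.le_conj_isPiHall hL' (S := N.subgroupOf H)
    (by rwa [Nat.card_congr (subgroupOfEquivOfLe hNH).toEquiv])
  rw [SZ.conj_smul_of_normal] at hg
  exact fun v hv => hg (show (⟨v, hNH hv⟩ : H) ∈ N.subgroupOf H from hv)

theorem core_prime_dvd {x : ℕ} [Fact x.Prime] {L : Subgroup G} (hne : core x L ≠ ⊥) :
    x ∣ Nat.card L := by
  obtain ⟨z, hz, hzo⟩ := exists_omegaZ (core_isPGroup x L) hne
  exact hzo ▸ Subgroup.orderOf_dvd_natCard L (core_le x L (omegaZ_le _ _ hz))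

theorem ne_bot_of_mem_order {x : ℕ} (hx : x.Prime) {L : Subgroup G} {a : G} (ha : a ∈ L)
    (hao : orderOf a = x) : L ≠ ⊥ := fun e =>
  orderOf_ne_one_of_prime hx hao (Subgroup.mem_bot.1 (e ▸ ha))

/-- A solvable group cannot have elements of three prime orders and no commuting pair. -/
theorem false_three_primes [Group.IsSolvable G] {T : Finset ℕ} (hT : T.card = 3)
    (hprime : ∀ y ∈ T, y.Prime) (helt : ∀ y ∈ T, ∃ e : G, orderOf e = y)
    (hno : ∀ ⦃y z : ℕ⦄, y ∈ T → z ∈ T → y ≠ z → ∀ ⦃a b : G⦄, orderOf a = y → orderOf b = z →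
      Commute a b → False) : False := by
  obtain ⟨K, hK⟩ := Hall.exists_isPiHall (G := G) (↑T : Set ℕ)
  obtain ⟨y0, hy0⟩ := Finset.card_pos.1 (show 0 < T.card by omega)
  obtain ⟨e0, he0⟩ := helt y0 hy0
  obtain ⟨e0', he0', he0'o⟩ := hall_elt hK (hprime y0 hy0) (Finset.mem_coe.2 hy0) he0
  obtain ⟨y1, hy1, hy1d, hN⟩ := exists_core_ne_bot (ne_bot_of_mem_order (hprime y0 hy0) he0' he0'o)
  have hy1T : y1 ∈ T := Finset.mem_coe.1 (hK.1 y1 hy1 hy1d)
  obtain ⟨y2, y3, h23, hT'⟩ := Finset.card_eq_two.1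
    (show (T.erase y1).card = 2 by rw [Finset.card_erase_of_mem hy1T, hT])
  obtain ⟨h21, h2T⟩ := Finset.mem_erase.1 (show y2 ∈ T.erase y1 by simp [hT'])
  obtain ⟨h31, h3T⟩ := Finset.mem_erase.1 (show y3 ∈ T.erase y1 by simp [hT'])
  obtain ⟨L, hL, hLK⟩ := exists_hall_le (π' := ({y2, y3} : Set ℕ))
    (by rintro x (rfl | rfl); exacts [Finset.mem_coe.2 h2T, Finset.mem_coe.2 h3T]) hK
  obtain ⟨e2, he2⟩ := helt y2 h2T
  obtain ⟨e3, he3⟩ := helt y3 h3T
  obtain ⟨c2, hc2, hc2o⟩ := hall_elt hL (hprime y2 h2T) (Or.inl rfl) he2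
  obtain ⟨c3, hc3, hc3o⟩ := hall_elt hL (hprime y3 h3T) (Or.inr rfl) he3
  haveI := Fact.mk hy1
  obtain ⟨v, hv, hvo⟩ := exists_omegaZ (core_isPGroup y1 K) hN
  obtain ⟨y, hy, hyd, hne⟩ := exists_core_ne_bot (ne_bot_of_mem_order (hprime y2 h2T) hc2 hc2o)
  haveI := Fact.mk hy
  have key : y ∈ T → y1 ≠ y → ∀ y', y' ∈ T → y ≠ y' → y1 ≠ y' → ∀ c ∈ L, orderOf c = y' → False := by
    intro hyT h1y y' hy'T hyy' h1y' c hc hco
    haveI := Fact.mk (hprime y' hy'T)
    obtain ⟨z, hz, hzo⟩ := exists_omegaZ (core_isPGroup y L) hne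
    have hZp : IsPGroup y (omegaZ y (core y L)) := (core_isPGroup y L).to_le (omegaZ_le _ _)
    have hZK : ∀ u ∈ omegaZ y (core y L), u ∈ K := fun u hu =>
      hLK (core_le y L (omegaZ_le _ _ hu))
    refine hno hy1T hyT h1y hvo hzo (commute_of_fpf h1y' (core_isPGroup y1 K)
      (not_dvd_card hZp hy1 h1y) hco
      (fun u hu => omegaZ_conj (fun w hw => core_conj hc hw)
        (fun w hw => conj_inv_mem (fun l hl w hw => core_conj hl hw) hc hw) hu)
      (fun u hu hcu => by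
        by_contra hu1
        obtain ⟨n, hn⟩ := exists_pow_orderOf hZp hu hu1
        exact hno hy'T hyT hyy'.symm hco hn (hcu.pow_right n))
      (fun u hu w hw => core_conj (hZK u hu) hw) (fun w hw => core_conj (hLK hc) hw)
      (fun w hw hcw u _ => by
        by_cases hw1 : w = 1
        · rw [hw1]; exact Commute.one_right u
        obtain ⟨n, hn⟩ := exists_pow_orderOf (core_isPGroup y1 K) hw hw1
        exact (hno hy'T hy1T h1y'.symm hco hn (hcw.pow_right n)).elim)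
      z hz v (omegaZ_le _ _ hv)).symm
  rcases hL.1 y hy hyd with e | e
  · exact key (e ▸ h2T) (e ▸ h21.symm) y3 h3T (e ▸ h23) h31.symm c3 hc3 hc3o
  · have e' : y = y3 := e
    exact key (e' ▸ h3T) (e' ▸ h31.symm) y2 h2T (e' ▸ h23.symm) h21.symm c2 hc2 hc2o

/-- Every prime has a noncyclic elementary abelian subgroup. -/
theorem exists_isE [Group.IsSolvable G] {σ : Finset ℕ} (hσ : σ.card = 4)
    (hprime : ∀ x ∈ σ, x.Prime) (hNT : NoTriple G σ) (hJ : Joined G σ) {x : ℕ} (hx : x ∈ σ) :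
    ∃ E : Subgroup G, IsE x E := by
  by_contra hno
  haveI := Fact.mk (hprime x hx)
  have hcard : (σ.erase x).card = 3 := by rw [Finset.card_erase_of_mem hx, hσ]
  obtain ⟨y0, hy0⟩ := Finset.card_pos.1 (show 0 < (σ.erase x).card by omega)
  obtain ⟨a, -, hao, -, -⟩ := hJ hx (Finset.mem_erase.1 hy0).2 (Finset.mem_erase.1 hy0).1.symm
  obtain ⟨Q, hQ⟩ := (isPGroup_zpowers hao).exists_le_sylow
  have helt : ∀ y ∈ σ.erase x, ∃ e ∈ centralizer ({a} : Set G), orderOf e = y := by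
    intro y hy
    obtain ⟨hyx, hyσ⟩ := Finset.mem_erase.1 hy
    obtain ⟨b, c, hbo, hco, hbc⟩ := hJ hx hyσ hyx.symm
    obtain ⟨P, hP⟩ := (isPGroup_zpowers hbo).exists_le_sylow
    obtain ⟨g, hg⟩ := MulAction.exists_smul_eq G P Q
    have hbQ : g * b * g⁻¹ ∈ Q := by
      rw [← hg]
      show g * b * g⁻¹ ∈ (MulAut.conj g • (P : Subgroup G) : Subgroup G)
      rw [SZ.mem_conj_smul]
      simpa [mul_assoc] using hP (mem_zpowers b)
    have hmem := isE_or_forall_mem_zpowers Q.2 (hQ (mem_zpowers a)) hao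
      (fun E hE _ => hno ⟨E, hE⟩) _ hbQ (by rw [orderOf_conj', hbo])
    obtain ⟨k, hk⟩ := pow_mem_of_mem hao hmem (by
      intro e
      exact orderOf_ne_one_of_prime (hprime x hx) hbo (conj_eq_one_iff.1 e))
    refine ⟨g * c * g⁻¹, mem_centralizer_singleton_iff.2 ?_, by rw [orderOf_conj', hco]⟩
    rw [← hk]
    exact (((Commute.conj_iff g).2 hbc.symm).zpow_right k).eq
  refine false_three_primes (G := centralizer ({a} : Set G)) hcard
    (fun y hy => hprime y (Finset.mem_erase.1 hy).2) (fun y hy => ?_) ?_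
  · obtain ⟨e, he, heo⟩ := helt y hy
    exact ⟨⟨e, he⟩, by rw [Subgroup.orderOf_mk, heo]⟩
  · intro y z hy hz hyz u v huo hvo huv
    refine hNT hx (Finset.mem_erase.1 hy).2 (Finset.mem_erase.1 hz).2
      (Finset.mem_erase.1 hy).1.symm hyz (Finset.mem_erase.1 hz).1.symm hao
      (b := (u : G)) (c := (v : G)) (by rw [Subgroup.orderOf_coe, huo])
      (by rw [Subgroup.orderOf_coe, hvo]) ?_ ?_ (congrArg Subtype.val huv)
    · exact (show Commute (u : G) a from mem_centralizer_singleton_iff.1 u.2).symm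
    · exact (show Commute (v : G) a from mem_centralizer_singleton_iff.1 v.2).symm

theorem exists_others {σ : Finset ℕ} (hσ : σ.card = 4) {p q : ℕ} (hp : p ∈ σ) (hq : q ∈ σ)
    (hpq : p ≠ q) : ∃ r s, r ∈ σ ∧ s ∈ σ ∧ r ≠ s ∧ p ≠ r ∧ p ≠ s ∧ q ≠ r ∧ q ≠ s ∧
      ∀ x ∈ σ, x = p ∨ x = q ∨ x = r ∨ x = s := by
  have hq' : q ∈ σ.erase p := Finset.mem_erase.2 ⟨hpq.symm, hq⟩
  obtain ⟨r, s, hrs, h⟩ := Finset.card_eq_two.1 (show ((σ.erase p).erase q).card = 2 by
    rw [Finset.card_erase_of_mem hq', Finset.card_erase_of_mem hp, hσ])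
  have hr : r ∈ (σ.erase p).erase q := by simp [h]
  have hs : s ∈ (σ.erase p).erase q := by simp [h]
  simp only [Finset.mem_erase] at hr hs
  refine ⟨r, s, hr.2.2, hs.2.2, hrs, hr.2.1.symm, hs.2.1.symm, hr.1.symm, hs.1.symm, fun x hx => ?_⟩
  by_cases e1 : x = p
  · exact Or.inl e1
  by_cases e2 : x = q
  · exact Or.inr (Or.inl e2)
  have : x ∈ (σ.erase p).erase q := Finset.mem_erase.2 ⟨e2, Finset.mem_erase.2 ⟨e1, hx⟩⟩
  rw [h, Finset.mem_insert, Finset.mem_singleton] at this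
  exact Or.inr (Or.inr this)

theorem commute_of_order_two {g z : G} (hz : orderOf z = 2) (h : g * z * g⁻¹ ∈ zpowers z) :
    Commute g z := by
  obtain ⟨i, hi⟩ := exists_pow_conj h
  refine mul_inv_eq_iff_eq_mul.1 (hi.trans ?_)
  rcases Nat.even_or_odd' i with ⟨k, rfl | rfl⟩
  · exfalso
    rw [pow_mul, pow_orderOf_prime hz, one_pow, conj_eq_one_iff] at hi
    exact orderOf_ne_one_of_prime Nat.prime_two hz hi
  · rw [pow_add, pow_mul, pow_orderOf_prime hz, one_pow, one_mul, pow_one]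

/-- Only one nontrivial core: contradiction. -/
theorem false_caseB [Group.IsSolvable G] {σ : Finset ℕ} (hσ : σ.card = 4)
    (hprime : ∀ x ∈ σ, x.Prime) (hNT : NoTriple G σ) (hJ : Joined G σ) {p : ℕ} (hp : p ∈ σ)
    (hP1 : core p (⊤ : Subgroup G) ≠ ⊥)
    (honlyP : ∀ x : ℕ, x.Prime → core x (⊤ : Subgroup G) ≠ ⊥ → x = p) : False := by
  haveI := Fact.mk (hprime p hp)
  set P := core p (⊤ : Subgroup G) with hP
  obtain ⟨H, hH⟩ := Hall.exists_isPiHall (G := G) {x : ℕ | x ∈ σ ∧ x ≠ p}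
  have hfaith : ∀ x ∈ H, (∀ v ∈ P, Commute x v) → x = 1 := by
    intro x hx hcent
    by_contra hx1
    obtain ⟨r, hr, hrd⟩ := Nat.exists_prime_and_dvd (fun e => hx1 (orderOf_eq_one_iff.1 e))
    haveI := Fact.mk hr
    have hyo : orderOf (x ^ (orderOf x / r)) = r :=
      orderOf_pow_orderOf_div (orderOf_pos x).ne' hrd
    have hrp : r ≠ p := (hH.1 r hr (hrd.trans (Subgroup.orderOf_dvd_natCard H hx))).2
    have hmem := mem_core_of_centralizes (L := (⊤ : Subgroup G)) (k := 1) (mem_top _)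
      (by rw [hyo, pow_one]) (g := x ^ (orderOf x / r)) fun y hy v hv => by
        by_cases hv1 : v = 1
        · rw [hv1]; exact Commute.one_right _
        obtain rfl := honlyP y hy fun e => hv1 (Subgroup.mem_bot.1 (e ▸ hv))
        exact (hcent v hv).pow_left _
    rw [show core r (⊤ : Subgroup G) = ⊥ from by_contra fun e => hrp (honlyP r hr e)] at hmem
    exact orderOf_ne_one_of_prime hr hyo (Subgroup.mem_bot.1 hmem)
  have hB : Base σ p P H := ⟨hNT, hp, hprime, core_isPGroup p _,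
    fun g _ v hv => core_conj (mem_top g) hv, hfaith, inferInstance⟩
  have hcoreH : ∀ x : ℕ, x.Prime → core x H ≠ ⊥ → x ∈ σ ∧ p ≠ x := by
    intro x hx hne
    haveI := Fact.mk hx
    exact ⟨(hH.1 x hx (core_prime_dvd hne)).1, (hH.1 x hx (core_prime_dvd hne)).2.symm⟩
  have hHall : ∀ {r s : ℕ}, r ∈ σ → s ∈ σ → p ≠ r → p ≠ s → r ≠ s →
      ∃ L : Subgroup G, Cfsg.IsPiHall ({r, s} : Set ℕ) L ∧ L ≤ H ∧
        (∃ E : Subgroup G, IsE r E ∧ E ≤ L) ∧ (∃ E : Subgroup G, IsE s E ∧ E ≤ L) ∧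
        (∃ b ∈ L, ∃ c ∈ L, orderOf b = r ∧ orderOf c = s ∧ Commute b c) := by
    intro r s hr hs pr ps rs
    obtain ⟨L, hL, hLH⟩ := exists_hall_le (π' := ({r, s} : Set ℕ))
      (by rintro x (rfl | rfl); exacts [⟨hr, pr.symm⟩, ⟨hs, ps.symm⟩]) hH
    obtain ⟨Er, hEr⟩ := exists_isE hσ hprime hNT hJ hr
    obtain ⟨Es, hEs⟩ := exists_isE hσ hprime hNT hJ hs
    obtain ⟨a, b, ha, hb, hab⟩ := hJ hr hs rs
    exact ⟨L, hL, hLH, hall_isE hL (hprime r hr) (Or.inl rfl) hEr,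
      hall_isE hL (hprime s hs) (Or.inr rfl) hEs,
      hall_pair hL (hprime r hr) (hprime s hs) rs (Or.inl rfl) (Or.inr rfl) ha hb hab⟩
  by_cases hbig : ∃ q : ℕ, q.Prime ∧ core q H ≠ ⊥ ∧ q ^ 2 ≤ Nat.card (omegaZ q (core q H))
  · obtain ⟨q, hqp, hne, hqcard⟩ := hbig
    obtain ⟨hq, pq⟩ := hcoreH q hqp hne
    obtain ⟨r, s, hr, hs, rs, pr, ps, qr, qs, -⟩ := exists_others hσ hp hq pq
    obtain ⟨L, hL, hLH, hER, hES, hjoin⟩ := hHall hr hs pr ps rs
    haveI : Group.IsSolvable L := inferInstance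
    exact Act.false_of_act (Z := omegaZ q (core q H)) (P := P) (L := L)
      { nt := hNT, hp := hp, hq := hq, hr := hr, hs := hs, pq := pq, pr := pr, ps := ps, qr := qr,
        qs := qs, rs := rs, pp := hprime p hp, qp := hqp, rp := hprime r hr, sp := hprime s hs,
        hP := core_isPGroup p _, hZ := ⟨omegaZ_elem _ _, hqcard⟩,
        Zn := fun l hl z hz => omegaZ_conj (fun v hv => core_conj (hLH hl) hv)
          (fun v hv => conj_inv_mem (fun g hg w hw => core_conj hg hw) (hLH hl) hv) hz,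
        Pn := fun l _ v hv => core_conj (mem_top l) hv,
        PZ := fun z _ v hv => core_conj (mem_top z) hv,
        faith := fun x hx => hfaith x
          (hx.elim (fun e => hLH e) fun e => core_le q H (omegaZ_le _ _ e)),
        P1 := hP1, primes := fun x hx hd => hL.1 x hx hd, ER := hER, ES := hES, join := hjoin,
        solv := inferInstance }
  have hgen : ∀ q : ℕ, q.Prime → core q H ≠ ⊥ → ∃ z ∈ omegaZ q (core q H), orderOf z = q ∧
      ∀ g ∈ H, g * z * g⁻¹ ∈ zpowers z := by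
    intro q hqp hne
    haveI := Fact.mk hqp
    obtain ⟨z, hz, hzo⟩ := exists_omegaZ (core_isPGroup q H) hne
    refine ⟨z, hz, hzo, fun g hg => ?_⟩
    by_contra hnot
    have hgz : g * z * g⁻¹ ∈ omegaZ q (core q H) := omegaZ_conj (fun v hv => core_conj hg hv)
      (fun v hv => conj_inv_mem (fun g hg w hw => core_conj hg hw) hg hv) hz
    obtain ⟨E, hE, hEle, -⟩ := exists_isE_of_two hzo (by rw [orderOf_conj', hzo])
      (hz.2.2 _ hgz.1) hnot hz hgz
    exact hbig ⟨q, hqp, hne, hE.card.trans (Subgroup.card_le_of_le hEle)⟩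
  have hodd : ∀ q : ℕ, q.Prime → core q H ≠ ⊥ → q ≠ 2 := by
    intro q hqp hne hq2
    obtain ⟨hq, pq⟩ := hcoreH q hqp hne
    obtain ⟨r, s, hr, hs, rs, pr, ps, qr, qs, -⟩ := exists_others hσ hp hq pq
    obtain ⟨L, -, hLH, -, -, b, hb, c, hc, hbo, hco, hbc⟩ := hHall hr hs pr ps rs
    obtain ⟨z, hz, hzo, hzn⟩ := hgen q hqp hne
    exact hNT hq hr hs qr rs qs hzo hbo hco
      (commute_of_order_two (hzo.trans hq2) (hzn b (hLH hb))).symm
      (commute_of_order_two (hzo.trans hq2) (hzn c (hLH hc))).symm hbc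
  -- two cores
  have htwo : ∀ {q r s : ℕ}, q ∈ σ → r ∈ σ → s ∈ σ → p ≠ q → p ≠ r → p ≠ s → q ≠ r → q ≠ s →
      r ≠ s → core q H ≠ ⊥ → core r H ≠ ⊥ →
      (∀ x : ℕ, x.Prime → core x H ≠ ⊥ → x = q ∨ x = r) →
      (∀ E : Subgroup G, IsE r E → ¬ E ≤ core r H) → False := by
    intro q r s hq hr hs pq pr ps qr qs rs hnq hnr honly hno
    obtain ⟨L, hL, hLH, ⟨B, hB', hBL⟩, ⟨A, hA, hAL⟩, -⟩ := hHall hr hs pr ps rs
    obtain ⟨z, hz, hzo, hzn⟩ := hgen q (hprime q hq) hnq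
    obtain ⟨w, hw, hwo, hwn⟩ := hgen r (hprime r hr) hnr
    have hwH : w ∈ H := core_le r H (omegaZ_le _ _ hw)
    have hwL : w ∈ L := le_hall_of_normalized hL hLH (zpowers_le.2 hwH)
      (fun g hg v hv => by
        obtain ⟨k, rfl⟩ := hv
        simp only [← conj_zpow]
        exact zpow_mem (hwn g hg) k)
      (by rw [Nat.card_zpowers, hwo]; simpa using Hall.piNum_prime_pow (π := ({r, s} : Set ℕ))
            (hprime r hr) (Or.inl rfl) 1)
      (mem_zpowers w)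
    exact hB.false_two hq hr hs pq pr ps qr qs rs (hodd q (hprime q hq) hnq)
      (hodd r (hprime r hr) hnr) hz hzo hzn hw hwo hwn hno honly hLH hwL
      (fun x hx hd => hL.1 x hx hd) hA hAL hB' hBL
  have hthree : ∀ {q r : ℕ}, q ∈ σ → r ∈ σ → p ≠ q → p ≠ r → q ≠ r → core q H ≠ ⊥ →
      core r H ≠ ⊥ → False := by
    intro q r hq hr pq pr qr hnq hnr
    haveI := Fact.mk (hprime q hq)
    haveI := Fact.mk (hprime r hr)
    obtain ⟨s, s', hs, hs', hss, ps, ps', qs, qs', hall⟩ := exists_others hσ hp hq pq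
    obtain ⟨t, ht, pt, qt, rt, hall'⟩ : ∃ t, t ∈ σ ∧ p ≠ t ∧ q ≠ t ∧ r ≠ t ∧
        ∀ x ∈ σ, x = p ∨ x = q ∨ x = r ∨ x = t := by
      rcases hall r hr with e | e | e | e
      · exact absurd e pr.symm
      · exact absurd e qr.symm
      · exact ⟨s', hs', ps', qs', e ▸ hss, e ▸ hall⟩
      · exact ⟨s, hs, ps, qs, e ▸ hss.symm, fun x hx => by
          rcases hall x hx with h | h | h | h
          exacts [Or.inl h, Or.inr (Or.inl h), Or.inr (Or.inr (Or.inr h)),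
            Or.inr (Or.inr (Or.inl (h.trans e.symm)))]⟩
    have honly : ∀ x : ℕ, x.Prime → core x H ≠ ⊥ → x = q ∨ x = r := by
      intro x hx hne
      obtain ⟨hxσ, px⟩ := hcoreH x hx hne
      rcases hall' x hxσ with e | e | e | e
      · exact absurd e.symm px
      · exact Or.inl e
      · exact Or.inr e
      subst e
      haveI := Fact.mk hx
      obtain ⟨z, hz, hzo, -⟩ := hgen q (hprime q hq) hnq
      obtain ⟨w, hw, hwo, -⟩ := hgen r (hprime r hr) hnr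
      obtain ⟨v, hv, hvo, -⟩ := hgen x hx hne
      exact (hNT hq hr hxσ qr rt qt hzo hwo hvo
        (commute_of_cores qr (omegaZ_le _ _ hz) (omegaZ_le _ _ hw))
        (commute_of_cores qt (omegaZ_le _ _ hz) (omegaZ_le _ _ hv))
        (commute_of_cores rt (omegaZ_le _ _ hw) (omegaZ_le _ _ hv))).elim
    by_cases hno : ∀ E : Subgroup G, IsE r E → ¬ E ≤ core r H
    · exact htwo hq hr ht pq pr pt qr qt rt hnq hnr honly hno
    refine htwo hr hq ht pr pq pt qr.symm rt qt hnr hnq (fun x hx hne => (honly x hx hne).symm)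
      fun Eq hEq hEqU => hno fun Er hEr hErU => ?_
    obtain ⟨e, he, heo, v, hv, hvo, hev⟩ := exists_fixed pr (core_isPGroup p _) hP1 hEr
      (fun g _ w hw => core_conj (mem_top g) hw)
    exact thin hNT hp hq hr pq qr pr heo hEq (core_isPGroup p _)
      (fun g _ w hw => core_conj (mem_top g) hw)
      (fun g hg => commute_of_cores qr.symm (hErU he) (hEqU hg)) hv
      (orderOf_ne_one_of_prime (hprime p hp) hvo) hev
  obtain ⟨q, hqp, -, hnq⟩ := exists_core_ne_bot (L := H) (by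
    obtain ⟨y, hy⟩ := Finset.card_pos.1 (show 0 < (σ.erase p).card by
      rw [Finset.card_erase_of_mem hp, hσ]; omega)
    obtain ⟨hyp, hyσ⟩ := Finset.mem_erase.1 hy
    obtain ⟨a, -, hao, -, -⟩ := hJ hyσ hp hyp
    obtain ⟨b, hb, hbo⟩ := hall_elt hH (hprime y hyσ) ⟨hyσ, hyp⟩ hao
    exact ne_bot_of_mem_order (hprime y hyσ) hb hbo)
  obtain ⟨hq, pq⟩ := hcoreH q hqp hnq
  obtain ⟨r, s, hr, hs, rs, pr, ps, qr, qs, hall⟩ := exists_others hσ hp hq pq
  by_cases hnr : core r H ≠ ⊥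
  · exact hthree hq hr pq pr qr hnq hnr
  by_cases hns : core s H ≠ ⊥
  · exact hthree hq hs pq ps qs hnq hns
  obtain ⟨L, hL, hLH, ⟨B, hB', hBL⟩, ⟨A, hA, hAL⟩, -⟩ := hHall hr hs pr ps rs
  obtain ⟨z, hz, hzo, hzn⟩ := hgen q hqp hnq
  refine hB.false_one hq hr hs pq pr ps qr qs rs (hodd q hqp hnq) hz hzo hzn
    (fun x hx hne => ?_) hLH (fun x hx hd => hL.1 x hx hd) hA hAL hB' hBL
  obtain ⟨hxσ, px⟩ := hcoreH x hx hne
  rcases hall x hxσ with e | e | e | e
  · exact absurd e.symm px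
  · exact e
  · exact absurd (e ▸ hne) hnr
  · exact absurd (e ▸ hne) hns

/-- No solvable group with four such primes. -/
theorem false_of_group [Group.IsSolvable G] {σ : Finset ℕ} (hσ : σ.card = 4)
    (hprime : ∀ x ∈ σ, x.Prime) (hNT : NoTriple G σ) (hJ : Joined G σ)
    (hdvd : ∀ x : ℕ, x.Prime → x ∣ Nat.card G → x ∈ σ) : False := by
  have hcore : ∀ x : ℕ, x.Prime → core x (⊤ : Subgroup G) ≠ ⊥ → x ∈ σ := fun x hx hne => by
    haveI := Fact.mk hx
    exact hdvd x hx ((core_prime_dvd hne).trans (Subgroup.card_subgroup_dvd_card _))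
  obtain ⟨y, hy⟩ := Finset.card_pos.1 (show 0 < σ.card by omega)
  obtain ⟨y', hy'⟩ := Finset.card_pos.1 (show 0 < (σ.erase y).card by
    rw [Finset.card_erase_of_mem hy, hσ]; omega)
  obtain ⟨hyy, hy'σ⟩ := Finset.mem_erase.1 hy'
  obtain ⟨a, -, hao, -, -⟩ := hJ hy hy'σ hyy.symm
  obtain ⟨p, hpp, -, hP1⟩ := exists_core_ne_bot
    (ne_bot_of_mem_order (hprime y hy) (mem_top a) hao)
  have hp := hcore p hpp hP1
  by_cases honly : ∀ x : ℕ, x.Prime → core x (⊤ : Subgroup G) ≠ ⊥ → x = p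
  · exact false_caseB hσ hprime hNT hJ hp hP1 honly
  push Not at honly
  obtain ⟨q, hqp, hQ1, hqp'⟩ := honly
  have hq := hcore q hqp hQ1
  obtain ⟨r, s, hr, hs, rs, pr, ps, qr, qs, -⟩ := exists_others hσ hp hq hqp'.symm
  obtain ⟨L, hL⟩ := Hall.exists_isPiHall (G := G) ({r, s} : Set ℕ)
  obtain ⟨Er, hEr⟩ := exists_isE hσ hprime hNT hJ hr
  obtain ⟨Es, hEs⟩ := exists_isE hσ hprime hNT hJ hs
  haveI := Fact.mk hpp
  haveI := Fact.mk hqp
  exact Pair.false_of_pair (M := core p (⊤ : Subgroup G)) (Z := core q (⊤ : Subgroup G)) (L := L)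
    { nt := hNT, hp := hp, hq := hq, hr := hr, hs := hs, pq := hqp'.symm, pr := pr, ps := ps,
      qr := qr, qs := qs, rs := rs, pp := hpp, qp := hqp, rp := hprime r hr, sp := hprime s hs,
      hM := core_isPGroup p _, hZ := core_isPGroup q _, M1 := hP1, Z1 := hQ1,
      comm := fun m hm z hz => commute_of_cores hqp'.symm hm hz,
      Mn := fun l _ m hm => core_conj (mem_top l) hm,
      Zn := fun l _ m hm => core_conj (mem_top l) hm,
      primes := fun x hx hd => hL.1 x hx hd,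
      ER := hall_isE hL (hprime r hr) (Or.inl rfl) hEr,
      ES := hall_isE hL (hprime s hs) (Or.inr rfl) hEs,
      solv := inferInstance }

/-- The criterion. -/
theorem not_isSolvable (σ : Finset ℕ) (hσ : 4 ≤ σ.card) (hprime : ∀ p ∈ σ, p.Prime)
    (h2 : ∀ p ∈ σ, ∀ q ∈ σ, p ≠ q → ∃ g : G, orderOf g = p * q)
    (h3 : ∀ p ∈ σ, ∀ q ∈ σ, ∀ r ∈ σ, p ≠ q → q ≠ r → p ≠ r → ∀ g : G, orderOf g ≠ p * q * r) :
    ¬ Group.IsSolvable G := by
  intro hsol
  haveI := hsol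
  obtain ⟨τ, hτσ, hτ⟩ := Finset.exists_subset_card_eq hσ
  obtain ⟨K, hK⟩ := Hall.exists_isPiHall (G := G) (↑τ : Set ℕ)
  refine false_of_group (G := K) hτ (fun x hx => hprime x (hτσ hx)) ?_ ?_
    fun x hx hd => Finset.mem_coe.1 (hK.1 x hx hd)
  · intro p q r hp hq hr pq qr pr a b c ha hb hc hab hac hbc
    have hpp := hprime p (hτσ hp)
    have hqp := hprime q (hτσ hq)
    have hrp := hprime r (hτσ hr)
    have h1 : orderOf (a * b) = p * q := by
      rw [hab.orderOf_mul_eq_mul_orderOf_of_coprime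
        (by rw [ha, hb]; exact (Nat.coprime_primes hpp hqp).2 pq), ha, hb]
    refine h3 p (hτσ hp) q (hτσ hq) r (hτσ hr) pq qr pr ((a * b * c : K) : G) ?_
    rw [Subgroup.orderOf_coe, (hac.mul_left hbc).orderOf_mul_eq_mul_orderOf_of_coprime
      (by rw [h1, hc]; exact ((Nat.coprime_primes hpp hrp).2 pr).mul_left
            ((Nat.coprime_primes hqp hrp).2 qr)), h1, hc]
  · intro p hp q hq pq
    have hpp := hprime p (hτσ hp)
    have hqp := hprime q (hτσ hq)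
    obtain ⟨g, hg⟩ := h2 p (hτσ hp) q (hτσ hq) pq
    obtain ⟨a, ha, b, hb, hao, hbo, hab⟩ := hall_pair hK hpp hqp pq (Finset.mem_coe.2 hp)
      (Finset.mem_coe.2 hq) (a := g ^ q) (b := g ^ p)
      (by rw [orderOf_pow' g hqp.ne_zero, hg, Nat.gcd_eq_right (dvd_mul_left q p),
            Nat.mul_div_cancel _ hqp.pos])
      (by rw [orderOf_pow' g hpp.ne_zero, hg, Nat.gcd_eq_right (dvd_mul_right p q),
            Nat.mul_div_cancel_left _ hpp.pos])
      ((Commute.refl g).pow_pow q p)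
    exact ⟨⟨a, ha⟩, ⟨b, hb⟩, by rw [Subgroup.orderOf_mk, hao], by rw [Subgroup.orderOf_mk, hbo],
      Subtype.ext hab.eq⟩

end Cfsg.Agent.ThreeJoin
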