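import Cfsg.Agent.OddChar.FixedPoint
import Cfsg.Agent.Signalizer.Generation
import Cfsg.Agent.Cores.Fitting
import Cfsg.Agent.S0016
import Mathlib.GroupTheory.SpecificGroups.Cyclic

/-!
# Groups without three commuting prime orders: tools
-/

set_option autoImplicit false
set_option linter.unusedSectionVars false
set_option linter.style.haveILetI false

namespace Cfsg.Agent.ThreeJoin

open Subgroup

universe u

variable {G : Type u} [Group G]

/-- No three pairwise commuting elements of three distinct prime orders from `σ`. -/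
def NoTriple (G : Type u) [Group G] (σ : Finset ℕ) : Prop :=
  ∀ ⦃p q r : ℕ⦄, p ∈ σ → q ∈ σ → r ∈ σ → p ≠ q → q ≠ r → p ≠ r → ∀ ⦃a b c : G⦄,
    orderOf a = p → orderOf b = q → orderOf c = r →
    Commute a b → Commute a c → Commute b c → False

/-- A noncyclic elementary abelian `x`-subgroup. -/
structure IsE (x : ℕ) (E : Subgroup G) : Prop where
  elem : Cfsg.IsElementaryAbelian x E
  card : x ^ 2 ≤ Nat.card E

theorem IsE.comm {x : ℕ} {E : Subgroup G} (hE : IsE x E) {a b : G} (ha : a ∈ E) (hb : b ∈ E) :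
    Commute a b := Signalizer.elemAb_comm hE.elem ha hb

theorem IsE.pow_eq {x : ℕ} {E : Subgroup G} (hE : IsE x E) {a : G} (ha : a ∈ E) : a ^ x = 1 :=
  hE.elem.2 a ha

theorem IsE.orderOf_eq {x : ℕ} [Fact x.Prime] {E : Subgroup G} (hE : IsE x E) {a : G} (ha : a ∈ E)
    (h1 : a ≠ 1) : orderOf a = x := Signalizer.elemAb_orderOf hE.elem ha h1

variable [Finite G]

theorem orderOf_ne_one_of_prime {x : ℕ} (hx : x.Prime) {a : G} (h : orderOf a = x) : a ≠ 1 :=
  fun q => hx.ne_one (by rw [← h, q, orderOf_one])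

theorem pow_orderOf_prime {x : ℕ} {a : G} (h : orderOf a = x) : a ^ x = 1 := by
  rw [← h]; exact pow_orderOf_eq_one a

theorem eq_one_of_pow_coprime {a : G} {m n : ℕ} (hmn : m.Coprime n) (h1 : a ^ m = 1)
    (h2 : a ^ n = 1) : a = 1 :=
  orderOf_eq_one_iff.1 (Nat.eq_one_of_dvd_coprimes hmn (orderOf_dvd_of_pow_eq_one h1)
    (orderOf_dvd_of_pow_eq_one h2))

theorem isPGroup_zpowers {x : ℕ} [Fact x.Prime] {a : G} (h : orderOf a = x) :
    IsPGroup x (zpowers a) :=
  IsPGroup.of_card (n := 1) (by rw [Nat.card_zpowers, h, pow_one])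

theorem not_dvd_card {p x : ℕ} [Fact p.Prime] {V : Subgroup G} (hV : IsPGroup p V) (hx : x.Prime)
    (hne : x ≠ p) : ¬ x ∣ Nat.card V := by
  intro h
  obtain ⟨k, hk⟩ := IsPGroup.iff_card.1 hV
  rw [hk] at h
  exact hne ((Nat.prime_dvd_prime_iff_eq hx Fact.out).1 (hx.dvd_of_dvd_pow h))

theorem orderOf_eq_pow {p : ℕ} [Fact p.Prime] {V : Subgroup G} (hV : IsPGroup p V) {v : G}
    (hv : v ∈ V) : ∃ k : ℕ, orderOf v = p ^ k := by
  obtain ⟨k, hk⟩ := IsPGroup.iff_orderOf.1 hV ⟨v, hv⟩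
  exact ⟨k, by rw [← hk, Subgroup.orderOf_mk]⟩

/-- Some power of a nontrivial element of a `p`-group has order `p`. -/
theorem exists_pow_orderOf {p : ℕ} [Fact p.Prime] {V : Subgroup G} (hV : IsPGroup p V) {v : G}
    (hv : v ∈ V) (h1 : v ≠ 1) : ∃ n : ℕ, orderOf (v ^ n) = p := by
  obtain ⟨k, hk⟩ := orderOf_eq_pow hV hv
  refine ⟨orderOf v / p, orderOf_pow_orderOf_div (orderOf_pos v).ne' ?_⟩
  rw [hk]
  refine dvd_pow_self p fun q => h1 ?_
  rw [q, pow_zero] at hk
  exact orderOf_eq_one_iff.1 hk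

theorem eq_one_of_mem_both {p x : ℕ} [Fact p.Prime] [Fact x.Prime] (hne : p ≠ x) {V W : Subgroup G}
    (hV : IsPGroup p V) (hW : IsPGroup x W) {a : G} (ha : a ∈ V) (ha' : a ∈ W) : a = 1 := by
  obtain ⟨i, hi⟩ := orderOf_eq_pow hV ha
  obtain ⟨j, hj⟩ := orderOf_eq_pow hW ha'
  rw [← orderOf_eq_one_iff]
  refine Nat.eq_one_of_dvd_coprimes ?_ hi.dvd hj.dvd
  exact ((Nat.coprime_primes Fact.out Fact.out).2 hne).pow i j

theorem exists_isE_of_two {x : ℕ} [Fact x.Prime] {a b : G} (ha : orderOf a = x)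
    (hb : orderOf b = x) (hab : Commute a b) (hnot : b ∉ zpowers a) {H : Subgroup G} (haH : a ∈ H)
    (hbH : b ∈ H) : ∃ E : Subgroup G, IsE x E ∧ E ≤ H ∧ a ∈ E ∧ b ∈ E ∧
      ∀ u ∈ E, ∃ i j : ℤ, u = a ^ i * b ^ j := by
  set E := closure ({a, b} : Set G) with hE
  have haE : a ∈ E := subset_closure (Set.mem_insert a {b})
  have hbE : b ∈ E := subset_closure (Set.mem_insert_of_mem a (Set.mem_singleton b))
  have hcomm : IsMulCommutative E := by
    refine Subgroup.isMulCommutative_closure fun u hu v hv => ?_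
    rcases hu with rfl | rfl <;> rcases hv with rfl | rfl
    exacts [rfl, hab.eq, hab.eq.symm, rfl]
  have hexp : ∀ u ∈ E, u ^ x = 1 := by
    intro u hu
    induction hu using Subgroup.closure_induction with
    | mem v hv =>
      rcases hv with rfl | rfl
      exacts [pow_orderOf_prime ha, pow_orderOf_prime hb]
    | one => exact one_pow x
    | mul u v hu hv ihu ihv =>
      have hc : Commute u v := congrArg Subtype.val (hcomm.is_comm.comm ⟨u, hu⟩ ⟨v, hv⟩)
      rw [hc.mul_pow, ihu, ihv, one_mul]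
    | inv u hu ihu => rw [inv_pow, ihu, inv_one]
  have hel : Cfsg.IsElementaryAbelian x E := ⟨hcomm, hexp⟩
  refine ⟨E, ⟨hel, ?_⟩, (closure_le _).2 fun u hu => ?_, haE, hbE, fun u hu => ?_⟩
  · have hlt : zpowers a < E := lt_of_le_of_ne (zpowers_le.2 haE) fun q => hnot (q ▸ hbE)
    have h1 := Signalizer.mul_prime_le_card_of_lt (p := x) (Signalizer.elemAb_isPGroup hel) hlt
    rwa [Nat.card_zpowers, ha, ← pow_two] at h1
  · rcases hu with rfl | rfl
    exacts [haH, hbH]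
  · induction hu using Subgroup.closure_induction with
    | mem v hv =>
      rcases hv with rfl | rfl
      exacts [⟨1, 0, by simp⟩, ⟨0, 1, by simp⟩]
    | one => exact ⟨0, 0, by simp⟩
    | mul u v hu hv ihu ihv =>
      obtain ⟨i, j, rfl⟩ := ihu
      obtain ⟨k, l, rfl⟩ := ihv
      exact ⟨i + k, j + l, by
        rw [(hab.symm.zpow_zpow j k).mul_mul_mul_comm, ← zpow_add, ← zpow_add]⟩
    | inv u hu ihu =>
      obtain ⟨i, j, rfl⟩ := ihu
      exact ⟨-i, -j, by rw [(hab.zpow_zpow i j).eq, mul_inv_rev, ← zpow_neg, ← zpow_neg]⟩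

theorem IsE.exists_ne_one {x : ℕ} [Fact x.Prime] {E : Subgroup G} (hE : IsE x E) :
    ∃ a ∈ E, orderOf a = x := by
  obtain ⟨a, ha, h1⟩ := Signalizer.exists_ne_one_of_le_card
    (lt_of_lt_of_le (Nat.one_lt_pow two_ne_zero (Fact.out : x.Prime).one_lt) hE.card)
  exact ⟨a, ha, hE.orderOf_eq ha h1⟩

theorem IsE.exists_not_zpowers {x : ℕ} [Fact x.Prime] {E : Subgroup G} (hE : IsE x E) (z : G)
    (hz : orderOf z = x) : ∃ b ∈ E, b ∉ zpowers z := by
  by_contra hc
  push Not at hc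
  have h := Subgroup.card_le_of_le (show E ≤ zpowers z from hc)
  rw [Nat.card_zpowers, hz] at h
  have := hE.card
  have := (Fact.out : x.Prime).two_le
  nlinarith

theorem normalizes {E V : Subgroup G} (h : ∀ e ∈ E, ∀ v ∈ V, e * v * e⁻¹ ∈ V) :
    E ≤ normalizer (V : Set G) := le_normalizer_iff.2 h

/-- A noncyclic elementary abelian group acting coprimely fixes some nontrivial element. -/
theorem exists_fixed {p x : ℕ} [Fact p.Prime] [Fact x.Prime] (hne : p ≠ x) {V E : Subgroup G}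
    (hV : IsPGroup p V) (hV1 : V ≠ ⊥) (hE : IsE x E)
    (hn : ∀ e ∈ E, ∀ v ∈ V, e * v * e⁻¹ ∈ V) :
    ∃ e ∈ E, orderOf e = x ∧ ∃ v ∈ V, orderOf v = p ∧ Commute e v := by
  by_contra hc
  refine hV1 (le_bot_iff.1 (Signalizer.le_of_forall_centralizer hE.elem hE.card (normalizes hn)
    (not_dvd_card hV Fact.out hne.symm) fun a ha ha1 v hv => ?_))
  by_contra hv1
  obtain ⟨n, hn'⟩ := exists_pow_orderOf hV hv.1 hv1
  exact hc ⟨a, ha, hE.orderOf_eq ha ha1, v ^ n, pow_mem hv.1 n, hn',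
    (mem_centralizer_singleton_iff.1 hv.2 |> fun q => (show Commute a v from q.symm)).pow_right n⟩

/-- An element of order `g` centralizing a noncyclic `q`-group has no fixed point in a
`q`-group-invariant `p`-group. -/
theorem thin {σ : Finset ℕ} (hNT : NoTriple G σ) {p q r : ℕ} [Fact p.Prime] [Fact q.Prime]
    (hp : p ∈ σ) (hq : q ∈ σ) (hr : r ∈ σ) (hpq : p ≠ q) (hqr : q ≠ r) (hpr : p ≠ r)
    {g : G} (hg : orderOf g = r) {E V : Subgroup G} (hE : IsE q E) (hV : IsPGroup p V)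
    (hn : ∀ e ∈ E, ∀ v ∈ V, e * v * e⁻¹ ∈ V) (hge : ∀ e ∈ E, Commute g e)
    {v : G} (hv : v ∈ V) (hv1 : v ≠ 1) (hgv : Commute g v) : False := by
  have hV' : IsPGroup p (V ⊓ centralizer {g} : Subgroup G) := hV.to_le inf_le_left
  have hne : (V ⊓ centralizer {g} : Subgroup G) ≠ ⊥ := fun h => hv1 (by
    rw [← Subgroup.mem_bot, ← h]
    exact ⟨hv, mem_centralizer_singleton_iff.2 hgv.symm.eq⟩)
  obtain ⟨e, he, heo, w, hw, hwo, hew⟩ := exists_fixed hpq hV' hne hE fun a ha w hw =>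
    ⟨hn a ha w hw.1, mem_centralizer_singleton_iff.2 (by
      have h1 : Commute g (a * w * a⁻¹) :=
        ((hge a ha).mul_right (show Commute g w from (mem_centralizer_singleton_iff.1 hw.2).symm)
          ).mul_right (hge a ha).inv_right
      exact h1.symm.eq)⟩
  exact hNT hp hq hr hpq hqr hpr hwo heo hg hew.symm
    (show Commute w g from mem_centralizer_singleton_iff.1 hw.2) (hge e he).symm

/-- A group with a semiregular operator group: if its fixed points are fixed by the whole group,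
the group centralizes. -/
theorem commute_of_semiregular {p : ℕ} [Fact p.Prime] {U E V : Subgroup G} (hV : IsPGroup p V)
    (hpU : ¬ p ∣ Nat.card U) (hpE : ¬ p ∣ Nat.card E) (hUE : U ⊓ E = ⊥)
    (hUn : ∀ e ∈ E, ∀ u ∈ U, e * u * e⁻¹ ∈ U)
    (hfpf : ∀ e ∈ E, e ≠ 1 → ∀ u ∈ U, Commute e u → u = 1)
    (hUV : ∀ u ∈ U, ∀ v ∈ V, u * v * u⁻¹ ∈ V) (hEV : ∀ e ∈ E, ∀ v ∈ V, e * v * e⁻¹ ∈ V)
    (hfix : ∀ v ∈ V, (∀ e ∈ E, Commute e v) → ∀ u ∈ U, Commute u v) :
    ∀ u ∈ U, ∀ v ∈ V, Commute u v := by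
  have hn : E ≤ normalizer (U : Set G) := normalizes hUn
  have hc : Nat.card ↥(U ⊔ E) = Nat.card E * Nat.card U := by
    rw [sup_comm]
    exact Coprime.card_sup_of_disjoint hn (by rw [inf_comm]; exact hUE)
  have hnd : ¬ p ∣ Nat.card ↥(U ⊔ E) := by
    rw [hc]
    exact fun h => (Fact.out : p.Prime).dvd_mul.1 h |>.elim hpE hpU
  have hcop : (Nat.card V).Coprime (Nat.card ↥(U ⊔ E)) := by
    obtain ⟨k, hk⟩ := IsPGroup.iff_card.1 hV
    rw [hk]
    exact Nat.Coprime.pow_left k ((Fact.out : p.Prime).coprime_iff_not_dvd.2 hnd)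
  have hsolv : Group.IsSolvable V := by haveI := hV.isNilpotent; infer_instance
  have hN : U ⊔ E ≤ normalizer (V : Set G) := sup_le (normalizes hUV) (normalizes hEV)
  have key := OddChar.FixedPoint.frobenius_fixed_of_normalized U E V hUE hUn
    (fun e he he1 u hu q => hfpf e he he1 u hu q)
    (fun x hx v hv => (mem_normalizer_iff.1 (hN hx) v).1 hv) hsolv hcop
  have heq : (V ⊓ centralizer ((U ⊔ E : Subgroup G) : Set G) : Subgroup G)
      = V ⊓ centralizer (E : Set G) := by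
    refine le_antisymm (inf_le_inf_left _ (centralizer_le (SetLike.coe_subset_coe.2 le_sup_right))) ?_
    intro v hv
    refine ⟨hv.1, ?_⟩
    have : U ⊔ E ≤ centralizer ({v} : Set G) := sup_le
      (fun u hu => mem_centralizer_singleton_iff.2
        (hfix v hv.1 (fun e he => mem_centralizer_iff.1 hv.2 e he) u hu).eq)
      (fun e he => mem_centralizer_singleton_iff.2 (mem_centralizer_iff.1 hv.2 e he))
    exact mem_centralizer_iff.2 fun y hy => mem_centralizer_singleton_iff.1 (this hy)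
  rw [heq] at key
  have h2 := Nat.eq_of_mul_eq_mul_left (pow_pos Nat.card_pos _) key
  have hle : V ≤ V ⊓ centralizer (U : Set G) :=
    (Subgroup.eq_of_le_of_card_ge inf_le_left h2.le).ge
  exact fun u hu v hv => mem_centralizer_iff.1 (hle hv).2 u hu

/-- The special case of an operator of prime order without fixed points. -/
theorem commute_of_fpf {p r : ℕ} [Fact p.Prime] [Fact r.Prime] (hpr : p ≠ r) {U V : Subgroup G}
    (hV : IsPGroup p V) (hpU : ¬ p ∣ Nat.card U) {c : G} (hc : orderOf c = r)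
    (hUn : ∀ u ∈ U, c * u * c⁻¹ ∈ U) (hfpf : ∀ u ∈ U, Commute c u → u = 1)
    (hUV : ∀ u ∈ U, ∀ v ∈ V, u * v * u⁻¹ ∈ V) (hcV : ∀ v ∈ V, c * v * c⁻¹ ∈ V)
    (hfix : ∀ v ∈ V, Commute c v → ∀ u ∈ U, Commute u v) :
    ∀ u ∈ U, ∀ v ∈ V, Commute u v := by
  have hpow : ∀ e ∈ zpowers c, ∃ n : ℕ, e = c ^ n := fun e he => by
    obtain ⟨n, hn⟩ := (Submonoid.mem_powers_iff _ _).1 (mem_powers_iff_mem_zpowers.2 he)
    exact ⟨n, hn.symm⟩
  have hgen : ∀ e ∈ zpowers c, e ≠ 1 → c ∈ zpowers e := by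
    intro e he he1
    have ho : orderOf e = r :=
      orderOf_eq_prime (by
        obtain ⟨n, rfl⟩ := hpow e he
        rw [← pow_mul, mul_comm, pow_mul, pow_orderOf_prime hc, one_pow]) he1
    rw [Subgroup.eq_of_le_of_card_ge (zpowers_le.2 he)
      (by rw [Nat.card_zpowers, Nat.card_zpowers, hc, ho])]
    exact mem_zpowers c
  have hconj : ∀ {S : Subgroup G}, (∀ v ∈ S, c * v * c⁻¹ ∈ S) → ∀ e ∈ zpowers c, ∀ v ∈ S,
      e * v * e⁻¹ ∈ S := by
    intro S hS e he v hv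
    obtain ⟨n, rfl⟩ := hpow e he
    induction n with
    | zero => simpa using hv
    | succ n ih =>
      rw [pow_succ', show c * c ^ n * v * (c * c ^ n)⁻¹ = c * (c ^ n * v * (c ^ n)⁻¹) * c⁻¹ by group]
      exact hS _ (ih (pow_mem (mem_zpowers c) n))
  refine commute_of_semiregular hV hpU ?_ ?_ (hconj hUn) ?_ hUV (hconj hcV) fun v hv h =>
    hfix v hv (h c (mem_zpowers c))
  · rw [Nat.card_zpowers, hc]
    exact fun h => hpr ((Nat.prime_dvd_prime_iff_eq Fact.out Fact.out).1 h)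
  · rw [eq_bot_iff]
    intro x hx
    rw [Subgroup.mem_bot]
    by_contra hx1
    have hcx : Commute c x := by
      obtain ⟨n, hn⟩ := hpow x hx.2
      rw [hn]; exact Commute.pow_right (Commute.refl c) n
    exact hx1 (hfpf x hx.1 hcx)
  · intro e he he1 u hu hcomm
    obtain ⟨k, rfl⟩ := hgen e he he1
    exact hfpf u hu (hcomm.zpow_left k)

theorem isE_or_forall_mem_zpowers {x : ℕ} [Fact x.Prime] {X : Subgroup G} (hX : IsPGroup x X)
    {z : G} (hz : z ∈ X) (hzo : orderOf z = x) (hno : ∀ E : Subgroup G, IsE x E → ¬ E ≤ X) :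
    ∀ b ∈ X, orderOf b = x → b ∈ zpowers z := by
  haveI : Nontrivial X := ⟨⟨⟨z, hz⟩, 1, fun q => orderOf_ne_one_of_prime Fact.out hzo
    (congrArg Subtype.val q)⟩⟩
  haveI := hX.center_nontrivial
  obtain ⟨c, hc⟩ := exists_ne (1 : center X)
  have hcX : ((c : X) : G) ∈ X := (c : X).2
  have hc1 : ((c : X) : G) ≠ 1 := fun q => hc (Subtype.ext (Subtype.ext q))
  obtain ⟨n, hn⟩ := exists_pow_orderOf hX hcX hc1
  have hcomm : ∀ y ∈ X, Commute (((c : X) : G) ^ n) y := fun y hy =>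
    (show Commute ((c : X) : G) y from
      (congrArg Subtype.val (mem_center_iff.1 c.2 ⟨y, hy⟩) :).symm).pow_left n
  have hmem : ∀ y ∈ X, orderOf y = x → y ∈ zpowers (((c : X) : G) ^ n) := fun y hy hyo => by
    by_contra hne
    obtain ⟨E, hE, hEX, -⟩ := exists_isE_of_two hn hyo (hcomm y hy) hne (pow_mem hcX n) hy
    exact hno E hE hEX
  intro b hb hbo
  have h1 : zpowers z = zpowers (((c : X) : G) ^ n) :=
    Subgroup.eq_of_le_of_card_ge (zpowers_le.2 (hmem z hz hzo))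
      (by rw [Nat.card_zpowers, Nat.card_zpowers, hzo, hn])
  rw [h1]
  exact hmem b hb hbo

theorem isCyclic_of_no_isE {x : ℕ} [Fact x.Prime] (hx2 : x ≠ 2) {X : Subgroup G}
    (hX : IsPGroup x X) (hno : ∀ E : Subgroup G, IsE x E → ¬ E ≤ X) : IsCyclic X := by
  refine (S0016.result x hX fun H K hH hK => ?_).resolve_right fun h => hx2 h.1
  have key : ∀ H : Subgroup X, Nat.card H = x → ∃ a : X, a ∈ H ∧ orderOf (a : G) = x := by
    intro H hH
    obtain ⟨a, ha⟩ := exists_prime_orderOf_dvd_card' (G := H) x (dvd_of_eq hH.symm)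
    exact ⟨a, a.2, by rw [Subgroup.orderOf_coe, Subgroup.orderOf_coe, ha]⟩
  obtain ⟨a, haH, hao⟩ := key H hH
  obtain ⟨b, hbK, hbo⟩ := key K hK
  have hba := isE_or_forall_mem_zpowers hX a.2 hao hno b b.2 hbo
  have h1 : zpowers a = H := Subgroup.eq_of_le_of_card_ge (zpowers_le.2 haH)
    (by rw [Nat.card_zpowers, hH, ← Subgroup.orderOf_coe, hao])
  have h2 : zpowers b = K := Subgroup.eq_of_le_of_card_ge (zpowers_le.2 hbK)
    (by rw [Nat.card_zpowers, hK, ← Subgroup.orderOf_coe, hbo])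
  have h3 : zpowers b ≤ zpowers a := by
    obtain ⟨k, hk⟩ := hba
    exact zpowers_le.2 ⟨k, Subtype.ext hk⟩
  rw [← h1, ← h2]
  exact (Subgroup.eq_of_le_of_card_ge h3 (by rw [h1, h2, hH, hK])).symm

/-- Two powers action: an element conjugating a generator into the cyclic group. -/
theorem commute_conj_of_cyclic {V : Subgroup G} [IsCyclic V] {g h : G}
    (hg : ∀ v ∈ V, g * v * g⁻¹ ∈ V) (hh : ∀ v ∈ V, h * v * h⁻¹ ∈ V) :
    ∀ v ∈ V, g * (h * v * h⁻¹) * g⁻¹ = h * (g * v * g⁻¹) * h⁻¹ := by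
  obtain ⟨v0, hv0⟩ := IsCyclic.exists_generator (α := V)
  intro v hv
  obtain ⟨n, hn⟩ := hv0 ⟨v, hv⟩
  obtain ⟨i, hi⟩ := hv0 ⟨_, hg v0 v0.2⟩
  obtain ⟨j, hj⟩ := hv0 ⟨_, hh v0 v0.2⟩
  have hn' : (v0 : G) ^ n = v := congrArg Subtype.val hn
  have hi' : (v0 : G) ^ i = g * v0 * g⁻¹ := congrArg Subtype.val hi
  have hj' : (v0 : G) ^ j = h * v0 * h⁻¹ := congrArg Subtype.val hj
  subst hn'
  have e1 : ∀ m : ℤ, g * (v0 : G) ^ m * g⁻¹ = (v0 : G) ^ (i * m) := fun m => by
    rw [← conj_zpow, ← hi', ← zpow_mul]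
  have e2 : ∀ m : ℤ, h * (v0 : G) ^ m * h⁻¹ = (v0 : G) ^ (j * m) := fun m => by
    rw [← conj_zpow, ← hj', ← zpow_mul]
  rw [e2, e1, e1, e2]
  congr 1
  ring

/-- Commutators of elements normalizing a cyclic group centralize it. -/
theorem comm_centralizes_cyclic {V : Subgroup G} [IsCyclic V] {g h : G}
    (hg : ∀ v ∈ V, g * v * g⁻¹ ∈ V) (hh : ∀ v ∈ V, h * v * h⁻¹ ∈ V)
    (hg' : ∀ v ∈ V, g⁻¹ * v * g ∈ V) (hh' : ∀ v ∈ V, h⁻¹ * v * h ∈ V) :
    ∀ v ∈ V, Commute (g * h * g⁻¹ * h⁻¹) v := by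
  intro v hv
  have h1 : g⁻¹ * (h⁻¹ * v * h) * g ∈ V := hg' _ (hh' v hv)
  have h2 := commute_conj_of_cyclic hg hh _ h1
  refine mul_inv_eq_iff_eq_mul.1 ?_
  calc g * h * g⁻¹ * h⁻¹ * v * (g * h * g⁻¹ * h⁻¹)⁻¹
      = g * (h * (g⁻¹ * (h⁻¹ * v * h) * g) * h⁻¹) * g⁻¹ := by group
    _ = h * (g * (g⁻¹ * (h⁻¹ * v * h) * g) * g⁻¹) * h⁻¹ := h2
    _ = v := by group

/-- A noncyclic elementary group normalizing a group of prime order centralizes part of it. -/
theorem exists_commute_of_normalizes {s r : ℕ} [Fact s.Prime] [Fact r.Prime] {E : Subgroup G}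
    (hE : IsE s E) {w : G} (hw : orderOf w = r) (hn : ∀ e ∈ E, e * w * e⁻¹ ∈ zpowers w) :
    ∃ e ∈ E, orderOf e = s ∧ Commute e w := by
  by_contra hc
  have hnorm : E ≤ normalizer (zpowers w : Set G) := normalizes fun e he v hv => by
    obtain ⟨k, rfl⟩ := hv
    simp only [← conj_zpow]
    exact zpow_mem (hn e he) k
  let f : E →* MulAut (zpowers w) :=
    (Subgroup.normalizerMonoidHom (zpowers w)).comp (Subgroup.inclusion hnorm)
  have hinj : Function.Injective f := by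
    rw [injective_iff_map_eq_one]
    intro e he
    by_contra he1
    refine hc ⟨e, e.2, hE.orderOf_eq e.2 (fun q => he1 (Subtype.ext q)), ?_⟩
    have h1 : (e : G) * w * (e : G)⁻¹ = w :=
      congrArg (fun F : MulAut (zpowers w) => ((F ⟨w, mem_zpowers w⟩ : zpowers w) : G)) he
    exact mul_inv_eq_iff_eq_mul.1 h1
  have hcyc : IsCyclic (MulAut (zpowers w)) := by
    haveI : IsCyclic (ZMod (Nat.card (zpowers w)))ˣ := by
      rw [Nat.card_zpowers, hw]; infer_instance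
    exact isCyclic_of_surjective _ (IsCyclic.mulAutMulEquiv (zpowers w)).symm.surjective
  haveI := hcyc
  haveI : IsCyclic E := isCyclic_of_injective f hinj
  obtain ⟨g, hg⟩ := IsCyclic.exists_generator (α := E)
  have h1 : Nat.card E = orderOf g := (orderOf_eq_card_of_forall_mem_zpowers hg).symm
  have h2 : orderOf g ≤ s := Nat.le_of_dvd (Fact.out : s.Prime).pos
    (orderOf_dvd_of_pow_eq_one (Subtype.ext (hE.pow_eq g.2)))
  have h3 := hE.card
  have := (Fact.out : s.Prime).two_le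
  nlinarith

end Cfsg.Agent.ThreeJoin
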