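import Cfsg.Agent.ThreeJoin.Cores
import Mathlib.FieldTheory.Finite.Basic

/-!
# Two commuting groups of different prime power orders normalized by a Hall subgroup
-/

set_option autoImplicit false
set_option linter.unusedSectionVars false
set_option linter.style.haveILetI false

namespace Cfsg.Agent.ThreeJoin

open Subgroup

universe u

variable {G : Type u} [Group G] [Finite G]

/-- Commuting nontrivial `p`- and `q`-groups normalized by an `{r, s}`-group with noncyclic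
elementary abelian subgroups. -/
structure Pair (σ : Finset ℕ) (p q r s : ℕ) (M Z L : Subgroup G) : Prop where
  nt : NoTriple G σ
  hp : p ∈ σ
  hq : q ∈ σ
  hr : r ∈ σ
  hs : s ∈ σ
  pq : p ≠ q
  pr : p ≠ r
  ps : p ≠ s
  qr : q ≠ r
  qs : q ≠ s
  rs : r ≠ s
  pp : p.Prime
  qp : q.Prime
  rp : r.Prime
  sp : s.Prime
  hM : IsPGroup p M
  hZ : IsPGroup q Z
  M1 : M ≠ ⊥
  Z1 : Z ≠ ⊥
  comm : ∀ m ∈ M, ∀ z ∈ Z, Commute m z
  Mn : ∀ l ∈ L, ∀ m ∈ M, l * m * l⁻¹ ∈ M
  Zn : ∀ l ∈ L, ∀ z ∈ Z, l * z * l⁻¹ ∈ Z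
  primes : ∀ x : ℕ, x.Prime → x ∣ Nat.card L → x = r ∨ x = s
  ER : ∃ E : Subgroup G, IsE r E ∧ E ≤ L
  ES : ∃ E : Subgroup G, IsE s E ∧ E ≤ L
  solv : Group.IsSolvable L

theorem conj_pow_iter {g b : G} {i : ℕ} (h : g * b * g⁻¹ = b ^ i) :
    ∀ n : ℕ, g ^ n * b * (g ^ n)⁻¹ = b ^ (i ^ n) := by
  intro n
  induction n with
  | zero => simp
  | succ n ih =>
    rw [pow_succ' g n, show g * g ^ n * b * (g * g ^ n)⁻¹ = g * (g ^ n * b * (g ^ n)⁻¹) * g⁻¹ by
      group, ih, ← conj_pow, h, ← pow_mul, ← pow_succ']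

theorem zmod_eq_one_of_pow {r : ℕ} [Fact r.Prime] {a : ZMod r} {k : ℕ} (h : a ^ r ^ k = 1) :
    a = 1 := by
  have h2 : a ^ r ^ k = a := by
    clear h
    induction k with
    | zero => simp
    | succ k ih => rw [pow_succ, pow_mul, ih, ZMod.pow_card]
  rw [h2] at h
  exact h

/-- An `r`-element normalizing a group of order `r` centralizes it. -/
theorem commute_of_pElement {r : ℕ} [Fact r.Prime] {g w : G} (hw : orderOf w = r) {k : ℕ}
    (hg : g ^ r ^ k = 1) (h : g * w * g⁻¹ ∈ zpowers w) : Commute g w := by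
  obtain ⟨i, hi⟩ := (Submonoid.mem_powers_iff _ _).1 (mem_powers_iff_mem_zpowers.2 h)
  have h1 := conj_pow_iter hi.symm (r ^ k)
  rw [hg, one_mul, inv_one, mul_one] at h1
  have h2 : ((i : ZMod r)) ^ r ^ k = 1 := by
    have := (pow_eq_pow_iff_modEq (x := w) (n := i ^ r ^ k) (m := 1)).1 (h1.symm.trans (pow_one w).symm)
    rw [hw, ← ZMod.natCast_eq_natCast_iff] at this
    rw [Nat.cast_pow, Nat.cast_one] at this
    exact this
  have h3 : i ≡ 1 [MOD r] := (ZMod.natCast_eq_natCast_iff _ _ _).1 (by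
    rw [zmod_eq_one_of_pow h2, Nat.cast_one])
  refine mul_inv_eq_iff_eq_mul.1 ?_
  rw [← hi]
  exact ((pow_eq_pow_iff_modEq (x := w) (n := i) (m := 1)).2 (by rw [hw]; exact h3)).trans
    (pow_one w)

namespace Pair

variable {σ : Finset ℕ} {p q r s : ℕ} {M Z L : Subgroup G} (h : Pair σ p q r s M Z L)
include h

theorem swapRS : Pair σ p q s r M Z L :=
  ⟨h.nt, h.hp, h.hq, h.hs, h.hr, h.pq, h.ps, h.pr, h.qs, h.qr, h.rs.symm, h.pp, h.qp, h.sp, h.rp,
    h.hM, h.hZ, h.M1, h.Z1, h.comm, h.Mn, h.Zn, fun x hx hd => (h.primes x hx hd).symm, h.ES, h.ER,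
    h.solv⟩

theorem swapMZ : Pair σ q p r s Z M L :=
  ⟨h.nt, h.hq, h.hp, h.hr, h.hs, h.pq.symm, h.qr, h.qs, h.pr, h.ps, h.rs, h.qp, h.pp, h.rp, h.sp,
    h.hZ, h.hM, h.Z1, h.M1, fun m hm z hz => (h.comm z hz m hm).symm, h.Zn, h.Mn, h.primes, h.ER,
    h.ES, h.solv⟩

theorem exists_orderM : ∃ m ∈ M, orderOf m = p := by
  haveI := Fact.mk h.pp
  obtain ⟨m, hm, h1⟩ := (Subgroup.bot_or_exists_ne_one M).resolve_left h.M1
  obtain ⟨n, hn⟩ := exists_pow_orderOf h.hM hm h1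
  exact ⟨m ^ n, pow_mem hm n, hn⟩

/-- Nothing of order `r` or `s` fixes points in both groups. -/
theorem triple_r {g m z : G} (hg : orderOf g = r) (hm : m ∈ M) (hz : z ∈ Z) (hmo : orderOf m = p)
    (hzo : orderOf z = q) (hgm : Commute g m) (hgz : Commute g z) : False :=
  h.nt h.hp h.hq h.hr h.pq h.qr h.pr hmo hzo hg (h.comm m hm z hz) hgm.symm hgz.symm

theorem triple_rs {b c m : G} (hb : orderOf b = r) (hc : orderOf c = s) (hmo : orderOf m = p)
    (hbc : Commute b c) (hbm : Commute b m) (hcm : Commute c m) : False :=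
  h.nt h.hp h.hr h.hs h.pr h.rs h.ps hmo hb hc hbm.symm hcm.symm hbc

/-- An invariant elementary abelian `r`-group centralizing `M` is trivial. -/
theorem eq_bot_of_centM {A X : Subgroup G} (hA : IsE s A) (hAL : A ≤ L) (hXL : X ≤ L)
    (hX : Cfsg.IsElementaryAbelian r X) (hAX : ∀ a ∈ A, ∀ x ∈ X, a * x * a⁻¹ ∈ X)
    (hXM : ∀ x ∈ X, ∀ m ∈ M, Commute x m) : X = ⊥ := by
  haveI := Fact.mk h.pp
  haveI := Fact.mk h.qp
  haveI := Fact.mk h.rp
  haveI := Fact.mk h.sp
  refine (Subgroup.eq_bot_iff_forall X).2 fun x hx => ?_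
  by_contra hx1
  have hxo : orderOf x = r := Signalizer.elemAb_orderOf hX hx hx1
  obtain ⟨m0, hm0, hm0o⟩ := h.exists_orderM
  have hXp : IsPGroup r X := Signalizer.elemAb_isPGroup hX
  have hno : ∀ E : Subgroup G, IsE r E → ¬ E ≤ X := fun E hE hEX => by
    obtain ⟨e, he, heo, z, hz, hzo, hez⟩ :=
      exists_fixed h.qr h.hZ h.Z1 hE fun a ha => h.Zn a (hXL (hEX ha))
    exact h.triple_r heo hm0 hz hm0o hzo (hXM e (hEX he) m0 hm0) hez
  have huniq := isE_or_forall_mem_zpowers hXp hx hxo hno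
  obtain ⟨a, ha, hao, m, hm, hmo, ham⟩ := exists_fixed h.ps h.hM h.M1 hA fun a ha => h.Mn a (hAL ha)
  have hfpf : ∀ u ∈ X, Commute a u → u = 1 := fun u hu hau => by
    by_contra hu1
    exact h.triple_rs (Signalizer.elemAb_orderOf hX hu hu1) hao hmo hau.symm (hXM u hu m hm) ham
  have hXZ := commute_of_fpf h.qs h.hZ (not_dvd_card hXp h.qp h.qr) hao (fun u hu => hAX a ha u hu)
    hfpf (fun u hu => h.Zn u (hXL hu)) (h.Zn a (hAL ha)) (fun v hv hav u _ => by
      by_cases hv1 : v = 1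
      · rw [hv1]; exact Commute.one_right u
      · obtain ⟨n, hn⟩ := exists_pow_orderOf h.hZ hv hv1
        exact (h.swapRS.triple_r hao hm (pow_mem hv n) hmo hn ham (hav.pow_right n)).elim)
  obtain ⟨z, hz, hzo⟩ := h.swapMZ.exists_orderM
  exact h.triple_r hxo hm0 hz hm0o hzo (hXM x hx m0 hm0) (hXZ x hx z hz)

/-- A noncyclic `s`-group centralizes every elementary abelian `r`-group it normalizes. -/
theorem centralizes {A X : Subgroup G} (hA : IsE s A) (hAL : A ≤ L) (hXL : X ≤ L)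
    (hX : Cfsg.IsElementaryAbelian r X) (hAX : ∀ a ∈ A, ∀ x ∈ X, a * x * a⁻¹ ∈ X) :
    ∀ a ∈ A, ∀ x ∈ X, Commute a x := by
  haveI := Fact.mk h.pp
  haveI := Fact.mk h.qp
  haveI := Fact.mk h.rp
  haveI := Fact.mk h.sp
  intro a ha x hx
  by_cases ha1 : a = 1
  · rw [ha1]; exact Commute.one_left x
  have hao := hA.orderOf_eq ha ha1
  have hc : ∀ u ∈ X, ∀ v ∈ X, Commute u v := fun u hu v hv => Signalizer.elemAb_comm hX hu hv
  set f := cmap a X hc (hAX a ha)
  set Y : Subgroup G := f.range.map X.subtype with hY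
  have hYX : Y ≤ X := map_subtype_le _
  have hYel : Cfsg.IsElementaryAbelian r Y := Signalizer.elemAb_mono hX hYX
  have hYmem : ∀ y ∈ Y, ∃ u ∈ X, y = a * u * a⁻¹ * u⁻¹ := by
    rintro _ ⟨_, ⟨u, rfl⟩, rfl⟩
    exact ⟨u, u.2, rfl⟩
  have hAY : ∀ b ∈ A, ∀ y ∈ Y, b * y * b⁻¹ ∈ Y := by
    intro b hb y hy
    obtain ⟨u, hu, rfl⟩ := hYmem y hy
    refine ⟨f ⟨b * u * b⁻¹, hAX b hb u hu⟩, ⟨_, rfl⟩, ?_⟩
    show a * (b * u * b⁻¹) * a⁻¹ * (b * u * b⁻¹)⁻¹ = b * (a * u * a⁻¹ * u⁻¹) * b⁻¹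
    have hab : Commute a b := hA.comm ha hb
    rw [show a * (b * u * b⁻¹) * a⁻¹ = (a * b) * u * (a * b)⁻¹ by group, hab.eq]
    group
  have hfpf : ∀ y ∈ Y, Commute a y → y = 1 := fun y hy hay => by
    obtain ⟨u, hu, rfl⟩ := hYmem y hy
    exact comm_eq_one_of_fixed (m := r) (r := s) ((Nat.coprime_primes h.rp h.sp).2 h.rs)
      (pow_orderOf_prime hao) hay (hX.2 _ (hYX hy))
  have key : ∀ {p q : ℕ} {M Z : Subgroup G}, Pair σ p q r s M Z L →
      (∀ v ∈ M, Commute a v → v = 1) → Y = ⊥ := by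
    intro p q M Z h hno
    haveI := Fact.mk h.pp
    refine h.eq_bot_of_centM hA hAL (hYX.trans hXL) hYel hAY ?_
    refine commute_of_fpf h.ps h.hM (not_dvd_card (Signalizer.elemAb_isPGroup hYel) h.pp h.pr) hao
      (hAY a ha) hfpf (fun u hu => h.Mn u (hXL (hYX hu))) (h.Mn a (hAL ha)) fun v hv hav u _ => ?_
    rw [hno v hv hav]
    exact Commute.one_right u
  have hYbot : Y = ⊥ := by
    by_contra hne
    obtain ⟨v, hv, hav, hv1⟩ : ∃ v ∈ M, Commute a v ∧ v ≠ 1 := by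
      by_contra hc'
      exact hne (key h fun v hv hav => by_contra fun q => hc' ⟨v, hv, hav, q⟩)
    obtain ⟨w, hw, haw, hw1⟩ : ∃ w ∈ Z, Commute a w ∧ w ≠ 1 := by
      by_contra hc'
      exact hne (key h.swapMZ fun w hw haw => by_contra fun q => hc' ⟨w, hw, haw, q⟩)
    obtain ⟨i, hi⟩ := exists_pow_orderOf h.hM hv hv1
    obtain ⟨j, hj⟩ := exists_pow_orderOf h.hZ hw hw1
    exact h.swapRS.triple_r hao (pow_mem hv i) (pow_mem hw j) hi hj (hav.pow_right i) (haw.pow_right j)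
  have h1 : ((f ⟨x, hx⟩ : X) : G) ∈ Y := ⟨_, ⟨_, rfl⟩, rfl⟩
  rw [hYbot, Subgroup.mem_bot] at h1
  exact cmap_eq_one_iff.1 (Subtype.ext h1 : f ⟨x, hx⟩ = 1)

/-- An element of order `r` centralized by a noncyclic `s`-group has no fixed point. -/
theorem fpf_of_centralized {A : Subgroup G} (hA : IsE s A) (hAL : A ≤ L) {x : G}
    (hxo : orderOf x = r) (hax : ∀ a ∈ A, Commute a x) {m : G} (hm : m ∈ M) (h1 : m ≠ 1)
    (hxm : Commute x m) : False := by
  haveI := Fact.mk h.pp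
  haveI := Fact.mk h.sp
  exact thin h.nt h.hp h.hs h.hr h.ps h.rs.symm h.pr hxo hA h.hM (fun e he => h.Mn e (hAL he))
    (fun e he => (hax e he).symm) hm h1 hxm

/-- The key facts about a central element `w` of order `r` of the `r`-core. -/
theorem exists_central (hne : core r L ≠ ⊥) :
    ∃ w ∈ omegaZ r (core r L), orderOf w = r ∧ (∀ u ∈ omegaZ r (core r L), u ∈ zpowers w) ∧
      (∀ l ∈ L, l * w * l⁻¹ ∈ zpowers w) ∧
      (∀ m ∈ M, Commute w m → m = 1) ∧ (∀ z ∈ Z, Commute w z → z = 1) := by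
  haveI := Fact.mk h.rp
  haveI := Fact.mk h.pp
  haveI := Fact.mk h.qp
  obtain ⟨A, hA, hAL⟩ := h.ES
  set W := omegaZ r (core r L) with hW
  have hWL : W ≤ L := (omegaZ_le _ _).trans (core_le r L)
  have hWel : Cfsg.IsElementaryAbelian r W := omegaZ_elem _ _
  have hWn : ∀ l ∈ L, ∀ u ∈ W, l * u * l⁻¹ ∈ W := fun l hl u hu =>
    omegaZ_conj (fun v hv => core_conj hl hv)
      (fun v hv => conj_inv_mem (fun l hl v hv => core_conj hl hv) hl hv) hu
  have hcent := h.centralizes hA hAL hWL hWel fun a ha u hu => hWn a (hAL ha) u hu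
  obtain ⟨w, hw, hwo⟩ := exists_omegaZ (core_isPGroup r L) hne
  have hfpf : ∀ {p q : ℕ} {M Z : Subgroup G}, Pair σ p q r s M Z L →
      ∀ u ∈ W, orderOf u = r → ∀ m ∈ M, Commute u m → m = 1 := fun {p q M Z} h u hu huo m hm hum =>
    by_contra fun h1 => h.fpf_of_centralized hA hAL huo (fun a ha => hcent a ha u hu) hm h1 hum
  have hno : ∀ E : Subgroup G, IsE r E → ¬ E ≤ W := fun E hE hEW => by
    obtain ⟨e, he, heo, m, hm, hmo, hem⟩ :=
      exists_fixed h.pr h.hM h.M1 hE fun a ha => h.Mn a (hWL (hEW ha))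
    exact orderOf_ne_one_of_prime h.pp hmo (hfpf h e (hEW he) heo m hm hem)
  have huniq : ∀ u ∈ W, u ∈ zpowers w := fun u hu => by
    by_cases hu1 : u = 1
    · rw [hu1]; exact one_mem _
    · exact isE_or_forall_mem_zpowers (Signalizer.elemAb_isPGroup hWel) hw hwo hno u hu
        (Signalizer.elemAb_orderOf hWel hu hu1)
  exact ⟨w, hw, hwo, huniq, fun l hl => huniq _ (hWn l hl w hw), hfpf h w hw hwo,
    hfpf h.swapMZ w hw hwo⟩

/-- Rank three is impossible. -/
theorem no_rank_three {E : Subgroup G} (hE : IsE r E) (hEL : E ≤ L) {x : G} (hxL : x ∈ L)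
    (hxo : orderOf x = r) (hxE : ∀ e ∈ E, Commute x e) (hnot : x ∉ E) : False := by
  haveI := Fact.mk h.rp
  haveI := Fact.mk h.pp
  haveI := Fact.mk h.qp
  obtain ⟨e, he, heo, m, hm, hmo, hem⟩ := exists_fixed h.pr h.hM h.M1 hE fun a ha => h.Mn a (hEL ha)
  obtain ⟨e', he', hne'⟩ := hE.exists_not_zpowers e heo
  have he'1 : e' ≠ 1 := fun q => hne' (q ▸ one_mem _)
  have he'o := hE.orderOf_eq he' he'1
  have hx' : x ∉ zpowers e' := fun q => hnot (zpowers_le.2 he' q)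
  obtain ⟨E', hE', hE'H, -, -, hspan⟩ :=
    exists_isE_of_two (H := centralizer ({e} : Set G) ⊓ L) he'o hxo (hxE e' he').symm hx'
      ⟨mem_centralizer_singleton_iff.2 (hE.comm he' he).eq, hEL he'⟩
      ⟨mem_centralizer_singleton_iff.2 (hxE e he).eq, hxL⟩
  -- a second element fixing a common point
  set V : Subgroup G := M ⊓ centralizer {e} with hV
  have hV1 : V ≠ ⊥ := fun q => orderOf_ne_one_of_prime h.pp hmo (by
    rw [← Subgroup.mem_bot, ← q]
    exact ⟨hm, mem_centralizer_singleton_iff.2 hem.symm.eq⟩)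
  obtain ⟨f, hf, hfo, v, hv, hvo, hfv⟩ := exists_fixed h.pr (h.hM.to_le inf_le_left) hV1 hE'
    fun a ha u hu => ⟨h.Mn a (hE'H ha).2 u hu.1,
      (centralizer ({e} : Set G)).mul_mem ((centralizer ({e} : Set G)).mul_mem (hE'H ha).1 hu.2)
        ((centralizer ({e} : Set G)).inv_mem (hE'H ha).1)⟩
  have hfe : f ∉ zpowers e := by
    intro hfmem
    obtain ⟨i, j, rfl⟩ := hspan f hf
    have hxj : x ^ j ∈ E := by
      have := mul_mem (inv_mem (zpow_mem he' i)) (zpowers_le.2 he hfmem)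
      rwa [inv_mul_cancel_left] at this
    have hxj1 : x ^ j = 1 := by
      by_contra hne
      have hd : ¬ (r : ℤ) ∣ j := fun hd => hne (orderOf_dvd_iff_zpow_eq_one.1 (by rwa [hxo]))
      have h1 : x ∈ zpowers (x ^ j) := by
        have ho : orderOf (x ^ j) = r := orderOf_eq_prime (by
          rw [← zpow_natCast, ← zpow_mul, mul_comm, zpow_mul, zpow_natCast, pow_orderOf_prime hxo,
            one_zpow]) hne
        rw [Subgroup.eq_of_le_of_card_ge (zpowers_le.2 (zpow_mem (mem_zpowers x) j))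
          (by rw [Nat.card_zpowers, Nat.card_zpowers, ho, hxo])]
        exact mem_zpowers x
      exact hnot (zpowers_le.2 hxj h1)
    rw [hxj1, mul_one] at hfo hfmem
    have h1 : zpowers (e' ^ i) = zpowers e' := Subgroup.eq_of_le_of_card_ge
      (zpowers_le.2 (zpow_mem (mem_zpowers e') i))
      (by rw [Nat.card_zpowers, Nat.card_zpowers, hfo, he'o])
    exact hne' (zpowers_le.2 hfmem (h1 ▸ mem_zpowers e'))
  obtain ⟨E'', hE'', hE''H, -, -, -⟩ :=
    exists_isE_of_two (H := centralizer ({v} : Set G) ⊓ L) heo hfo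
      (show Commute e f from (mem_centralizer_singleton_iff.1 (hE'H hf).1).symm) hfe
      ⟨mem_centralizer_singleton_iff.2
        (show Commute v e from mem_centralizer_singleton_iff.1 hv.2).symm.eq, hEL he⟩
      ⟨mem_centralizer_singleton_iff.2 hfv.eq, (hE'H hf).2⟩
  obtain ⟨g, hg, hgo, z, hz, hzo, hgz⟩ :=
    exists_fixed h.qr h.hZ h.Z1 hE'' fun a ha => h.Zn a (hE''H ha).2
  exact h.triple_r hgo hv.1 hz hvo hzo (mem_centralizer_singleton_iff.1 (hE''H hg).1) hgz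

/-- An `r`-element normalizing `⟨w, b⟩` centralizes `b`. -/
theorem commute_of_normalizes_pair {w b g : G} (hwo : orderOf w = r)
    (hwM : ∀ m ∈ M, Commute w m → m = 1) (hwZ : ∀ z ∈ Z, Commute w z → z = 1) (hwL : w ∈ L)
    (hbo : orderOf b = r) (hbL : b ∈ L) (hbw : Commute w b) (hnot : b ∉ zpowers w) (hgL : g ∈ L)
    (hgw : Commute g w) {k : ℕ} (hgk : g ^ r ^ k = 1) {i j : ℤ}
    (hgb : g * b * g⁻¹ = w ^ i * b ^ j) : Commute g b := by
  haveI := Fact.mk h.rp
  haveI := Fact.mk h.pp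
  haveI := Fact.mk h.qp
  obtain ⟨E, hE, hEL, -, -, hspan⟩ := exists_isE_of_two hwo hbo hbw hnot hwL hbL
  have hzp : ∀ (a : G) (_ : orderOf a = r) (m n : ℤ), (m : ZMod r) = n → a ^ m = a ^ n := by
    intro a ha m n hmn
    rw [ZMod.intCast_eq_intCast_iff] at hmn
    exact zpow_eq_zpow_iff_modEq.2 (by rw [ha]; exact hmn)
  have hind : ∀ m n : ℤ, b ^ m = w ^ n → (m : ZMod r) = 0 := by
    intro m n hmn
    by_contra hne
    refine hnot ?_
    have hbm : b = (b ^ m) ^ (((m : ZMod r)⁻¹).val : ℤ) := by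
      rw [← zpow_mul]
      conv_lhs => rw [← zpow_one b]
      refine hzp b hbo _ _ ?_
      rw [Int.cast_one, Int.cast_mul, Int.cast_natCast, ZMod.natCast_val, ZMod.cast_id,
        mul_inv_cancel₀ hne]
    rw [hbm, hmn]
    exact zpow_mem (zpow_mem (mem_zpowers w) n) _
  have hiter : ∀ n : ℕ, ∃ l : ℤ, g ^ n * b * (g ^ n)⁻¹ = w ^ l * b ^ (j ^ n) := by
    intro n
    induction n with
    | zero => exact ⟨0, by simp⟩
    | succ n ih =>
      obtain ⟨l, hl⟩ := ih
      refine ⟨l + i * j ^ n, ?_⟩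
      rw [pow_succ' g n, show g * g ^ n * b * (g * g ^ n)⁻¹ = g * (g ^ n * b * (g ^ n)⁻¹) * g⁻¹ by
        group, hl, ← conj_mul, (hgw.zpow_right l).eq, mul_inv_cancel_right, ← conj_zpow, hgb,
        (hbw.zpow_zpow i j).mul_zpow, ← zpow_mul, ← zpow_mul, ← mul_assoc, ← zpow_add]
      congr 2
      ring
  have hj : (j : ZMod r) = 1 := by
    obtain ⟨l, hl⟩ := hiter (r ^ k)
    rw [hgk, one_mul, inv_one, mul_one] at hl
    have h1 : b ^ (1 - j ^ r ^ k) = w ^ l := by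
      rw [zpow_sub, zpow_one]
      nth_rw 1 [hl]
      rw [mul_inv_cancel_right]
    have h2 := hind _ _ h1
    rw [Int.cast_sub, Int.cast_one, Int.cast_pow, sub_eq_zero] at h2
    exact zmod_eq_one_of_pow h2.symm
  have hgb1 : g * b * g⁻¹ = w ^ i * b := by
    rw [hgb, hzp b hbo j 1 (by rw [hj, Int.cast_one]), zpow_one]
  by_cases hi : (i : ZMod r) = 0
  · refine mul_inv_eq_iff_eq_mul.1 ?_
    rw [hgb1, hzp w hwo i 0 (by rw [hi, Int.cast_zero]), zpow_zero, one_mul]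
  exfalso
  obtain ⟨e, he, heo, m, hm, hmo, hem⟩ := exists_fixed h.pr h.hM h.M1 hE fun a ha => h.Mn a (hEL ha)
  obtain ⟨e', he', he'o, z, hz, hzo, hez⟩ := exists_fixed h.qr h.hZ h.Z1 hE fun a ha => h.Zn a (hEL ha)
  obtain ⟨c, a, rfl⟩ := hspan e he
  obtain ⟨c', a', rfl⟩ := hspan e' he'
  have haux : ∀ (c a : ℤ), orderOf (w ^ c * b ^ a) = r → ∀ (V : Subgroup G),
      (∀ v ∈ V, Commute w v → v = 1) → ∀ v ∈ V, v ≠ 1 → Commute (w ^ c * b ^ a) v →
      (a : ZMod r) ≠ 0 := by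
    intro c a hord V hV v hv hv1 hcomm ha0
    rw [hzp b hbo a 0 (by rw [ha0, Int.cast_zero]), zpow_zero, mul_one] at hord hcomm
    have h1 : zpowers (w ^ c) = zpowers w := Subgroup.eq_of_le_of_card_ge
      (zpowers_le.2 (zpow_mem (mem_zpowers w) c))
      (by rw [Nat.card_zpowers, Nat.card_zpowers, hord, hwo])
    obtain ⟨n, hn⟩ := (h1 ▸ mem_zpowers w : w ∈ zpowers (w ^ c))
    exact hv1 (hV v hv (by rw [← hn]; exact hcomm.zpow_left n))
  have ha := haux c a heo M hwM m hm (orderOf_ne_one_of_prime h.pp hmo) hem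
  set K : ZMod r := (a' : ZMod r) * (a : ZMod r)⁻¹ with hK
  set N : ZMod r := ((c' : ZMod r) - c * K) * ((i : ZMod r) * a * K)⁻¹ with hN
  have hK0 : K ≠ 0 := mul_ne_zero
    (haux c' a' he'o Z hwZ z hz (orderOf_ne_one_of_prime h.qp hzo) hez) (inv_ne_zero ha)
  have hpow : ∀ n : ℕ, g ^ n * b * (g ^ n)⁻¹ = w ^ ((n : ℤ) * i) * b := by
    intro n
    induction n with
    | zero => simp
    | succ n ih =>
      rw [pow_succ' g n, show g * g ^ n * b * (g * g ^ n)⁻¹ = g * (g ^ n * b * (g ^ n)⁻¹) * g⁻¹ by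
        group, ih, ← conj_mul, (hgw.zpow_right _).eq, mul_inv_cancel_right, hgb1, ← mul_assoc,
        ← zpow_add]
      congr 2
      push_cast
      ring
  set n := N.val
  have hconj : g ^ n * (w ^ c * b ^ a) * (g ^ n)⁻¹ = w ^ (c + (n : ℤ) * i * a) * b ^ a := by
    rw [← conj_mul, ((hgw.pow_left n).zpow_right c).eq, mul_inv_cancel_right, ← conj_zpow, hpow,
      (hbw.zpow_left _).mul_zpow, ← zpow_mul, ← mul_assoc, ← zpow_add]
  have hm' : g ^ n * m * (g ^ n)⁻¹ ∈ M := h.Mn _ (pow_mem hgL n) m hm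
  have hc1 := (Commute.conj_iff (g ^ n)).2 hem
  rw [hconj] at hc1
  refine h.triple_r he'o hm' hz ?_ hzo ?_ hez
  · rw [← hmo]
    exact orderOf_injective (MulAut.conj (g ^ n)).toMonoidHom (MulAut.conj (g ^ n)).injective m
  · have hv : ∀ x : ZMod r, (((x.val : ℕ) : ℤ) : ZMod r) = x := fun x => by
      rw [Int.cast_natCast, ZMod.natCast_zmod_val]
    have h2 : w ^ c' * b ^ a' = (w ^ (c + (n : ℤ) * i * a) * b ^ a) ^ ((K.val : ℕ) : ℤ) := by
      rw [(hbw.zpow_zpow _ _).mul_zpow, ← zpow_mul, ← zpow_mul]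
      congr 1
      · refine hzp w hwo _ _ ?_
        simp only [Int.cast_mul, Int.cast_add, hv, n, hN]
        field_simp
        ring
      · refine hzp b hbo _ _ ?_
        simp only [Int.cast_mul, hv, hK]
        field_simp
    rw [h2]
    exact hc1.zpow_left _

/-- All elements of order `r` of an `r`-subgroup containing the core are central in it. -/
theorem central_of_order {R : Subgroup G} (hR : IsPGroup r R) (hRL : R ≤ L) (hcR : core r L ≤ R)
    (hne : core r L ≠ ⊥) {b : G} (hb : b ∈ R) (hbo : orderOf b = r) :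
    ∀ g ∈ R, Commute g b := by
  haveI := Fact.mk h.rp
  obtain ⟨w, hw, hwo, -, hwn, hwM, hwZ⟩ := h.exists_central hne
  have hwR : w ∈ R := hcR (omegaZ_le _ _ hw)
  have hwc : ∀ g ∈ R, Commute g w := fun g hg => by
    obtain ⟨k, hk⟩ := orderOf_eq_pow hR hg
    exact commute_of_pElement hwo (by rw [← hk]; exact pow_orderOf_eq_one g) (hwn g (hRL hg))
  by_cases hbw : b ∈ zpowers w
  · obtain ⟨n, rfl⟩ := hbw
    exact fun g hg => (hwc g hg).zpow_right n
  intro g0 hg0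
  by_contra hg0b
  set D : Subgroup R := centralizer {(⟨b, hb⟩ : R)} with hD
  have hDlt : D < ⊤ := lt_top_iff_ne_top.2 fun q => hg0b
    (congrArg Subtype.val (mem_centralizer_singleton_iff.1 (q ▸ mem_top (⟨g0, hg0⟩ : R) : _ ∈ D)) :)
  haveI := hR.isNilpotent
  obtain ⟨⟨g, hg⟩, hgN, hgD⟩ :=
    SetLike.exists_of_lt (Group.normalizerCondition_of_isNilpotent D hDlt)
  have hbD : (⟨b, hb⟩ : R) ∈ D := mem_centralizer_singleton_iff.2 rfl
  have hcb : Commute (g * b * g⁻¹) b :=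
    congrArg Subtype.val (mem_centralizer_singleton_iff.1 ((mem_normalizer_iff.1 hgN _).1 hbD))
  obtain ⟨E, hE, hEL, hwE, hbE, hspan⟩ :=
    exists_isE_of_two hwo hbo (hwc b hb).symm hbw (hRL hwR) (hRL hb)
  by_cases hbE' : g * b * g⁻¹ ∈ E
  · obtain ⟨i, j, hij⟩ := hspan _ hbE'
    obtain ⟨k, hk⟩ := orderOf_eq_pow hR hg
    refine hgD (mem_centralizer_singleton_iff.2 (Subtype.ext ?_))
    exact (h.commute_of_normalizes_pair hwo hwM hwZ (hRL hwR) hbo (hRL hb) (hwc b hb).symm hbw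
      (hRL hg) (hwc g hg) (by rw [← hk]; exact pow_orderOf_eq_one g) hij).eq
  · refine h.no_rank_three hE hEL (hRL (mul_mem (mul_mem hg hb) (inv_mem hg))) ?_ (fun u hu => ?_) hbE'
    · rw [← hbo]
      exact orderOf_injective (MulAut.conj g).toMonoidHom (MulAut.conj g).injective b
    · obtain ⟨i, j, rfl⟩ := hspan u hu
      exact ((hwc _ (mul_mem (mul_mem hg hb) (inv_mem hg))).zpow_right i).mul_right (hcb.zpow_right j)

/-- Elements of order `r` of a nontrivial core. -/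
theorem core_unique (hne : core r L ≠ ⊥) : ∃ w ∈ core r L, orderOf w = r ∧
    (∀ l ∈ L, l * w * l⁻¹ ∈ zpowers w) ∧ ∀ u ∈ core r L, orderOf u = r → u ∈ zpowers w := by
  haveI := Fact.mk h.rp
  obtain ⟨w, hw, hwo, huniq, hwn, -, -⟩ := h.exists_central hne
  refine ⟨w, omegaZ_le _ _ hw, hwo, hwn, fun u hu huo => huniq u ⟨hu, pow_orderOf_prime huo, ?_⟩⟩
  exact fun v hv =>
    (h.central_of_order (core_isPGroup r L) (core_le r L) le_rfl hne hu huo v hv).symm

theorem primes_core {x : ℕ} (hx : x.Prime) (hne : core x L ≠ ⊥) : x = r ∨ x = s := by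
  haveI := Fact.mk hx
  refine h.primes x hx ?_
  obtain ⟨z, hz, hzo⟩ := exists_omegaZ (core_isPGroup x L) hne
  exact hzo ▸ Subgroup.orderOf_dvd_natCard L (core_le x L (omegaZ_le _ _ hz))

theorem false_of_core (hne : core r L ≠ ⊥) (hs2 : core s L ≠ ⊥ → s ≠ 2) : False := by
  haveI := Fact.mk h.rp
  haveI := Fact.mk h.sp
  haveI := h.solv
  obtain ⟨E0, hE0, hE0L⟩ := h.ER
  -- a Sylow subgroup of `L` over `E0`
  obtain ⟨P, hP⟩ := ((Signalizer.elemAb_isPGroup hE0.elem).of_equiv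
    (subgroupOfEquivOfLe hE0L).symm).exists_le_sylow
  set R : Subgroup G := (P : Subgroup L).map L.subtype with hR
  have hRp : IsPGroup r R := P.2.map _
  have hRL : R ≤ L := map_subtype_le _
  have hE0R : E0 ≤ R := fun u hu => ⟨⟨u, hE0L hu⟩, hP hu, rfl⟩
  have hcR : core r L ≤ R := map_mono (Cores.pCore_le_sylow P)
  obtain ⟨w, hw, hwo, -, huniq⟩ := h.core_unique hne
  obtain ⟨b, hb, hbw⟩ := hE0.exists_not_zpowers w hwo
  have hb1 : b ≠ 1 := fun q => hbw (q ▸ one_mem _)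
  have hbo := hE0.orderOf_eq hb hb1
  refine hbw (huniq b (mem_core_of_centralizes (k := 1) (hE0L hb) (by rw [hbo, pow_one]) ?_) hbo)
  intro x hx v hv
  by_cases hv1 : v = 1
  · rw [hv1]; exact Commute.one_right b
  have hne' : core x L ≠ ⊥ := fun q => hv1 (by rw [← Subgroup.mem_bot, ← q]; exact hv)
  rcases h.primes_core hx hne' with rfl | rfl
  · exact (h.central_of_order hRp hRL hcR hne (hE0R hb) hbo v (hcR hv)).symm
  · obtain ⟨w', hw', hw'o, hw'n, huniq'⟩ := h.swapRS.core_unique hne'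
    have hcyc : IsCyclic (core x L) := isCyclic_of_no_isE (hs2 hne') (core_isPGroup x L)
      fun E hE hEV => by
        obtain ⟨e, he, hne''⟩ := hE.exists_not_zpowers w' hw'o
        exact hne'' (huniq' e (hEV he) (hE.orderOf_eq he fun q => hne'' (q ▸ one_mem _)))
    have hbw' : Commute b w' := h.swapRS.centralizes hE0 hE0L
      (zpowers_le.2 (core_le x L hw'))
      ⟨inferInstance, fun u hu => by
        obtain ⟨n, rfl⟩ := hu
        rw [← zpow_natCast, ← zpow_mul, mul_comm, zpow_mul, zpow_natCast,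
          pow_orderOf_prime hw'o, one_zpow]⟩
      (fun a ha u hu => by
        obtain ⟨n, rfl⟩ := hu
        simp only [← conj_zpow]
        exact zpow_mem (hw'n a (hE0L ha)) n) b hb w' (mem_zpowers w')
    have hc : ∀ u ∈ core x L, ∀ v ∈ core x L, Commute u v := fun u hu v hv => by
      haveI := hcyc
      letI : CommGroup (core x L) := IsCyclic.commGroup
      exact congrArg Subtype.val (mul_comm (⟨u, hu⟩ : core x L) ⟨v, hv⟩)
    exact commute_of_fix_order h.rs.symm (core_isPGroup x L) hc huniq'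
      (by rw [← hbo]; exact pow_orderOf_eq_one b) (fun u hu => core_conj (hE0L hb) hu) hbw' v hv

/-- The configuration does not exist. -/
theorem false_of_pair : False := by
  haveI := h.solv
  obtain ⟨E, hE, hEL⟩ := h.ER
  have hL : L ≠ ⊥ := fun q => by
    have h1 := Subgroup.card_le_of_le (hEL.trans q.le)
    rw [Subgroup.card_bot] at h1
    have := hE.card
    have := h.rp.two_le
    nlinarith
  obtain ⟨x, hx, -, hne⟩ := exists_core_ne_bot hL
  rcases h.primes_core hx hne with rfl | rfl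
  · by_cases hs2 : s = 2 ∧ core s L ≠ ⊥
    · exact h.swapRS.false_of_core hs2.2 fun _ q => h.rs (by rw [q, hs2.1])
    · exact h.false_of_core hne fun q q' => hs2 ⟨q', q⟩
  · by_cases hr2 : r = 2 ∧ core r L ≠ ⊥
    · exact h.false_of_core hr2.2 fun _ q => h.rs (by rw [q, hr2.1])
    · exact h.swapRS.false_of_core hne fun q q' => hr2 ⟨q', q⟩

end Pair

end Cfsg.Agent.ThreeJoin
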