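import Cfsg.Agent.ThreeJoin.Basic

/-!
# Cores of a subgroup, seen in the ambient group; commutator maps
-/

set_option autoImplicit false
set_option linter.unusedSectionVars false
set_option linter.style.haveILetI false

namespace Cfsg.Agent.ThreeJoin

open Subgroup

universe u

variable {G : Type u} [Group G] [Finite G]

/-- The `x`-core of `L` as a subgroup of the ambient group. -/
def core (x : ℕ) (L : Subgroup G) : Subgroup G := (Cfsg.pCore x L).map L.subtype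

theorem core_le (x : ℕ) (L : Subgroup G) : core x L ≤ L := map_subtype_le _

theorem core_isPGroup (x : ℕ) [Fact x.Prime] (L : Subgroup G) : IsPGroup x (core x L) :=
  Cores.pCore_isPGroup.map _

theorem core_conj {x : ℕ} {L : Subgroup G} {l v : G} (hl : l ∈ L) (hv : v ∈ core x L) :
    l * v * l⁻¹ ∈ core x L := by
  obtain ⟨w, hw, rfl⟩ := hv
  exact ⟨⟨l, hl⟩ * w * ⟨l, hl⟩⁻¹,
    (inferInstance : (Cfsg.pCore x L).Normal).conj_mem w hw _, rfl⟩

theorem le_core {x : ℕ} [Fact x.Prime] {L N : Subgroup G} (hNL : N ≤ L) (hN : IsPGroup x N)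
    (hn : ∀ l ∈ L, ∀ v ∈ N, l * v * l⁻¹ ∈ N) : N ≤ core x L := by
  haveI : (N.subgroupOf L).Normal := ⟨fun w hw l => hn l l.2 w hw⟩
  intro v hv
  exact ⟨⟨v, hNL hv⟩, Cores.le_pCore (p := x) (N := N.subgroupOf L) inferInstance
    (hN.of_equiv (subgroupOfEquivOfLe hNL).symm) hv, rfl⟩

theorem exists_core_ne_bot {L : Subgroup G} [Group.IsSolvable L] (h : L ≠ ⊥) :
    ∃ x : ℕ, x.Prime ∧ x ∣ Nat.card L ∧ core x L ≠ ⊥ := by
  haveI : Nontrivial L := L.nontrivial_iff_ne_bot.2 h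
  obtain ⟨x, hx, hne⟩ := Cores.exists_pCore_ne_bot (G := L)
  haveI := Fact.mk hx
  refine ⟨x, hx, ?_, fun q => hne ?_⟩
  · obtain ⟨k, hk⟩ := IsPGroup.iff_card.1 (Cores.pCore_isPGroup (p := x) (G := L))
    refine dvd_trans ?_ (Subgroup.card_subgroup_dvd_card (Cfsg.pCore x L))
    rw [hk]
    refine dvd_pow_self x fun q => hne (Subgroup.card_eq_one.1 ?_)
    rw [hk, q, pow_zero]
  · exact (Subgroup.map_eq_bot_iff_of_injective _ L.subtype_injective).1 q

/-- An element centralizing all cores of a solvable group lies in the core of its prime. -/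
theorem mem_core_of_centralizes {r : ℕ} [Fact r.Prime] {L : Subgroup G} [Group.IsSolvable L]
    {g : G} (hg : g ∈ L) {k : ℕ} (ho : orderOf g = r ^ k)
    (h : ∀ x : ℕ, x.Prime → ∀ v ∈ core x L, Commute g v) : g ∈ core r L := by
  classical
  set g' : L := ⟨g, hg⟩ with hg'
  have hF : g' ∈ Cfsg.fittingSubgroup L := by
    refine Cores.centralizer_fittingSubgroup_le (mem_centralizer_iff.2 fun y hy => ?_)
    have hle : Cfsg.fittingSubgroup L ≤ centralizer ({g'} : Set L) := by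
      rw [Cores.fittingSubgroup_eq_iSup_pCore]
      refine iSup_le fun q v hv => mem_centralizer_singleton_iff.2 ?_
      exact Subtype.ext (h q q.2 _ ⟨v, hv, rfl⟩).eq.symm
    exact mem_centralizer_singleton_iff.1 (hle hy)
  set F := Cfsg.fittingSubgroup L
  haveI := Cores.fittingSubgroup_isNilpotent (G := L)
  haveI : F.Normal := Cores.fittingSubgroup_normal_inst L
  have hz : IsPGroup r (zpowers (⟨g', hF⟩ : F)) := IsPGroup.of_card (n := k) (by
    rw [Nat.card_zpowers, Subgroup.orderOf_mk, hg', Subgroup.orderOf_mk, ho])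
  obtain ⟨P, hP⟩ := hz.exists_le_sylow
  have hPn : (P : Subgroup F).Normal := by
    have := (Group.isNilpotent_of_finite_tfae (G := F)).out 0 3
    exact this.1 inferInstance r inferInstance P
  have h1 : (⟨g', hF⟩ : F) ∈ Cfsg.pCore r F := Cores.le_pCore hPn P.2 (hP (mem_zpowers _))
  exact ⟨g', Cores.map_subtype_pCore_le ⟨_, h1, rfl⟩, rfl⟩

/-- Elements of order `x` central in `U`, with the identity. -/
def omegaZ (x : ℕ) (U : Subgroup G) : Subgroup G where
  carrier := {u | u ∈ U ∧ u ^ x = 1 ∧ ∀ v ∈ U, Commute u v}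
  one_mem' := ⟨one_mem U, one_pow x, fun v _ => Commute.one_left v⟩
  mul_mem' := fun {a b} ha hb => ⟨mul_mem ha.1 hb.1, by
    rw [(ha.2.2 b hb.1).mul_pow, ha.2.1, hb.2.1, one_mul], fun v hv =>
      (ha.2.2 v hv).mul_left (hb.2.2 v hv)⟩
  inv_mem' := fun {a} ha => ⟨inv_mem ha.1, by rw [inv_pow, ha.2.1, inv_one], fun v hv =>
    (ha.2.2 v hv).inv_left⟩

theorem omegaZ_le (x : ℕ) (U : Subgroup G) : omegaZ x U ≤ U := fun _ h => h.1

theorem omegaZ_elem (x : ℕ) (U : Subgroup G) : Cfsg.IsElementaryAbelian x (omegaZ x U) :=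
  ⟨⟨⟨fun a b => Subtype.ext (a.2.2.2 b b.2.1).eq⟩⟩, fun _ ha => ha.2.1⟩

theorem omegaZ_conj {x : ℕ} {U : Subgroup G} {g u : G} (hg : ∀ v ∈ U, g * v * g⁻¹ ∈ U)
    (hg' : ∀ v ∈ U, g⁻¹ * v * g ∈ U) (hu : u ∈ omegaZ x U) : g * u * g⁻¹ ∈ omegaZ x U := by
  refine ⟨hg u hu.1, by rw [conj_pow, hu.2.1, mul_one, mul_inv_cancel], fun v hv => ?_⟩
  have h := (Commute.conj_iff g).2 (hu.2.2 _ (hg' v hv))
  rwa [show g * (g⁻¹ * v * g) * g⁻¹ = v by group] at h

theorem exists_omegaZ {x : ℕ} [Fact x.Prime] {U : Subgroup G} (hU : IsPGroup x U) (hne : U ≠ ⊥) :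
    ∃ z ∈ omegaZ x U, orderOf z = x := by
  haveI : Nontrivial U := U.nontrivial_iff_ne_bot.2 hne
  haveI := hU.center_nontrivial
  obtain ⟨c, hc⟩ := exists_ne (1 : center U)
  have hc1 : ((c : U) : G) ≠ 1 := fun q => hc (Subtype.ext (Subtype.ext q))
  obtain ⟨n, hn⟩ := exists_pow_orderOf hU (c : U).2 hc1
  refine ⟨((c : U) : G) ^ n, ⟨pow_mem (c : U).2 n, pow_orderOf_prime hn, fun v hv => ?_⟩, hn⟩
  exact (show Commute ((c : U) : G) v from
    (congrArg Subtype.val (mem_center_iff.1 c.2 ⟨v, hv⟩) :).symm).pow_left n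

/-- Normalization by all elements of a subgroup gives normalization by inverses. -/
theorem conj_inv_mem {L U : Subgroup G} (h : ∀ l ∈ L, ∀ v ∈ U, l * v * l⁻¹ ∈ U) {l v : G}
    (hl : l ∈ L) (hv : v ∈ U) : l⁻¹ * v * l ∈ U := by
  simpa using h l⁻¹ (inv_mem hl) v hv

/-- The set of commutators `[g, z]`, `z` in an abelian normalized `Z`, is a subgroup. -/
def cmap (g : G) (Z : Subgroup G) (hc : ∀ a ∈ Z, ∀ b ∈ Z, Commute a b)
    (hg : ∀ a ∈ Z, g * a * g⁻¹ ∈ Z) : Z →* Z :=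
  MonoidHom.mk' (fun a => ⟨g * a * g⁻¹ * (a : G)⁻¹, mul_mem (hg a a.2) (inv_mem a.2)⟩)
    fun a b => Subtype.ext (by
      have h1 : Commute (g * (b : G) * g⁻¹) (a : G)⁻¹ := (hc _ (hg b b.2) _ a.2).inv_right
      have h2 : Commute (a : G)⁻¹ (b : G)⁻¹ := (hc _ a.2 _ b.2).inv_left.inv_right
      show g * ((a : G) * b) * g⁻¹ * ((a : G) * b)⁻¹
        = g * a * g⁻¹ * (a : G)⁻¹ * (g * b * g⁻¹ * (b : G)⁻¹)
      rw [mul_inv_rev, h2.eq.symm, show g * ((a : G) * b) * g⁻¹ * ((a : G)⁻¹ * (b : G)⁻¹)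
        = g * a * g⁻¹ * (g * b * g⁻¹ * (a : G)⁻¹) * (b : G)⁻¹ by group, h1.eq]
      group)

theorem cmap_eq_one_iff {g : G} {Z : Subgroup G} {hc : ∀ a ∈ Z, ∀ b ∈ Z, Commute a b}
    {hg : ∀ a ∈ Z, g * a * g⁻¹ ∈ Z} {a : Z} : cmap g Z hc hg a = 1 ↔ Commute g (a : G) := by
  constructor
  · intro h
    have h1 : g * a * g⁻¹ * (a : G)⁻¹ = 1 := congrArg Subtype.val h
    exact mul_inv_eq_iff_eq_mul.1 (mul_inv_eq_one.1 h1)
  · intro h
    refine Subtype.ext ?_
    show g * a * g⁻¹ * (a : G)⁻¹ = 1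
    rw [h.eq, mul_inv_cancel_right, mul_inv_cancel]

/-- A commutator fixed by an operator of prime order coprime to the exponent is trivial. -/
theorem comm_eq_one_of_fixed {g a : G} {m r : ℕ} (hmr : m.Coprime r) (hgr : g ^ r = 1)
    (hfix : Commute g (g * a * g⁻¹ * a⁻¹)) (hexp : (g * a * g⁻¹ * a⁻¹) ^ m = 1) :
    g * a * g⁻¹ * a⁻¹ = 1 := by
  set d := g * a * g⁻¹ * a⁻¹ with hd
  have hiter : ∀ n : ℕ, g ^ n * a * (g ^ n)⁻¹ = d ^ n * a := by
    intro n
    induction n with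
    | zero => simp
    | succ n ih =>
      rw [pow_succ' g n, show g * g ^ n * a * (g * g ^ n)⁻¹ = g * (g ^ n * a * (g ^ n)⁻¹) * g⁻¹ by
        group, ih, show g * (d ^ n * a) * g⁻¹ = g * d ^ n * g⁻¹ * (d * a) by rw [hd]; group,
        (hfix.pow_right n).eq, mul_inv_cancel_right, ← mul_assoc, ← pow_succ]
  have h1 := hiter r
  rw [hgr, one_mul, inv_one, mul_one, eq_comm, mul_eq_right] at h1
  exact eq_one_of_pow_coprime hmr hexp h1

/-- Lifting fixed points through an abelian group: if `[a, b] ∈ C` then some `b x` is fixed. -/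
theorem exists_lift {C : Subgroup G} (hC : ∀ u ∈ C, ∀ v ∈ C, Commute u v) {a b : G}
    (ha : ∀ u ∈ C, a * u * a⁻¹ ∈ C) (hfpf : ∀ u ∈ C, Commute a u → u = 1)
    (hab : b⁻¹ * (a * b * a⁻¹) ∈ C) : ∃ x ∈ C, Commute a (b * x) := by
  set f := cmap a C hC ha
  have hinj : Function.Injective f := by
    rw [injective_iff_map_eq_one]
    exact fun u hu => Subtype.ext (hfpf u u.2 (cmap_eq_one_iff.1 hu))
  obtain ⟨x, hx⟩ := (Finite.injective_iff_surjective.1 hinj) ⟨_, inv_mem hab⟩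
  have hx' : a * x * a⁻¹ * (x : G)⁻¹ = (b⁻¹ * (a * b * a⁻¹))⁻¹ := congrArg Subtype.val hx
  refine ⟨x, x.2, mul_inv_eq_iff_eq_mul.1 ?_⟩
  calc a * (b * (x : G)) * a⁻¹ = b * (b⁻¹ * (a * b * a⁻¹)) * (a * x * a⁻¹ * (x : G)⁻¹) * x := by
        group
    _ = b * x := by rw [hx', mul_inv_cancel_right]

/-- Coprime operators on an abelian group fixing all elements of prime order are trivial. -/
theorem commute_of_fix_order {x r : ℕ} [Fact x.Prime] [Fact r.Prime] (hxr : x ≠ r)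
    {V : Subgroup G} (hV : IsPGroup x V) (hc : ∀ u ∈ V, ∀ v ∈ V, Commute u v) {z : G}
    (huniq : ∀ u ∈ V, orderOf u = x → u ∈ zpowers z) {b : G} (hb : b ^ r = 1)
    (hbV : ∀ u ∈ V, b * u * b⁻¹ ∈ V) (hbz : Commute b z) : ∀ u ∈ V, Commute b u := by
  intro u hu
  set f := cmap b V hc hbV
  by_contra hne
  have h1 : ((f ⟨u, hu⟩ : V) : G) ≠ 1 := fun q => hne (cmap_eq_one_iff.1 (Subtype.ext q : f ⟨u, hu⟩ = 1))
  obtain ⟨n, hn⟩ := exists_pow_orderOf hV (f ⟨u, hu⟩).2 h1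
  have e1 : ((f ⟨u, hu⟩ : V) : G) ^ n = ((f (⟨u, hu⟩ ^ n) : V) : G) := by
    rw [map_pow]; rfl
  obtain ⟨k, hk⟩ := huniq _ (pow_mem (f ⟨u, hu⟩).2 n) hn
  refine orderOf_ne_one_of_prime Fact.out hn ?_
  rw [e1]
  refine comm_eq_one_of_fixed (m := x) (r := r) ((Nat.coprime_primes Fact.out Fact.out).2 hxr) hb ?_ ?_
  · show Commute b ((f (⟨u, hu⟩ ^ n) : V) : G)
    rw [← e1, ← hk]
    exact hbz.zpow_right k
  · show ((f (⟨u, hu⟩ ^ n) : V) : G) ^ x = 1
    rw [← e1]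
    exact pow_orderOf_prime hn

/-- Elements of two normalized subgroups of coprime orders commute. -/
theorem commute_of_cores {x y : ℕ} [Fact x.Prime] [Fact y.Prime] (hxy : x ≠ y) {L : Subgroup G}
    {u v : G} (hu : u ∈ core x L) (hv : v ∈ core y L) : Commute u v := by
  refine mul_inv_eq_iff_eq_mul.1 (mul_inv_eq_one.1 ?_)
  refine eq_one_of_mem_both hxy (core_isPGroup x L) (core_isPGroup y L) ?_
    (mul_mem (core_conj (core_le x L hu) hv) (inv_mem hv))
  rw [show u * v * u⁻¹ * v⁻¹ = u * (v * u⁻¹ * v⁻¹) by group]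
  exact mul_mem hu (core_conj (core_le y L hv) (inv_mem hu))

/-- An element centralizing all cores of a solvable group with two primes is a product from
the cores. -/
theorem exists_mul_of_centralizes {r s : ℕ} {L : Subgroup G}
    [Group.IsSolvable L] (h2 : ∀ x : ℕ, x.Prime → core x L ≠ ⊥ → x = r ∨ x = s) {g : G} (hg : g ∈ L)
    (h : ∀ x : ℕ, x.Prime → ∀ v ∈ core x L, Commute g v) :
    ∃ u ∈ core s L, ∃ v ∈ core r L, g = u * v := by
  have hle : (Cfsg.fittingSubgroup L).map L.subtype ≤ core s L ⊔ core r L := by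
    rw [Cores.fittingSubgroup_eq_iSup_pCore, Subgroup.map_iSup]
    refine iSup_le fun q => ?_
    show core (q : ℕ) L ≤ _
    by_cases hq : core (q : ℕ) L = ⊥
    · rw [hq]; exact bot_le
    · rcases h2 q q.2 hq with e | e <;> rw [e]
      exacts [le_sup_right, le_sup_left]
  have hF : (⟨g, hg⟩ : L) ∈ Cfsg.fittingSubgroup L := by
    refine Cores.centralizer_fittingSubgroup_le (mem_centralizer_iff.2 fun y hy => ?_)
    have hle' : Cfsg.fittingSubgroup L ≤ centralizer ({⟨g, hg⟩} : Set L) := by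
      rw [Cores.fittingSubgroup_eq_iSup_pCore]
      refine iSup_le fun q v hv => mem_centralizer_singleton_iff.2 ?_
      exact Subtype.ext (h q q.2 _ ⟨v, hv, rfl⟩).eq.symm
    exact mem_centralizer_singleton_iff.1 (hle' hy)
  have h1 : g ∈ core s L ⊔ core r L := hle ⟨_, hF, rfl⟩
  have hn : core r L ≤ normalizer (core s L : Set G) :=
    le_normalizer_iff.2 fun u hu v hv => core_conj (core_le r L hu) hv
  have h2' : g ∈ ((core s L ⊔ core r L : Subgroup G) : Set G) := h1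
  rw [coe_mul_of_right_le_normalizer_left _ _ hn] at h2'
  obtain ⟨u, hu, v, hv, rfl⟩ := Set.mem_mul.1 h2'
  exact ⟨u, hu, v, hv, rfl⟩

/-- An operator of coprime order on a cyclic group, or one fixing points, lifts commuting pairs. -/
theorem exists_commute_lift {r s : ℕ} [Fact r.Prime] [Fact s.Prime] (hrs : r ≠ s) {V : Subgroup G}
    (hV : IsPGroup r V) (hc : ∀ u ∈ V, ∀ v ∈ V, Commute u v) {w : G} (hw : orderOf w = r)
    (huniq : ∀ u ∈ V, orderOf u = r → u ∈ zpowers w) {a b : G} (hao : orderOf a = s)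
    (hbo : orderOf b = r) (ha : ∀ u ∈ V, a * u * a⁻¹ ∈ V) (hb : ∀ u ∈ V, b⁻¹ * u * b ∈ V)
    (hab : b⁻¹ * (a * b * a⁻¹) ∈ V) (hnot : b ∉ V) :
    ∃ h : G, orderOf h = r ∧ Commute a h ∧ b⁻¹ * h ∈ V := by
  by_cases hfix : ∀ u ∈ V, Commute a u
  · set γ := b⁻¹ * (a * b * a⁻¹) with hγ
    have hiter : ∀ n : ℕ, a ^ n * b * (a ^ n)⁻¹ = b * γ ^ n := by
      intro n
      induction n with
      | zero => simp
      | succ n ih =>
        rw [pow_succ' a n, show a * a ^ n * b * (a * a ^ n)⁻¹ = a * (a ^ n * b * (a ^ n)⁻¹) * a⁻¹ by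
          group, ih, ← conj_mul, ((hfix γ hab).pow_right n).eq, mul_inv_cancel_right,
          show a * b * a⁻¹ = b * γ by rw [hγ]; group, mul_assoc, ← pow_succ']
    have h1 := hiter s
    rw [pow_orderOf_prime hao, one_mul, inv_one, mul_one, eq_comm, mul_eq_left] at h1
    obtain ⟨k, hk⟩ := orderOf_eq_pow hV hab
    have hγ1 : γ = 1 := eq_one_of_pow_coprime
      (((Nat.coprime_primes Fact.out Fact.out).2 hrs).pow_left k)
      (by rw [← hk]; exact pow_orderOf_eq_one γ) h1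
    refine ⟨b, hbo, mul_inv_eq_iff_eq_mul.1 ?_, by rw [inv_mul_cancel]; exact one_mem V⟩
    rw [show a * b * a⁻¹ = b * γ by rw [hγ]; group, hγ1, mul_one]
  have hfpf : ∀ u ∈ V, Commute a u → u = 1 := fun u hu hau => by
    by_contra hu1
    obtain ⟨n, hn⟩ := exists_pow_orderOf hV hu hu1
    exact hfix (commute_of_fix_order hrs hV hc (z := w) huniq (pow_orderOf_prime hao) ha (by
      obtain ⟨k, hk⟩ := huniq _ (pow_mem hu n) hn
      simp only at hk
      have he : zpowers (w ^ k) = zpowers w := Subgroup.eq_of_le_of_card_ge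
        (zpowers_le.2 (zpow_mem (mem_zpowers w) k))
        (by rw [Nat.card_zpowers, Nat.card_zpowers, hk, hn, hw])
      obtain ⟨l, hl⟩ := (he ▸ mem_zpowers w : w ∈ zpowers (w ^ k))
      simp only at hl
      rw [← hl, hk]
      exact ((hau.pow_right n).zpow_right l)))
  obtain ⟨x, hx, hax⟩ := exists_lift hc ha hfpf hab
  refine ⟨b * x, ?_, hax, by rw [inv_mul_cancel_left]; exact hx⟩
  have hpow : ∀ n : ℕ, (b ^ n)⁻¹ * (b * x) ^ n ∈ V := by
    intro n
    induction n with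
    | zero => simp
    | succ n ih =>
      rw [pow_succ, pow_succ, show (b ^ n * b)⁻¹ * ((b * x) ^ n * (b * x))
        = b⁻¹ * ((b ^ n)⁻¹ * (b * x) ^ n) * b * x by group]
      exact mul_mem (hb _ ih) hx
  have hr' := hpow r
  rw [pow_orderOf_prime hbo, inv_one, one_mul] at hr'
  refine orderOf_eq_prime (hfpf _ hr' (hax.pow_right r)) fun q => hnot ?_
  rw [mul_eq_one_iff_eq_inv.1 q]
  exact inv_mem hx

end Cfsg.Agent.ThreeJoin
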