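import Cfsg.Agent.ThreeJoin.Cores
import Cfsg.Agent.PGroup.Critical
import Mathlib.RingTheory.RootsOfUnity.PrimitiveRoots

/-!
# A noncyclic elementary abelian group acting faithfully together with its operators
-/

set_option autoImplicit false
set_option linter.unusedSectionVars false
set_option linter.style.haveILetI false

namespace Cfsg.Agent.ThreeJoin

open Subgroup

universe u

variable {G : Type u} [Group G] [Finite G]

/-- `L` (an `{r, s}`-group) and a noncyclic elementary abelian `q`-group `Z` normalized by it act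
faithfully on the `p`-group `P`. -/
structure Act (σ : Finset ℕ) (p q r s : ℕ) (P Z L : Subgroup G) : Prop where
  nt : NoTriple G σ
  hp : p ∈ σ
  hq : q ∈ σ
  hr : r ∈ σ
  hs : s ∈ σ
  pq : p ≠ q
  pr : p ≠ r
  ps : p ≠ s
  qr : q ≠ r
  qs : q ≠ s
  rs : r ≠ s
  pp : p.Prime
  qp : q.Prime
  rp : r.Prime
  sp : s.Prime
  hP : IsPGroup p P
  hZ : IsE q Z
  Zn : ∀ l ∈ L, ∀ z ∈ Z, l * z * l⁻¹ ∈ Z
  Pn : ∀ l ∈ L, ∀ v ∈ P, l * v * l⁻¹ ∈ P
  PZ : ∀ z ∈ Z, ∀ v ∈ P, z * v * z⁻¹ ∈ P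
  faith : ∀ x, x ∈ L ∨ x ∈ Z → (∀ v ∈ P, Commute x v) → x = 1
  P1 : P ≠ ⊥
  primes : ∀ x : ℕ, x.Prime → x ∣ Nat.card L → x = r ∨ x = s
  ER : ∃ E : Subgroup G, IsE r E ∧ E ≤ L
  ES : ∃ E : Subgroup G, IsE s E ∧ E ≤ L
  join : ∃ b ∈ L, ∃ c ∈ L, orderOf b = r ∧ orderOf c = s ∧ Commute b c
  solv : Group.IsSolvable L

/-- `g` centralizes `Z`. -/
def CZ (Z : Subgroup G) (g : G) : Prop := ∀ z ∈ Z, Commute g z

theorem mul_pow_mem {V : Subgroup G} {b x : G} (hx : x ∈ V) (hb : ∀ u ∈ V, b⁻¹ * u * b ∈ V) :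
    ∀ n : ℕ, (b ^ n)⁻¹ * (b * x) ^ n ∈ V := by
  intro n
  induction n with
  | zero => simp
  | succ n ih =>
    rw [pow_succ, pow_succ, show (b ^ n * b)⁻¹ * ((b * x) ^ n * (b * x))
      = b⁻¹ * ((b ^ n)⁻¹ * (b * x) ^ n) * b * x by group]
    exact mul_mem (hb _ ih) hx

namespace Act

variable {σ : Finset ℕ} {p q r s : ℕ} {P Z L : Subgroup G} (h : Act σ p q r s P Z L)
include h

theorem swapRS : Act σ p q s r P Z L :=
  ⟨h.nt, h.hp, h.hq, h.hs, h.hr, h.pq, h.ps, h.pr, h.qs, h.qr, h.rs.symm, h.pp, h.qp, h.sp, h.rp,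
    h.hP, h.hZ, h.Zn, h.Pn, h.PZ, h.faith, h.P1, fun x hx hd => (h.primes x hx hd).symm, h.ES, h.ER,
    (by
      obtain ⟨b, hb, c, hc, hbo, hco, hbc⟩ := h.join
      exact ⟨c, hc, b, hb, hco, hbo, hbc.symm⟩), h.solv⟩

theorem zcomm {a b : G} (ha : a ∈ Z) (hb : b ∈ Z) : Commute a b := h.hZ.comm ha hb

/-- Elements of order `r` centralizing `Z` have no fixed points. -/
theorem fpf_of_cz {g : G} (hgo : orderOf g = r) (hg : CZ Z g) {v : G} (hv : v ∈ P)
    (hgv : Commute g v) : v = 1 := by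
  haveI := Fact.mk h.pp
  haveI := Fact.mk h.qp
  by_contra h1
  exact thin h.nt h.hp h.hq h.hr h.pq h.qr h.pr hgo h.hZ h.hP h.PZ hg hv h1 hgv

/-- Elements of order `r` moving `Z` have fixed points. -/
theorem exists_fixed_of_moving {g : G} (hgL : g ∈ L) (hgo : orderOf g = r) (hg : ¬ CZ Z g) :
    ∃ v ∈ P, v ≠ 1 ∧ Commute g v := by
  haveI := Fact.mk h.pp
  haveI := Fact.mk h.rp
  by_contra hc
  refine hg fun z hz => ?_
  set f := cmap g Z (fun _ ha _ hb => h.zcomm ha hb) (h.Zn g hgL)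
  set X : Subgroup G := f.range.map Z.subtype with hX
  have hXmem : ∀ x ∈ X, ∃ u ∈ Z, x = g * u * g⁻¹ * u⁻¹ := by
    rintro _ ⟨_, ⟨u, rfl⟩, rfl⟩
    exact ⟨u, u.2, rfl⟩
  have hXZ : X ≤ Z := map_subtype_le _
  haveI := Fact.mk h.qp
  have hcomm := commute_of_fpf h.pr h.hP
    (not_dvd_card (Signalizer.elemAb_isPGroup (Signalizer.elemAb_mono h.hZ.elem hXZ)) h.pp h.pq)
    hgo
    (fun x hx => by
      obtain ⟨u, hu, rfl⟩ := hXmem x hx
      refine ⟨f ⟨g * u * g⁻¹, h.Zn g hgL u hu⟩, ⟨_, rfl⟩, ?_⟩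
      show g * (g * u * g⁻¹) * g⁻¹ * (g * u * g⁻¹)⁻¹ = g * (g * u * g⁻¹ * u⁻¹) * g⁻¹
      group)
    (fun x hx hgx => by
      obtain ⟨u, hu, rfl⟩ := hXmem x hx
      exact comm_eq_one_of_fixed (m := q) (r := r) ((Nat.coprime_primes h.qp h.rp).2 h.qr)
        (pow_orderOf_prime hgo) hgx (h.hZ.pow_eq (hXZ hx)))
    (fun x hx => h.PZ x (hXZ hx)) (h.Pn g hgL)
    (fun v hv hgv x _ => by
      by_cases hv1 : v = 1
      · rw [hv1]; exact Commute.one_right x
      · exact absurd ⟨v, hv, hv1, hgv⟩ hc)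
  have h1 : ((f ⟨z, hz⟩ : Z) : G) = 1 :=
    h.faith _ (Or.inr (f ⟨z, hz⟩).2) fun v hv => hcomm _ ⟨_, ⟨_, rfl⟩, rfl⟩ v hv
  exact cmap_eq_one_iff.1 (Subtype.ext h1 : f ⟨z, hz⟩ = 1)

/-- A moving element of order `r` centralizes at most `q` elements of `Z`. -/
theorem card_cent_le {g : G} (hgL : g ∈ L) (hgo : orderOf g = r) (hg : ¬ CZ Z g) :
    Nat.card (Z ⊓ centralizer {g} : Subgroup G) ≤ q := by
  haveI := Fact.mk h.pp
  haveI := Fact.mk h.qp
  obtain ⟨v, hv, hv1, hgv⟩ := h.exists_fixed_of_moving hgL hgo hg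
  have hel := Signalizer.elemAb_mono h.hZ.elem (inf_le_left : Z ⊓ centralizer {g} ≤ Z)
  refine Signalizer.card_le_prime_of_lt_sq (Signalizer.elemAb_isPGroup hel) ?_
  by_contra hle
  exact thin h.nt h.hp h.hq h.hr h.pq h.qr h.pr hgo (E := Z ⊓ centralizer {g})
    ⟨hel, not_lt.1 hle⟩ h.hP (fun e he => h.PZ e he.1)
    (fun e he => (mem_centralizer_singleton_iff.1 he.2).symm) hv hv1 hgv

theorem exists_moving_in {E : Subgroup G} (hE : IsE r E) (hEL : E ≤ L) :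
    ∃ e ∈ E, orderOf e = r ∧ ¬ CZ Z e := by
  haveI := Fact.mk h.pp
  haveI := Fact.mk h.rp
  obtain ⟨e, he, heo, v, hv, hvo, hev⟩ := exists_fixed h.pr h.hP h.P1 hE fun a ha => h.Pn a (hEL ha)
  exact ⟨e, he, heo, fun hc => orderOf_ne_one_of_prime h.pp hvo (h.fpf_of_cz heo hc hv hev)⟩

/-- Commuting elements of order `r` and `s`, both moving `Z`. -/
theorem pair_bound {b c : G} (hbL : b ∈ L) (hcL : c ∈ L) (hbo : orderOf b = r)
    (hco : orderOf c = s) (hbc : Commute b c) (hb : ¬ CZ Z b) (hc : ¬ CZ Z c) :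
    Nat.card Z ≤ q ^ 2 ∧ ∃ z ∈ Z, z ≠ 1 ∧ Commute b z := by
  haveI := Fact.mk h.pp
  haveI := Fact.mk h.qp
  haveI := Fact.mk h.rp
  haveI := Fact.mk h.sp
  set δb := cmap b Z (fun _ ha _ hb => h.zcomm ha hb) (h.Zn b hbL) with hδb
  set δc := cmap c Z (fun _ ha _ hb => h.zcomm ha hb) (h.Zn c hcL) with hδc
  set X : Subgroup G := (δb.comp δc).range.map Z.subtype with hX
  have hXZ : X ≤ Z := map_subtype_le _
  have hswap : ∀ u : Z, δb (δc u) = δc (δb u) := by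
    intro u
    apply Subtype.ext
    show b * (c * u * c⁻¹ * (u : G)⁻¹) * b⁻¹ * (c * u * c⁻¹ * (u : G)⁻¹)⁻¹
      = c * (b * u * b⁻¹ * (u : G)⁻¹) * c⁻¹ * (b * u * b⁻¹ * (u : G)⁻¹)⁻¹
    set A1 := c * (u : G) * c⁻¹
    set A2 := b * (u : G) * b⁻¹
    set A3 := b * A1 * b⁻¹ with hA3
    have hA3' : A3 = c * A2 * c⁻¹ := by
      rw [hA3, show b * A1 * b⁻¹ = b * c * (u : G) * (b * c)⁻¹ by simp only [A1]; group, hbc.eq]
      simp only [A2]; group
    have m1 : A1 ∈ Z := h.Zn c hcL u u.2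
    have m2 : A2 ∈ Z := h.Zn b hbL u u.2
    have m3 : A3 ∈ Z := h.Zn b hbL A1 m1
    calc b * (A1 * (u : G)⁻¹) * b⁻¹ * (A1 * (u : G)⁻¹)⁻¹
        = A3 * A2⁻¹ * ((u : G) * A1⁻¹) := by simp only [A3, A2]; group
      _ = A3 * ((u : G) * A1⁻¹ * A2⁻¹) := by
          rw [mul_assoc A3, ((h.zcomm m2 (mul_mem u.2 (inv_mem m1))).inv_left).eq]
      _ = A3 * (A1⁻¹ * ((u : G) * A2⁻¹)) := by
          rw [(h.zcomm u.2 m1).inv_right.eq, mul_assoc A1⁻¹]
      _ = c * (A2 * (u : G)⁻¹) * c⁻¹ * (A2 * (u : G)⁻¹)⁻¹ := by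
          rw [hA3']; simp only [A1]; group
  have hXmem : ∀ x ∈ X, ∃ u : Z, x = ((δb (δc u) : Z) : G) := by
    rintro _ ⟨_, ⟨u, rfl⟩, rfl⟩
    exact ⟨u, rfl⟩
  have hfix1 : ∀ x ∈ X, Commute b x → x = 1 := fun x hx hbx => by
    obtain ⟨u, rfl⟩ := hXmem x hx
    exact comm_eq_one_of_fixed (m := q) (r := r) ((Nat.coprime_primes h.qp h.rp).2 h.qr)
      (pow_orderOf_prime hbo) hbx (h.hZ.pow_eq (δb (δc u)).2)
  have hfix2 : ∀ x ∈ X, Commute c x → x = 1 := fun x hx hcx => by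
    obtain ⟨u, rfl⟩ := hXmem x hx
    rw [hswap] at hcx ⊢
    exact comm_eq_one_of_fixed (m := q) (r := s) ((Nat.coprime_primes h.qp h.sp).2 h.qs)
      (pow_orderOf_prime hco) hcx (h.hZ.pow_eq (δc (δb u)).2)
  have hord : orderOf (b * c) = r * s := by
    rw [hbc.orderOf_mul_eq_mul_orderOf_of_coprime
      (by rw [hbo, hco]; exact (Nat.coprime_primes h.rp h.sp).2 h.rs), hbo, hco]
  -- powers of `b * c` with fixed points
  have hsplit : ∀ e ∈ zpowers (b * c), e ≠ 1 → b ∈ zpowers e ∨ c ∈ zpowers e := by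
    intro e he he1
    obtain ⟨n, hn⟩ := (Submonoid.mem_powers_iff _ _).1 (mem_powers_iff_mem_zpowers.2 he)
    have key : ∀ (b c : G) (r s : ℕ), r.Prime → s.Prime → r ≠ s → orderOf b = r → orderOf c = s →
        Commute b c → e = (b * c) ^ n → e ^ s ≠ 1 → b ∈ zpowers e := by
      intro b c r s hr hs hne hbo hco hbc hn hne1
      have e1 : e ^ s = b ^ (n * s) := by
        rw [hn, ← pow_mul, hbc.mul_pow, mul_comm n s, pow_mul c, pow_orderOf_prime hco, one_pow,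
          mul_one]
      haveI := Fact.mk hr
      have ho : orderOf (e ^ s) = r := orderOf_eq_prime (by
        rw [e1, ← pow_mul, mul_comm, pow_mul, pow_orderOf_prime hbo, one_pow]) hne1
      have h2 : zpowers (e ^ s) = zpowers b := Subgroup.eq_of_le_of_card_ge
        (zpowers_le.2 (by rw [e1]; exact pow_mem (mem_zpowers b) _))
        (by rw [Nat.card_zpowers, Nat.card_zpowers, ho, hbo])
      exact zpowers_le.2 (pow_mem (mem_zpowers e) s) (h2 ▸ mem_zpowers b)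
    by_cases hes : e ^ s = 1
    · refine Or.inr (key c b s r h.sp h.rp h.rs.symm hco hbo hbc.symm
        (by rw [← hbc.eq]; exact hn.symm) fun q => he1 ?_)
      exact eq_one_of_pow_coprime ((Nat.coprime_primes h.rp h.sp).2 h.rs) q hes
    · exact Or.inl (key b c r s h.rp h.sp h.rs hbo hco hbc hn.symm hes)
  have hconj : ∀ {S : Subgroup G}, (∀ l ∈ L, ∀ v ∈ S, l * v * l⁻¹ ∈ S) →
      ∀ e ∈ zpowers (b * c), ∀ v ∈ S, e * v * e⁻¹ ∈ S := fun hS e he =>
    hS e (zpowers_le.2 (mul_mem hbL hcL) he)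
  have hXn : ∀ e ∈ zpowers (b * c), ∀ x ∈ X, e * x * e⁻¹ ∈ X := by
    intro e he x hx
    obtain ⟨u, rfl⟩ := hXmem x hx
    have heb : Commute e b := by
      obtain ⟨k, rfl⟩ := he
      exact ((Commute.refl b).mul_left hbc.symm).zpow_left k
    have hec : Commute e c := by
      obtain ⟨k, rfl⟩ := he
      exact (hbc.mul_left (Commute.refl c)).zpow_left k
    have heL : e ∈ L := zpowers_le.2 (mul_mem hbL hcL) he
    refine ⟨δb (δc ⟨e * u * e⁻¹, h.Zn e heL u u.2⟩), ⟨_, rfl⟩, ?_⟩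
    have hcc : ∀ {a : G}, Commute e a → ∀ x : G,
        a * (e * x * e⁻¹) * a⁻¹ * (e * x * e⁻¹)⁻¹ = e * (a * x * a⁻¹ * x⁻¹) * e⁻¹ := by
      intro a hea x
      rw [show a * (e * x * e⁻¹) * a⁻¹ = a * e * x * (a * e)⁻¹ by group, ← hea.eq]
      group
    show b * (c * (e * u * e⁻¹) * c⁻¹ * (e * u * e⁻¹)⁻¹) * b⁻¹
        * (c * (e * u * e⁻¹) * c⁻¹ * (e * u * e⁻¹)⁻¹)⁻¹ = _
    rw [hcc hec, hcc heb]
    rfl
  have hcomm := commute_of_semiregular h.hP
    (not_dvd_card (Signalizer.elemAb_isPGroup (Signalizer.elemAb_mono h.hZ.elem hXZ)) h.pp h.pq)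
    (E := zpowers (b * c)) (by
      rw [Nat.card_zpowers, hord]
      exact fun hd => (h.pp.dvd_mul.1 hd).elim
        (fun hd => h.pr ((Nat.prime_dvd_prime_iff_eq h.pp h.rp).1 hd))
        (fun hd => h.ps ((Nat.prime_dvd_prime_iff_eq h.pp h.sp).1 hd)))
    (by
      rw [eq_bot_iff]
      intro x hx
      rw [Subgroup.mem_bot]
      obtain ⟨k, rfl⟩ := hx.2
      exact hfix1 _ hx.1 (((Commute.refl b).mul_right hbc).zpow_right k))
    hXn
    (fun e he he1 x hx hex => by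
      rcases hsplit e he he1 with ⟨k, hk⟩ | ⟨k, hk⟩
      · exact hfix1 x hx (hk ▸ hex.zpow_left k)
      · exact hfix2 x hx (hk ▸ hex.zpow_left k))
    (fun x hx => h.PZ x (hXZ hx)) (hconj h.Pn)
    (fun v hv hev x _ => by
      by_cases hv1 : v = 1
      · rw [hv1]; exact Commute.one_right x
      exfalso
      obtain ⟨n, hn⟩ := exists_pow_orderOf h.hP hv hv1
      have hy := hev (b * c) (mem_zpowers _)
      have hbmem : b ∈ zpowers (b * c) ∧ c ∈ zpowers (b * c) := by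
        have h1 : ∀ (b c : G) (r s : ℕ), r.Prime → r ≠ s → s.Prime → orderOf b = r →
            orderOf c = s → Commute b c → b ∈ zpowers (b * c) := by
          intro b c r s hr hne hs hbo hco hbc
          haveI := Fact.mk hr
          have e1 : (b * c) ^ s = b ^ s := by
            rw [hbc.mul_pow, pow_orderOf_prime hco, mul_one]
          have ho : orderOf (b ^ s) = r := by
            rw [← hbo]
            exact Nat.Coprime.orderOf_pow (by rw [hbo]; exact (Nat.coprime_primes hr hs).2 hne)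
          have h2 : zpowers (b ^ s) = zpowers b := Subgroup.eq_of_le_of_card_ge
            (zpowers_le.2 (pow_mem (mem_zpowers b) _))
            (by rw [Nat.card_zpowers, Nat.card_zpowers, ho, hbo])
          exact zpowers_le.2 (show b ^ s ∈ zpowers (b * c) from e1 ▸ pow_mem (mem_zpowers _) s)
            (h2 ▸ mem_zpowers b)
        exact ⟨h1 b c r s h.rp h.rs h.sp hbo hco hbc,
          hbc.eq ▸ h1 c b s r h.sp h.rs.symm h.rp hco hbo hbc.symm⟩
      obtain ⟨i, hi⟩ := hbmem.1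
      obtain ⟨j, hj⟩ := hbmem.2
      exact h.nt h.hp h.hr h.hs h.pr h.rs h.ps hn hbo hco
        ((hi ▸ hy.zpow_left i : Commute b v).pow_right n).symm
        ((hj ▸ hy.zpow_left j : Commute c v).pow_right n).symm hbc)
  have hker : δc.range ≤ δb.ker := by
    rintro _ ⟨u, rfl⟩
    rw [MonoidHom.mem_ker]
    apply Subtype.ext
    exact h.faith _ (Or.inr (δb (δc u)).2) fun v hv => hcomm _ ⟨_, ⟨u, rfl⟩, rfl⟩ v hv
  have hcardker : ∀ {g : G} (hgL : g ∈ L),
      Nat.card (cmap g Z (fun _ ha _ hb => h.zcomm ha hb) (h.Zn g hgL)).ker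
        = Nat.card (Z ⊓ centralizer {g} : Subgroup G) := by
    intro g hgL
    rw [← Subgroup.card_subtype Z]
    congr
    ext x
    constructor
    · rintro ⟨u, hu, rfl⟩
      exact ⟨u.2, mem_centralizer_singleton_iff.2 (cmap_eq_one_iff.1 hu).symm.eq⟩
    · rintro ⟨hx, hgx⟩
      exact ⟨⟨x, hx⟩, cmap_eq_one_iff.2
        (show Commute x g from mem_centralizer_singleton_iff.1 hgx).symm, rfl⟩
  refine ⟨?_, ?_⟩
  · rw [← δc.ker.card_mul_index, Subgroup.index_ker, pow_two]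
    exact Nat.mul_le_mul ((hcardker hcL).trans_le (h.swapRS.card_cent_le hcL hco hc))
      ((Subgroup.card_le_of_le hker).trans ((hcardker hbL).trans_le (h.card_cent_le hbL hbo hb)))
  · by_contra hno
    refine hc fun z hz => cmap_eq_one_iff.1 (?_ : δc ⟨z, hz⟩ = 1)
    have h1 := hker ⟨⟨z, hz⟩, rfl⟩
    rw [MonoidHom.mem_ker] at h1
    apply Subtype.ext
    by_contra h2
    exact hno ⟨_, (δc ⟨z, hz⟩).2, h2, cmap_eq_one_iff.1 h1⟩

/-- The centralizer of `Z` in `L` cannot contain both primes. -/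
theorem not_both {b c : G} (hbL : b ∈ L) (hcL : c ∈ L) (hbo : orderOf b = r) (hco : orderOf c = s)
    (hb : CZ Z b) (hc : CZ Z c) : False := by
  haveI := Fact.mk h.pp
  haveI := Fact.mk h.qp
  haveI := h.solv
  set C : Subgroup G := L ⊓ centralizer (Z : Set G) with hC
  have hCL : C ≤ L := inf_le_left
  have hCZ : ∀ g ∈ C, CZ Z g := fun g hg z hz => (mem_centralizer_iff.1 hg.2 z hz).symm
  have hbC : b ∈ C := ⟨hbL, mem_centralizer_iff.2 fun z hz => (hb z hz).eq.symm⟩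
  have hcC : c ∈ C := ⟨hcL, mem_centralizer_iff.2 fun z hz => (hc z hz).eq.symm⟩
  haveI : Group.IsSolvable C :=
    Group.isSolvable_of_isSolvable_injective (f := Subgroup.inclusion hCL) (Subgroup.inclusion_injective hCL)
  obtain ⟨x, hx, hxd, hne⟩ := exists_core_ne_bot (L := C) fun q =>
    orderOf_ne_one_of_prime h.rp hbo (Subgroup.mem_bot.1 (q ▸ hbC))
  haveI := Fact.mk hx
  obtain ⟨z, hz, hzo⟩ := (show ∃ z ∈ Z, orderOf z = q from h.hZ.exists_ne_one)
  have key : ∀ {r s : ℕ}, Act σ p q r s P Z L → x = r → ∀ c ∈ C, orderOf c = s → False := by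
    intro r s h hxr c hcC hco
    subst hxr
    haveI := Fact.mk h.sp
    refine hne ((Subgroup.eq_bot_iff_forall _).2 fun u hu => h.faith u (Or.inl (hCL (core_le x C hu))) ?_)
    exact commute_of_fpf h.ps h.hP (not_dvd_card (core_isPGroup x C) h.pp h.pr) hco
      (fun v hv => core_conj hcC hv)
      (fun v hv hcv => by
        by_contra hv1
        obtain ⟨n, hn⟩ := exists_pow_orderOf (core_isPGroup x C) hv hv1
        exact h.nt h.hq h.hr h.hs h.qr h.rs h.qs hzo hn hco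
          ((hCZ _ (core_le x C hv) z hz).pow_left n).symm (hCZ c hcC z hz).symm (hcv.pow_right n).symm)
      (fun v hv => h.Pn v (hCL (core_le x C hv))) (h.Pn c (hCL hcC))
      (fun v hv hcv u' _ => by
        rw [h.swapRS.fpf_of_cz hco (hCZ c hcC) hv hcv]
        exact Commute.one_right u')
      u hu
  rcases h.primes x hx (hxd.trans (Subgroup.card_dvd_of_le hCL)) with q | q
  · exact key h q c hcC hco
  · exact key h.swapRS q b hbC hbo

end Act

end Cfsg.Agent.ThreeJoin
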