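import Cfsg.Agent.ThreeJoin.Faithful

/-!
# The faithful configuration with a noncyclic normalized abelian subgroup does not exist
-/

set_option autoImplicit false
set_option linter.unusedSectionVars false
set_option linter.style.haveILetI false

namespace Cfsg.Agent.ThreeJoin

open Subgroup

universe u

variable {G : Type u} [Group G] [Finite G]

theorem commute_of_cyclic {V : Subgroup G} (hV : IsCyclic V) : ∀ u ∈ V, ∀ v ∈ V, Commute u v := by
  intro u hu v hv
  haveI := hV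
  letI : CommGroup V := IsCyclic.commGroup
  exact congrArg Subtype.val (mul_comm (⟨u, hu⟩ : V) ⟨v, hv⟩)

theorem pow_mem_of_mem {r : ℕ} [Fact r.Prime] {w : G} (hw : orderOf w = r)
    {u : G} (hu : u ∈ zpowers w) (hu1 : u ≠ 1) : w ∈ zpowers u := by
  have ho : orderOf u = r := orderOf_eq_prime (by
    obtain ⟨k, rfl⟩ := hu
    rw [← zpow_natCast, ← zpow_mul, mul_comm, zpow_mul, zpow_natCast, pow_orderOf_prime hw,
      one_zpow]) hu1
  rw [Subgroup.eq_of_le_of_card_ge (zpowers_le.2 hu)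
    (by rw [Nat.card_zpowers, Nat.card_zpowers, ho, hw])]
  exact mem_zpowers w

/-- In a cyclic group of prime order acted on, an element is scalar. -/
theorem exists_pow_conj {g z : G} (h : g * z * g⁻¹ ∈ zpowers z) : ∃ m : ℕ, g * z * g⁻¹ = z ^ m := by
  obtain ⟨m, hm⟩ := (Submonoid.mem_powers_iff _ _).1 (mem_powers_iff_mem_zpowers.2 h)
  exact ⟨m, hm.symm⟩

theorem zmod_pow_eq {q : ℕ} {z : G} (hz : orderOf z = q) {m n : ℕ} :
    z ^ m = z ^ n ↔ (m : ZMod q) = n := by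
  rw [pow_eq_pow_iff_modEq, hz, ZMod.natCast_eq_natCast_iff]

namespace Act

variable {σ : Finset ℕ} {p q r s : ℕ} {P Z L : Subgroup G} (h : Act σ p q r s P Z L)
include h

/-- The centralizer of `Z` in `L`. -/
theorem cz_mem {g : G} (hgL : g ∈ L) :
    CZ Z g ↔ g ∈ (L ⊓ centralizer (Z : Set G) : Subgroup G) :=
  ⟨fun hg => ⟨hgL, mem_centralizer_iff.2 fun z hz => (hg z hz).eq.symm⟩,
    fun hg z hz => (mem_centralizer_iff.1 hg.2 z hz).symm⟩

theorem c_isPGroup (hs : ∀ c ∈ L, orderOf c = s → ¬ CZ Z c) :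
    IsPGroup r (L ⊓ centralizer (Z : Set G) : Subgroup G) := by
  haveI := Fact.mk h.rp
  haveI := Fact.mk h.sp
  set C : Subgroup G := L ⊓ centralizer (Z : Set G) with hC
  refine IsPGroup.iff_orderOf.2 fun g => ?_
  have hall : ∀ x : ℕ, x.Prime → x ∣ orderOf (g : G) → x = r := by
    intro x hx hd
    rcases h.primes x hx (hd.trans (Subgroup.orderOf_dvd_natCard L g.2.1)) with e | e
    · exact e
    exfalso
    subst e
    exact hs _ (pow_mem g.2.1 (orderOf (g : G) / x)) (orderOf_pow_orderOf_div (orderOf_pos _).ne' hd)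
      ((h.cz_mem (pow_mem g.2.1 _)).2 (pow_mem g.2 _))
  refine ⟨(orderOf (g : G)).primeFactorsList.length, ?_⟩
  rw [← Subgroup.orderOf_coe]
  exact Nat.eq_prime_pow_of_unique_prime_dvd (orderOf_pos _).ne' fun hp hd => hall _ hp hd

theorem no_isE_in_c {E : Subgroup G} (hE : IsE r E)
    (hEC : E ≤ (L ⊓ centralizer (Z : Set G) : Subgroup G)) : False := by
  obtain ⟨e, he, heo, hne⟩ := h.exists_moving_in hE (hEC.trans inf_le_left)
  exact hne ((h.cz_mem (hEC he).1).2 (hEC he))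

/-- Facts on the centralizer of `Z` when it contains an element of order `r`. -/
theorem c_facts (hs : ∀ c ∈ L, orderOf c = s → ¬ CZ Z c) {w : G} (hwL : w ∈ L)
    (hwo : orderOf w = r) (hw : CZ Z w) :
    r ≠ 2 ∧ IsCyclic (L ⊓ centralizer (Z : Set G) : Subgroup G) ∧
      (∀ u ∈ (L ⊓ centralizer (Z : Set G) : Subgroup G), orderOf u = r → u ∈ zpowers w) ∧
      (∀ l ∈ L, l * w * l⁻¹ ∈ zpowers w) := by
  haveI := Fact.mk h.rp
  haveI := Fact.mk h.qp
  haveI := Fact.mk h.sp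
  set C : Subgroup G := L ⊓ centralizer (Z : Set G) with hC
  have hCp := h.c_isPGroup hs
  have hwC : w ∈ C := (h.cz_mem hwL).1 hw
  have huniq := isE_or_forall_mem_zpowers hCp hwC hwo fun E hE hEC => h.no_isE_in_c hE hEC
  have hCn : ∀ l ∈ L, ∀ u ∈ C, l * u * l⁻¹ ∈ C := by
    intro l hl u hu
    refine (h.cz_mem (mul_mem (mul_mem hl hu.1) (inv_mem hl))).1 fun z hz => ?_
    have h1 := (Commute.conj_iff l).2 ((h.cz_mem hu.1).2 hu _ (h.Zn l⁻¹ (inv_mem hl) z hz))
    rwa [show l * (l⁻¹ * z * l⁻¹⁻¹) * l⁻¹ = z by group] at h1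
  have hwn : ∀ l ∈ L, l * w * l⁻¹ ∈ zpowers w := fun l hl => by
    refine huniq _ (hCn l hl w hwC) ?_
    rw [← hwo]
    exact orderOf_injective (MulAut.conj l).toMonoidHom (MulAut.conj l).injective w
  have hr2 : r ≠ 2 := by
    intro hr2
    obtain ⟨A, hA, hAL⟩ := h.ES
    obtain ⟨a, ha, hao, z, hz, hzo, haz⟩ := exists_fixed h.qs (Signalizer.elemAb_isPGroup h.hZ.elem)
      (fun q' => by
        have h1 := h.hZ.card
        rw [q', Subgroup.card_bot] at h1
        have := h.qp.two_le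
        nlinarith) hA fun e he => h.Zn e (hAL he)
    have haw : Commute a w := by
      obtain ⟨i, hi⟩ := exists_pow_conj (hwn a (hAL ha))
      refine mul_inv_eq_iff_eq_mul.1 (hi.trans ?_)
      rcases Nat.even_or_odd' i with ⟨k, rfl | rfl⟩
      · exfalso
        rw [pow_mul, show w ^ 2 = 1 by rw [← hr2]; exact pow_orderOf_prime hwo, one_pow,
          conj_eq_one_iff] at hi
        exact orderOf_ne_one_of_prime h.rp hwo hi
      · rw [pow_add, pow_mul, show w ^ 2 = 1 by rw [← hr2]; exact pow_orderOf_prime hwo, one_pow,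
          one_mul, pow_one]
    exact h.nt h.hq h.hr h.hs h.qr h.rs h.qs hzo hwo hao (hw z hz).symm haz.symm haw.symm
  exact ⟨hr2, isCyclic_of_no_isE hr2 hCp fun E hE hEC => h.no_isE_in_c hE hEC, huniq, hwn⟩

/-- Some element of a noncyclic `s`-group acting faithfully on `Z` of order `q^2` is scalar. -/
theorem exists_scalar (hle : Nat.card Z ≤ q ^ 2) (hs : ∀ c ∈ L, orderOf c = s → ¬ CZ Z c)
    {A : Subgroup G} (hA : IsE s A) (hAL : A ≤ L) :
    ∃ a ∈ A, orderOf a = s ∧ (∃ m : ℕ, ∀ z ∈ Z, a * z * a⁻¹ = z ^ m) ∧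
      ∀ z ∈ Z, Commute a z → z = 1 := by
  haveI := Fact.mk h.qp
  haveI := Fact.mk h.sp
  have hZ1 : Z ≠ ⊥ := fun q' => by
    have h1 := h.hZ.card
    rw [q', Subgroup.card_bot] at h1
    have := h.qp.two_le
    nlinarith
  obtain ⟨c1, hc1, hc1o, z1, hz1, hz1o, hcz1⟩ := exists_fixed h.qs
    (Signalizer.elemAb_isPGroup h.hZ.elem) hZ1 hA fun e he => h.Zn e (hAL he)
  have hc1L := hAL hc1
  set δ := cmap c1 Z (fun _ ha _ hb => h.zcomm ha hb) (h.Zn c1 hc1L) with hδ
  have hfixq := h.swapRS.card_cent_le hc1L hc1o (hs c1 hc1L hc1o)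
  have hfix : ∀ u ∈ Z, Commute c1 u → u ∈ zpowers z1 := by
    intro u hu hcu
    have heq : zpowers z1 = Z ⊓ centralizer {c1} := Subgroup.eq_of_le_of_card_ge
      (zpowers_le.2 ⟨hz1, mem_centralizer_singleton_iff.2 hcz1.symm.eq⟩)
      (by rw [Nat.card_zpowers, hz1o]; exact hfixq)
    rw [heq]
    exact ⟨hu, mem_centralizer_singleton_iff.2 hcu.symm.eq⟩
  obtain ⟨z0, hz0, hz0'⟩ : ∃ z0 ∈ Z, ¬ Commute c1 z0 := by
    by_contra hno
    exact hs c1 hc1L hc1o fun z hz => by_contra fun q' => hno ⟨z, hz, q'⟩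
  set z2 : G := c1 * z0 * c1⁻¹ * z0⁻¹ with hz2def
  have hz2 : z2 ∈ Z := mul_mem (h.Zn c1 hc1L z0 hz0) (inv_mem hz0)
  have hz21 : z2 ≠ 1 := fun q' => hz0' (mul_inv_eq_iff_eq_mul.1 (mul_inv_eq_one.1 q'))
  have hz2o : orderOf z2 = q := h.hZ.orderOf_eq hz2 hz21
  have hz2c : ¬ Commute c1 z2 := fun q' => hz21
    (comm_eq_one_of_fixed (m := q) (r := s) ((Nat.coprime_primes h.qp h.sp).2 h.qs)
      (pow_orderOf_prime hc1o) q' (h.hZ.pow_eq hz2))
  have hnot : z2 ∉ zpowers z1 := fun q' => hz2c (by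
    obtain ⟨k, hk⟩ := q'
    rw [← hk]; exact hcz1.zpow_right k)
  obtain ⟨E, hE, hEZ, -, -, hspan⟩ := exists_isE_of_two hz1o hz2o (h.zcomm hz1 hz2) hnot hz1 hz2
  have hEeq : E = Z := Subgroup.eq_of_le_of_card_ge hEZ (hle.trans hE.card)
  subst hEeq
  -- the range of `δ` is `⟨z2⟩`
  have hrange : ∀ u ∈ E, c1 * u * c1⁻¹ * u⁻¹ ∈ zpowers z2 := by
    intro u hu
    obtain ⟨i, j, rfl⟩ := hspan u hu
    obtain ⟨i0, j0, h0⟩ := hspan z0 hz0
    have hd : c1 * z2 * c1⁻¹ * z2⁻¹ ∈ zpowers z2 := by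
      have hker : δ.ker.index = Nat.card δ.range := Subgroup.index_ker δ
      have hcardr : Nat.card δ.range ≤ q := by
        have h1 := δ.ker.card_mul_index
        have h2 : q ≤ Nat.card δ.ker := by
          rw [← hz1o, ← Nat.card_zpowers, ← Subgroup.card_subtype E δ.ker]
          refine Subgroup.card_le_of_le (zpowers_le.2 ⟨⟨z1, hz1⟩, ?_, rfl⟩)
          exact cmap_eq_one_iff.2 hcz1
        rw [hker] at h1
        by_contra hlt
        push Not at hlt
        have h3 : q * (q + 1) ≤ Nat.card δ.ker * Nat.card δ.range := Nat.mul_le_mul h2 hlt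
        rw [h1] at h3
        have := h3.trans hle
        rw [pow_two, mul_add, mul_one] at this
        have := h.qp.pos
        omega
      have heq : zpowers z2 = δ.range.map E.subtype := Subgroup.eq_of_le_of_card_ge
        (zpowers_le.2 ⟨δ ⟨z0, hz0⟩, ⟨_, rfl⟩, rfl⟩)
        (by rw [Subgroup.card_subtype, Nat.card_zpowers, hz2o]; exact hcardr)
      rw [heq]
      exact ⟨δ ⟨z2, hz2⟩, ⟨_, rfl⟩, rfl⟩
    have h1 : c1 * z2 ^ j * c1⁻¹ * (z2 ^ j)⁻¹ = (c1 * z2 * c1⁻¹ * z2⁻¹) ^ j := by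
      rw [(h.zcomm (h.Zn c1 hc1L z2 hz2) (inv_mem hz2)).mul_zpow, conj_zpow, inv_zpow]
    have h2 : c1 * (z1 ^ i * z2 ^ j) * c1⁻¹ * (z1 ^ i * z2 ^ j)⁻¹
        = c1 * z2 ^ j * c1⁻¹ * (z2 ^ j)⁻¹ := by
      rw [← conj_mul, (hcz1.zpow_right i).eq, mul_inv_cancel_right, mul_inv_rev]
      rw [show z1 ^ i * (c1 * z2 ^ j * c1⁻¹) * ((z2 ^ j)⁻¹ * (z1 ^ i)⁻¹)
        = z1 ^ i * (c1 * z2 ^ j * c1⁻¹ * (z2 ^ j)⁻¹) * (z1 ^ i)⁻¹ by group]
      have m1 : c1 * z2 ^ j * c1⁻¹ * (z2 ^ j)⁻¹ ∈ E :=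
        mul_mem (h.Zn c1 hc1L _ (zpow_mem hz2 j)) (inv_mem (zpow_mem hz2 j))
      rw [(h.zcomm (zpow_mem hz1 i) m1).eq, mul_inv_cancel_right]
    rw [h2, h1]
    exact zpow_mem hd j
  -- invariance of the two lines
  have hinv1 : ∀ a ∈ A, a * z1 * a⁻¹ ∈ zpowers z1 := fun a ha => by
    refine hfix _ (h.Zn a (hAL ha) z1 hz1) ?_
    have := (Commute.conj_iff a).2 hcz1
    rwa [(hA.comm ha hc1).eq, mul_inv_cancel_right] at this
  have hinv2 : ∀ a ∈ A, a * z2 * a⁻¹ ∈ zpowers z2 := fun a ha => by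
    have := hrange _ (h.Zn a (hAL ha) z0 hz0)
    rw [show c1 * (a * z0 * a⁻¹) * c1⁻¹ * (a * z0 * a⁻¹)⁻¹
      = (c1 * a) * z0 * (c1 * a)⁻¹ * (a * z0 * a⁻¹)⁻¹ by group, ← (hA.comm ha hc1).eq] at this
    rwa [show a * z2 * a⁻¹ = a * c1 * z0 * (a * c1)⁻¹ * (a * z0 * a⁻¹)⁻¹ by rw [hz2def]; group]
  -- exponents
  have hexp : ∀ a ∈ A, ∃ m n : ℕ, a * z1 * a⁻¹ = z1 ^ m ∧ a * z2 * a⁻¹ = z2 ^ n ∧
      (m : ZMod q) ^ s = 1 ∧ (n : ZMod q) ^ s = 1 := by
    intro a ha
    obtain ⟨m, hm⟩ := exists_pow_conj (hinv1 a ha)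
    obtain ⟨n, hn⟩ := exists_pow_conj (hinv2 a ha)
    have key : ∀ {z : G} (_ : orderOf z = q) {m : ℕ}, a * z * a⁻¹ = z ^ m → (m : ZMod q) ^ s = 1 := by
      intro z hz m hm
      have hit : ∀ k : ℕ, a ^ k * z * (a ^ k)⁻¹ = z ^ (m ^ k) := by
        intro k
        induction k with
        | zero => simp
        | succ k ih =>
          rw [pow_succ' a k, show a * a ^ k * z * (a * a ^ k)⁻¹ = a * (a ^ k * z * (a ^ k)⁻¹) * a⁻¹ by
            group, ih, ← conj_pow, hm, ← pow_mul, ← pow_succ']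
      have h1 := hit s
      rw [hA.pow_eq ha, one_mul, inv_one, mul_one] at h1
      have h2 := (zmod_pow_eq hz (m := 1) (n := m ^ s)).1 (by rw [pow_one]; exact h1)
      rw [Nat.cast_one, Nat.cast_pow] at h2
      exact h2.symm
    exact ⟨m, n, hm, hn, key hz1o hm, key hz2o hn⟩
  obtain ⟨m1, k1, hm1, hk1, -, hk1s⟩ := hexp c1 hc1
  have hk1ne : (k1 : ZMod q) ≠ 1 := fun q' => hz2c (mul_inv_eq_iff_eq_mul.1 (by
    rw [hk1, (zmod_pow_eq hz2o (n := 1)).2 (by rw [q', Nat.cast_one]), pow_one]))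
  have hprim : IsPrimitiveRoot (k1 : ZMod q) s :=
    orderOf_eq_prime hk1s hk1ne ▸ IsPrimitiveRoot.orderOf (k1 : ZMod q)
  obtain ⟨d, hd, hdn⟩ := hA.exists_not_zpowers c1 hc1o
  obtain ⟨m, n, hm, hn, hms, hns⟩ := hexp d hd
  haveI : NeZero s := ⟨h.sp.ne_zero⟩
  obtain ⟨i, hi, him⟩ := hprim.eq_pow_of_pow_eq_one hms
  obtain ⟨j, hj, hjn⟩ := hprim.eq_pow_of_pow_eq_one hns
  set e := i + (s - j) with he
  set a := c1 ^ e * d with ha
  have haA : a ∈ A := mul_mem (pow_mem hc1 e) hd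
  have ha1 : a ≠ 1 := fun q' => hdn (by
    rw [eq_inv_of_mul_eq_one_right q']; exact inv_mem (pow_mem (mem_zpowers c1) e))
  have hit : ∀ t : ℕ, c1 ^ t * z2 * (c1 ^ t)⁻¹ = z2 ^ (k1 ^ t) := by
    intro t
    induction t with
    | zero => simp
    | succ t ih =>
      rw [pow_succ' c1 t, show c1 * c1 ^ t * z2 * (c1 * c1 ^ t)⁻¹
        = c1 * (c1 ^ t * z2 * (c1 ^ t)⁻¹) * c1⁻¹ by group, ih, ← conj_pow, hk1, ← pow_mul,
        ← pow_succ']
  have e1 : a * z1 * a⁻¹ = z1 ^ m := by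
    rw [ha, show c1 ^ e * d * z1 * (c1 ^ e * d)⁻¹ = c1 ^ e * (d * z1 * d⁻¹) * (c1 ^ e)⁻¹ by group,
      hm, ((hcz1.pow_left e).pow_right m).eq, mul_inv_cancel_right]
  have e2 : a * z2 * a⁻¹ = z2 ^ m := by
    rw [ha, show c1 ^ e * d * z2 * (c1 ^ e * d)⁻¹ = c1 ^ e * (d * z2 * d⁻¹) * (c1 ^ e)⁻¹ by group,
      hn, ← conj_pow, hit, ← pow_mul, zmod_pow_eq hz2o, Nat.cast_mul, Nat.cast_pow, ← hjn, ← pow_add,
      show e + j = i + s by omega, pow_add, hk1s, mul_one, him]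
  have hscal : ∀ z ∈ E, a * z * a⁻¹ = z ^ m := by
    intro z hz
    obtain ⟨x, y, rfl⟩ := hspan z hz
    rw [← conj_mul, ← conj_zpow, e1, ← conj_zpow, e2,
      ((h.zcomm hz1 hz2).zpow_zpow x y).mul_pow, ← zpow_natCast, ← zpow_mul, mul_comm, zpow_mul,
      zpow_natCast, ← zpow_natCast z2, ← zpow_mul, mul_comm, zpow_mul, zpow_natCast]
  refine ⟨a, haA, hA.orderOf_eq haA ha1, ⟨m, hscal⟩, fun z hz haz => ?_⟩
  by_contra hz'
  refine hs a (hAL haA) (hA.orderOf_eq haA ha1) fun u hu => mul_inv_eq_iff_eq_mul.1 ?_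
  have h1 : z ^ m = z ^ 1 := by rw [← hscal z hz, haz.eq, mul_inv_cancel_right, pow_one]
  rw [hscal u hu]
  by_cases hu1 : u = 1
  · rw [hu1, one_pow]
  · rw [(zmod_pow_eq (h.hZ.orderOf_eq hu hu1) (n := 1)).2
      ((zmod_pow_eq (h.hZ.orderOf_eq hz hz') (n := 1)).1 h1), pow_one]

/-- The case `|Z| = q^2`. -/
theorem false_two (hle : Nat.card Z ≤ q ^ 2) (hs : ∀ c ∈ L, orderOf c = s → ¬ CZ Z c) : False := by
  haveI := Fact.mk h.rp
  haveI := Fact.mk h.sp
  obtain ⟨B, hB, hBL⟩ := h.ER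
  obtain ⟨A, hA, hAL⟩ := h.ES
  obtain ⟨b, hb, hbo, hbmove⟩ := h.exists_moving_in hB hBL
  obtain ⟨a, ha, hao, ⟨m, hscal⟩, hfpf⟩ := h.exists_scalar hle hs hA hAL
  set C : Subgroup G := L ⊓ centralizer (Z : Set G) with hC
  have habC : b⁻¹ * (a * b * a⁻¹) ∈ C := by
    refine (h.cz_mem (mul_mem (inv_mem (hBL hb)) (mul_mem (mul_mem (hAL ha) (hBL hb))
      (inv_mem (hAL ha))))).1 fun z hz => mul_inv_eq_iff_eq_mul.1 ?_
    have hbz : ∀ u ∈ Z, b * u * b⁻¹ ∈ Z := h.Zn b (hBL hb)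
    -- `a` acts by a power on `Z`
    have hainv : a⁻¹ * z * a⁻¹⁻¹ ∈ Z := h.Zn a⁻¹ (inv_mem (hAL ha)) z hz
    set v := a⁻¹ * z * a⁻¹⁻¹ with hv
    have hvz : v ^ m = z := by rw [← hscal v hainv, hv]; group
    calc b⁻¹ * (a * b * a⁻¹) * z * (b⁻¹ * (a * b * a⁻¹))⁻¹
        = b⁻¹ * (a * (b * v * b⁻¹) * a⁻¹) * b := by rw [hv]; group
      _ = b⁻¹ * (b * v * b⁻¹) ^ m * b := by rw [hscal _ (hbz v hainv)]
      _ = z := by rw [conj_pow, hvz]; group
  have hfind : ∃ g : G, g ∈ L ∧ orderOf g = r ∧ Commute a g ∧ ¬ CZ Z g := by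
    by_cases hC1 : ∃ w ∈ L, orderOf w = r ∧ CZ Z w
    · obtain ⟨w, hwL, hwo, hw⟩ := hC1
      obtain ⟨-, hcyc, huniq, -⟩ := h.c_facts hs hwL hwo hw
      have hCn : ∀ l ∈ L, ∀ u ∈ C, l * u * l⁻¹ ∈ C := by
        intro l hl u hu
        refine (h.cz_mem (mul_mem (mul_mem hl hu.1) (inv_mem hl))).1 fun z hz => ?_
        have h1 := (Commute.conj_iff l).2 ((h.cz_mem hu.1).2 hu _ (h.Zn l⁻¹ (inv_mem hl) z hz))
        rwa [show l * (l⁻¹ * z * l⁻¹⁻¹) * l⁻¹ = z by group] at h1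
      have hbC : b ∉ C := fun q' => hbmove ((h.cz_mem (hBL hb)).2 q')
      obtain ⟨g, hgo, hag, hgC⟩ := exists_commute_lift h.rs (h.c_isPGroup hs)
        (commute_of_cyclic hcyc) hwo huniq hao hbo (hCn a (hAL ha))
        (fun u hu => conj_inv_mem hCn (hBL hb) hu) habC hbC
      have hgL : g ∈ L := by simpa using mul_mem (hBL hb) hgC.1
      exact ⟨g, hgL, hgo, hag, fun q' => hbC (by
        have := mul_mem ((h.cz_mem hgL).1 q') (inv_mem hgC)
        rwa [mul_inv_rev, inv_inv, mul_inv_cancel_left] at this)⟩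
    · refine ⟨b, hBL hb, hbo, ?_, hbmove⟩
      have h1 : b⁻¹ * (a * b * a⁻¹) = 1 := by
        by_contra hne
        obtain ⟨n, hn⟩ := exists_pow_orderOf (h.c_isPGroup hs) habC hne
        exact hC1 ⟨_, pow_mem habC.1 n, hn, (h.cz_mem (pow_mem habC.1 n)).2 (pow_mem habC n)⟩
      exact mul_inv_eq_iff_eq_mul.1 (inv_mul_eq_one.1 h1).symm
  obtain ⟨g, hgL, hgo, hag, hg⟩ := hfind
  obtain ⟨-, z, hz, hz1, haz⟩ :=
    h.swapRS.pair_bound (hAL ha) hgL hao hgo hag (hs a (hAL ha) hao) hg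
  exact hz1 (hfpf z hz haz)

theorem primes_core {x : ℕ} (hx : x.Prime) (hne : core x L ≠ ⊥) : x = r ∨ x = s := by
  haveI := Fact.mk hx
  refine h.primes x hx ?_
  obtain ⟨z, hz, hzo⟩ := exists_omegaZ (core_isPGroup x L) hne
  exact hzo ▸ Subgroup.orderOf_dvd_natCard L (core_le x L (omegaZ_le _ _ hz))

/-- The case `|Z| > q^2`. -/
theorem false_three (hgt : q ^ 2 < Nat.card Z) (hs : ∀ c ∈ L, orderOf c = s → ¬ CZ Z c) : False := by
  haveI := Fact.mk h.qp
  haveI := Fact.mk h.rp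
  haveI := Fact.mk h.sp
  haveI := h.solv
  have hpair : ∀ b ∈ L, ∀ c ∈ L, orderOf b = r → orderOf c = s → Commute b c → CZ Z b :=
    fun b hb c hc hbo hco hbc => by
      by_contra hne
      have := (h.pair_bound hb hc hbo hco hbc hne (hs c hc hco)).1
      omega
  obtain ⟨w, hwL, c0, hc0L, hwo, hc0o, hwc0⟩ := h.join
  have hwZ := hpair w hwL c0 hc0L hwo hc0o hwc0
  obtain ⟨hr2, hcyc, huniq, hwn⟩ := h.c_facts hs hwL hwo hwZ
  set C : Subgroup G := L ⊓ centralizer (Z : Set G) with hC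
  have hwC : w ∈ C := (h.cz_mem hwL).1 hwZ
  -- `w` lies in the core
  have hwcore : w ∈ core r L := by
    refine le_core (N := zpowers w) (zpowers_le.2 hwL) (isPGroup_zpowers hwo) (fun l hl v hv => ?_)
      (mem_zpowers w)
    obtain ⟨k, rfl⟩ := hv
    simp only [← conj_zpow]
    exact zpow_mem (hwn l hl) k
  have htriple : ∀ g ∈ L, orderOf g = s → Commute g w → ∀ z ∈ Z, Commute g z → z = 1 := by
    intro g hg hgo hgw z hz hgz
    by_contra hz1
    exact h.nt h.hq h.hr h.hs h.qr h.rs h.qs (h.hZ.orderOf_eq hz hz1) hwo hgo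
      (hwZ z hz).symm hgz.symm hgw.symm
  obtain ⟨A, hA, hAL⟩ := h.ES
  obtain ⟨B, hB, hBL⟩ := h.ER
  obtain ⟨b, hb, hbo, hbmove⟩ := h.exists_moving_in hB hBL
  by_cases hS : core s L = ⊥
  · obtain ⟨a0, ha0, ha0o, ha0w⟩ := exists_commute_of_normalizes hA hwo fun e he => hwn e (hAL he)
    refine orderOf_ne_one_of_prime h.sp ha0o ?_
    rw [← Subgroup.mem_bot, ← hS]
    refine mem_core_of_centralizes (k := 1) (hAL ha0) (by rw [ha0o, pow_one]) fun x hx v hv => ?_
    by_cases hv1 : v = 1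
    · rw [hv1]; exact Commute.one_right a0
    have hne : core x L ≠ ⊥ := fun q' => hv1 (by rw [← Subgroup.mem_bot, ← q']; exact hv)
    rcases h.primes_core hx hne with rfl | rfl
    swap; · exact absurd hS hne
    -- a characteristic subgroup of exponent `r`
    set R := core x L with hR
    obtain ⟨D, hD, -, hDexp, hDfaith⟩ :=
      PGroup.exists_characteristic_exponent_prime hr2 (core_isPGroup x L)
    set D' : Subgroup G := D.map R.subtype with hD'
    have hAD : ∀ a ∈ L, ∀ d ∈ D', a * d * a⁻¹ ∈ D' := by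
      rintro a ha _ ⟨d, hd, rfl⟩
      have hn : a ∈ normalizer (R : Set G) := by
        rw [mem_normalizer_iff]
        refine fun u => ⟨fun hu => core_conj ha hu, fun hu => ?_⟩
        simpa [mul_assoc] using core_conj (inv_mem ha) hu
      refine ⟨Subgroup.normalizerMonoidHom R ⟨a, hn⟩ d, ?_, rfl⟩
      exact (Subgroup.characteristic_iff_le_comap.1 hD (Subgroup.normalizerMonoidHom R ⟨a, hn⟩)) hd
    have hDw : D' ≤ zpowers w := by
      refine Signalizer.le_of_forall_centralizer hA.elem hA.card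
        (normalizes fun a ha => hAD a (hAL ha))
        (not_dvd_card ((core_isPGroup x L).to_le (map_subtype_le D)) h.sp h.rs.symm)
        fun a ha ha1 d hd => ?_
      obtain ⟨⟨d', hd', rfl⟩, hdc⟩ := hd
      by_cases hd1 : (d' : G) = 1
      · rw [Subgroup.coe_subtype, hd1]; exact one_mem _
      have hdo : orderOf (d' : G) = x := orderOf_eq_prime
        (by rw [← Subgroup.coe_pow, hDexp d' hd', Subgroup.coe_one]) hd1
      have hdL : (d' : G) ∈ L := core_le x L d'.2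
      exact huniq _ ((h.cz_mem hdL).1 (hpair _ hdL a (hAL ha) hdo (hA.orderOf_eq ha ha1)
        (mem_centralizer_singleton_iff.1 hdc))) hdo
    have hn0 : a0 ∈ normalizer (R : Set G) := by
      rw [mem_normalizer_iff]
      refine fun u => ⟨fun hu => core_conj (hAL ha0) hu, fun hu => ?_⟩
      simpa [mul_assoc] using core_conj (inv_mem (hAL ha0)) hu
    set α := Subgroup.normalizerMonoidHom R ⟨a0, hn0⟩ with hα
    have hord : orderOf α ∣ s := by
      refine orderOf_dvd_of_pow_eq_one ?_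
      rw [hα, ← map_pow, show (⟨a0, hn0⟩ : normalizer (R : Set G)) ^ s = 1 from
        Subtype.ext (by simpa using pow_orderOf_prime ha0o), map_one]
    have hα1 : α = 1 := hDfaith α
      (Nat.Coprime.coprime_dvd_left hord ((Nat.coprime_primes h.sp h.rp).2 h.rs.symm))
      fun u hu => by
        obtain ⟨k, hk⟩ := hDw ⟨u, hu, rfl⟩
        refine Subtype.ext ?_
        show a0 * (u : G) * a0⁻¹ = u
        rw [show (u : G) = w ^ k from hk.symm, (ha0w.zpow_right k).eq, mul_inv_cancel_right]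
    have h1 : a0 * v * a0⁻¹ = v :=
      congrArg (fun F : MulAut R => ((F ⟨v, hv⟩ : R) : G)) hα1
    exact mul_inv_eq_iff_eq_mul.1 h1
  -- the `s`-core is cyclic
  obtain ⟨x, hx, hxo⟩ : ∃ x ∈ core s L, orderOf x = s := by
    obtain ⟨z, hz, hzo⟩ := exists_omegaZ (core_isPGroup s L) hS
    exact ⟨z, omegaZ_le _ _ hz, hzo⟩
  have hSw : ∀ u ∈ core s L, Commute u w := fun u hu => commute_of_cores h.rs.symm hu hwcore
  have hSno : ∀ E : Subgroup G, IsE s E → ¬ E ≤ core s L := fun E hE hES => by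
    obtain ⟨e, he, heo, z, hz, hzo, hez⟩ := exists_fixed h.qs (Signalizer.elemAb_isPGroup h.hZ.elem)
      (fun q' => by
        have h1 := h.hZ.card
        rw [q', Subgroup.card_bot] at h1
        have := h.qp.two_le
        nlinarith) hE fun a ha => h.Zn a (core_le s L (hES ha))
    exact orderOf_ne_one_of_prime h.qp hzo
      (htriple e (core_le s L (hES he)) heo (hSw e (hES he)) z hz hez)
  have hxuniq := isE_or_forall_mem_zpowers (core_isPGroup s L) hx hxo hSno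
  have hxn : ∀ l ∈ L, l * x * l⁻¹ ∈ zpowers x := fun l hl => hxuniq _ (core_conj hl hx) (by
    rw [← hxo]
    exact orderOf_injective (MulAut.conj l).toMonoidHom (MulAut.conj l).injective x)
  have hxmove : ∀ g ∈ L, orderOf g = r → ¬ CZ Z g → ¬ Commute g x := fun g hg hgo hne hgx =>
    hne (hpair g hg x (core_le s L hx) hgo hxo hgx)
  have hs2 : s ≠ 2 := by
    intro hs2
    refine hxmove b (hBL hb) hbo hbmove ?_
    obtain ⟨i, hi⟩ := exists_pow_conj (hxn b (hBL hb))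
    refine mul_inv_eq_iff_eq_mul.1 (hi.trans ?_)
    rcases Nat.even_or_odd' i with ⟨k, rfl | rfl⟩
    · exfalso
      rw [pow_mul, show x ^ 2 = 1 by rw [← hs2]; exact pow_orderOf_prime hxo, one_pow,
        conj_eq_one_iff] at hi
      exact orderOf_ne_one_of_prime h.sp hxo hi
    · rw [pow_add, pow_mul, show x ^ 2 = 1 by rw [← hs2]; exact pow_orderOf_prime hxo, one_pow,
        one_mul, pow_one]
  have hScyc := isCyclic_of_no_isE hs2 (core_isPGroup s L) hSno
  have hRuniq : ∀ u ∈ core r L, orderOf u = r → u ∈ zpowers w := fun u hu huo =>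
    huniq u ((h.cz_mem (core_le r L hu)).1 (hpair u (core_le r L hu) x (core_le s L hx) huo hxo
      (commute_of_cores h.rs hu hx))) huo
  have hRcyc : IsCyclic (core r L) := isCyclic_of_no_isE hr2 (core_isPGroup r L) fun E hE hER => by
    obtain ⟨e, he, hne⟩ := hE.exists_not_zpowers w hwo
    exact hne (hRuniq e (hER he) (hE.orderOf_eq he fun q' => hne (q' ▸ one_mem _)))
  obtain ⟨a, ha, hax⟩ := hA.exists_not_zpowers x hxo
  have hao := hA.orderOf_eq ha fun q' => hax (q' ▸ one_mem _)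
  have haL := hAL ha
  have hbL := hBL hb
  -- the commutator lies in the product of the cores
  obtain ⟨σ', hσ', ρ, hρ, hγ⟩ := exists_mul_of_centralizes (r := r) (s := s)
    (fun y hy hne => h.primes_core hy hne)
    (g := b * a * b⁻¹ * a⁻¹) (mul_mem (mul_mem (mul_mem hbL haL) (inv_mem hbL)) (inv_mem haL))
    fun y hy v hv => by
      by_cases hv1 : v = 1
      · rw [hv1]; exact Commute.one_right _
      have hne : core y L ≠ ⊥ := fun q' => hv1 (by rw [← Subgroup.mem_bot, ← q']; exact hv)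
      haveI : IsCyclic (core y L) := by
        rcases h.primes_core hy hne with rfl | rfl
        exacts [hRcyc, hScyc]
      exact comm_centralizes_cyclic (fun u hu => core_conj hbL hu) (fun u hu => core_conj haL hu)
        (fun u hu => conj_inv_mem (fun l hl w hw => core_conj hl hw) hbL hu)
        (fun u hu => conj_inv_mem (fun l hl w hw => core_conj hl hw) haL hu) v hv
  have hfpfS : ∀ u ∈ core s L, Commute b u → u = 1 := fun u hu hbu => by
    by_contra hu1
    obtain ⟨n, hn⟩ := exists_pow_orderOf (core_isPGroup s L) hu hu1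
    obtain ⟨l, hl⟩ := pow_mem_of_mem hxo (hxuniq _ (pow_mem hu n) hn)
      (orderOf_ne_one_of_prime h.sp hn)
    exact hxmove b hbL hbo hbmove (hl ▸ (hbu.pow_right n).zpow_right l)
  set δ := cmap b (core s L) (commute_of_cyclic hScyc) (fun u hu => core_conj hbL hu) with hδ
  have hinj : Function.Injective δ := by
    rw [injective_iff_map_eq_one]
    exact fun u hu => Subtype.ext (hfpfS u u.2 (cmap_eq_one_iff.1 hu))
  obtain ⟨τ, hτ⟩ := (Finite.injective_iff_surjective.1 hinj) ⟨σ'⁻¹, inv_mem hσ'⟩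
  have hτ' : b * τ * b⁻¹ * (τ : G)⁻¹ = σ'⁻¹ := congrArg Subtype.val hτ
  set a' := (τ : G) * a with ha'
  have hτρ : Commute (τ : G) ρ := commute_of_cores h.rs.symm τ.2 hρ
  have hba' : b * a' * b⁻¹ = ρ * a' := by
    have e1 : b * τ * b⁻¹ = σ'⁻¹ * τ := mul_inv_eq_iff_eq_mul.1 hτ'
    have e2 : b * a * b⁻¹ = σ' * ρ * a := mul_inv_eq_iff_eq_mul.1 hγ
    calc b * a' * b⁻¹ = (b * τ * b⁻¹) * (b * a * b⁻¹) := by rw [ha']; group
      _ = σ'⁻¹ * (τ : G) * σ' * ρ * a := by rw [e1, e2]; group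
      _ = (τ : G) * ρ * a := by
          rw [(commute_of_cyclic hScyc _ (inv_mem hσ') _ τ.2).eq]; group
      _ = ρ * a' := by rw [hτρ.eq, ha', mul_assoc]
  have hRn : ∀ u ∈ core r L, a'⁻¹ * u * a' ∈ core r L := fun u hu =>
    conj_inv_mem (fun l hl w hw => core_conj hl hw) (mul_mem (core_le s L τ.2) haL) hu
  have ha'L : a' ∈ L := mul_mem (core_le s L τ.2) haL
  have haS : a ∉ core s L := fun q' => hax (hxuniq a q' hao)
  have ha'pow : a' ^ s ∈ core s L := by
    have h1 := mul_pow_mem (V := core s L) (b := a) (x := a⁻¹ * τ * a)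
      (conj_inv_mem (fun l hl w hw => core_conj hl hw) haL τ.2)
      (fun u hu => conj_inv_mem (fun l hl w hw => core_conj hl hw) haL hu) s
    rwa [pow_orderOf_prime hao, inv_one, one_mul, ← mul_assoc, mul_inv_cancel_left,
      ← ha'] at h1
  have ha'o : orderOf a' = s := by
    refine orderOf_eq_prime ?_ fun q' => haS ?_
    · refine hfpfS _ ha'pow (mul_inv_eq_iff_eq_mul.1 (mul_inv_eq_one.1 ?_))
      refine eq_one_of_mem_both h.rs.symm (core_isPGroup s L) (core_isPGroup r L)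
        (mul_mem (core_conj hbL ha'pow) (inv_mem ha'pow)) ?_
      have hpow : ∀ n : ℕ, (ρ * a') ^ n * (a' ^ n)⁻¹ ∈ core r L := by
        intro n
        induction n with
        | zero => simp
        | succ n ih =>
          rw [pow_succ' (ρ * a'), pow_succ' a', show ρ * a' * (ρ * a') ^ n * (a' * a' ^ n)⁻¹
            = ρ * (a' * ((ρ * a') ^ n * (a' ^ n)⁻¹) * a'⁻¹) by group]
          exact mul_mem hρ (core_conj ha'L ih)
      rw [← conj_pow, hba']
      exact hpow s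
    · rw [show a = (τ : G)⁻¹ from eq_inv_of_mul_eq_one_right q']
      exact inv_mem τ.2
  have hbR : b ∉ core r L := fun q' => hxmove b hbL hbo hbmove (commute_of_cores h.rs q' hx)
  obtain ⟨g, hgo, hag, hgR⟩ := exists_commute_lift h.rs (core_isPGroup r L)
    (commute_of_cyclic hRcyc) hwo hRuniq ha'o hbo (fun u hu => core_conj ha'L hu)
    (fun u hu => conj_inv_mem (fun l hl w hw => core_conj hl hw) hbL hu)
    (by
      have e1 : a' * b * a'⁻¹ = ρ⁻¹ * b := by
        rw [mul_inv_eq_iff_eq_mul, show ρ⁻¹ * b * a' = ρ⁻¹ * (b * a' * b⁻¹) * b by group, hba']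
        group
      rw [e1, ← mul_assoc]
      exact conj_inv_mem (fun l hl w hw => core_conj hl hw) hbL (inv_mem hρ))
    hbR
  have hgL : g ∈ L := by simpa using mul_mem hbL (core_le r L hgR)
  have hgx : ¬ CZ Z g := fun q' => by
    -- `g` centralizes `x`, so `b` would
    have hgC := (h.cz_mem hgL).1 q'
    refine hxmove b hbL hbo hbmove ?_
    have h1 : Commute g x := by
      obtain ⟨k, hk⟩ := huniq g hgC hgo
      rw [← hk]
      exact (hSw x hx).symm.zpow_left k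
    have h2 : b = g * (b⁻¹ * g)⁻¹ := by group
    rw [h2]
    exact h1.mul_left (commute_of_cores h.rs hgR hx).inv_left
  have := (h.pair_bound hgL ha'L hgo ha'o hag.symm hgx (hs a' ha'L ha'o)).1
  omega

/-- The configuration does not exist. -/
theorem false_of_act : False := by
  by_cases hr : ∀ b ∈ L, orderOf b = r → ¬ CZ Z b
  · rcases le_or_gt (Nat.card Z) (q ^ 2) with hle | hgt
    · exact h.swapRS.false_two hle hr
    · exact h.swapRS.false_three hgt hr
  · push Not at hr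
    obtain ⟨b, hbL, hbo, hb⟩ := hr
    have hs : ∀ c ∈ L, orderOf c = s → ¬ CZ Z c := fun c hc hco hcZ =>
      h.not_both hbL hc hbo hco hb hcZ
    rcases le_or_gt (Nat.card Z) (q ^ 2) with hle | hgt
    · exact h.false_two hle hs
    · exact h.false_three hgt hs

end Act

end Cfsg.Agent.ThreeJoin
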