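import Cfsg.Agent.ThreeJoin.Commuting
import Cfsg.Agent.ThreeJoin.FaithfulEnd
import Cfsg.Agent.Coprime.Conj

/-!
# A faithful Hall subgroup whose cores have centers of rank one does not exist
-/

set_option autoImplicit false
set_option linter.unusedSectionVars false
set_option linter.style.haveILetI false

namespace Cfsg.Agent.ThreeJoin

open Subgroup

universe u

variable {G : Type u} [Group G] [Finite G]

/-- A characteristic subgroup of exponent `q` detecting coprime operators. -/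
theorem exists_detecting {q : ℕ} [Fact q.Prime] (hq2 : q ≠ 2) {U : Subgroup G}
    (hU : IsPGroup q U) :
    ∃ D : Subgroup G, D ≤ U ∧ (∀ d ∈ D, d ^ q = 1) ∧
      (∀ g ∈ normalizer (U : Set G), ∀ d ∈ D, g * d * g⁻¹ ∈ D) ∧
      ∀ g ∈ normalizer (U : Set G), ∀ n : ℕ, g ^ n = 1 → n.Coprime q →
        (∀ d ∈ D, Commute g d) → ∀ v ∈ U, Commute g v := by
  obtain ⟨D, hD, -, hexp, hfaith⟩ := PGroup.exists_characteristic_exponent_prime hq2 hU
  refine ⟨D.map U.subtype, map_subtype_le D, ?_, ?_, ?_⟩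
  · rintro _ ⟨d, hd, rfl⟩
    rw [← map_pow, hexp d hd, map_one]
  · rintro g hg _ ⟨d, hd, rfl⟩
    exact ⟨Subgroup.normalizerMonoidHom U ⟨g, hg⟩ d,
      (Subgroup.characteristic_iff_le_comap.1 hD (Subgroup.normalizerMonoidHom U ⟨g, hg⟩)) hd, rfl⟩
  · intro g hg n hn hcop hfix v hv
    set α := Subgroup.normalizerMonoidHom U ⟨g, hg⟩ with hα
    have hord : orderOf α ∣ n := by
      refine orderOf_dvd_of_pow_eq_one ?_
      rw [hα, ← map_pow, show (⟨g, hg⟩ : normalizer (U : Set G)) ^ n = 1 from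
        Subtype.ext (by simpa using hn), map_one]
    have hα1 : α = 1 := hfaith α (Nat.Coprime.coprime_dvd_left hord hcop) fun u hu => by
      refine Subtype.ext ?_
      show g * (u : G) * g⁻¹ = u
      rw [(hfix u ⟨u, hu, rfl⟩).eq, mul_inv_cancel_right]
    exact mul_inv_eq_iff_eq_mul.1
      (congrArg (fun F : MulAut U => ((F ⟨v, hv⟩ : U) : G)) hα1)

/-- A subgroup `H` faithful on the `p`-group `P`, without three commuting prime orders. -/
structure Base (σ : Finset ℕ) (p : ℕ) (P H : Subgroup G) : Prop where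
  nt : NoTriple G σ
  hp : p ∈ σ
  prime : ∀ x ∈ σ, x.Prime
  hP : IsPGroup p P
  Pn : ∀ g ∈ H, ∀ v ∈ P, g * v * g⁻¹ ∈ P
  faith : ∀ x ∈ H, (∀ v ∈ P, Commute x v) → x = 1
  solv : Group.IsSolvable H

namespace Base

variable {σ : Finset ℕ} {p : ℕ} {P H : Subgroup G} (h : Base σ p P H)
include h

/-- An operator without fixed points on a nontrivial subgroup has fixed points on `P`. -/
theorem exists_fixedP {r s : ℕ} (hr : r ∈ σ) (hs : s ∈ σ) (pr : p ≠ r) (ps : p ≠ s)
    {U : Subgroup G} (hUH : U ≤ H) (hU : IsPGroup r U) (hU1 : U ≠ ⊥) {c : G} (hcH : c ∈ H)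
    (hco : orderOf c = s) (hcU : ∀ u ∈ U, c * u * c⁻¹ ∈ U)
    (hfpf : ∀ u ∈ U, Commute c u → u = 1) : ∃ v ∈ P, v ≠ 1 ∧ Commute c v := by
  haveI := Fact.mk (h.prime p h.hp)
  haveI := Fact.mk (h.prime r hr)
  haveI := Fact.mk (h.prime s hs)
  by_contra hc
  refine hU1 ((Subgroup.eq_bot_iff_forall _).2 fun u hu => h.faith u (hUH hu) fun v hv => ?_)
  refine commute_of_fpf ps h.hP (not_dvd_card hU (h.prime p h.hp) pr) hco hcU hfpf
    (fun x hx => h.Pn x (hUH hx)) (h.Pn c hcH) (fun v hv hcv x _ => ?_) u hu v hv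
  by_cases hv1 : v = 1
  · rw [hv1]; exact Commute.one_right x
  · exact absurd ⟨v, hv, hv1, hcv⟩ hc

/-- An `r`-group centralizing `z` with a fixed point free operator centralizing `z` centralizes
the `q`-core. -/
theorem centralizes_core {q r s : ℕ} (hq : q ∈ σ) (hr : r ∈ σ) (hs : s ∈ σ) (pq : p ≠ q)
    (pr : p ≠ r) (ps : p ≠ s) (qr : q ≠ r) (qs : q ≠ s) (hq2 : q ≠ 2)
    {z : G} (hz : z ∈ omegaZ q (core q H)) (hzo : orderOf z = q) {X : Subgroup G} (hXH : X ≤ H)
    (hX : IsPGroup r X) (hXz : ∀ x ∈ X, Commute x z) {c : G} (hcH : c ∈ H) (hco : orderOf c = s)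
    (hcz : Commute c z) (hcX : ∀ x ∈ X, c * x * c⁻¹ ∈ X)
    (hfpf : ∀ x ∈ X, Commute c x → x = 1) : ∀ x ∈ X, ∀ u ∈ core q H, Commute x u := by
  haveI := Fact.mk (h.prime p h.hp)
  haveI := Fact.mk (h.prime q hq)
  haveI := Fact.mk (h.prime r hr)
  haveI := Fact.mk (h.prime s hs)
  by_cases hX1 : X = ⊥
  · intro x hx u _
    rw [hX1, Subgroup.mem_bot] at hx
    rw [hx]; exact Commute.one_left u
  obtain ⟨v0, hv0, hv01, hcv0⟩ := h.exists_fixedP hr hs pr ps hXH hX hX1 hcH hco hcX hfpf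
  set U := core q H with hU
  obtain ⟨D, hDU, hDexp, hDn, hDdet⟩ := exists_detecting hq2 (core_isPGroup q H)
  have hnU : H ≤ normalizer (U : Set G) := normalizes fun g hg v hv => core_conj hg hv
  have hUH : U ≤ H := core_le q H
  have hDz : ∀ d ∈ D, Commute c d → d ∈ zpowers z := by
    intro d hd hcd
    by_contra hne
    obtain ⟨E, hE, hEU, -, -, hspan⟩ := exists_isE_of_two hzo
      (orderOf_eq_prime (hDexp d hd) fun e => hne (e ▸ one_mem _))
      (hz.2.2 d (hDU hd)) hne (omegaZ_le _ _ hz) (hDU hd)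
    refine thin h.nt h.hp hq hs pq qs ps hco hE h.hP (fun e he => h.Pn e (hUH (hEU he)))
      (fun e he => ?_) hv0 hv01 hcv0
    obtain ⟨i, j, rfl⟩ := hspan e he
    exact (hcz.zpow_right i).mul_right (hcd.zpow_right j)
  have hXD : ∀ x ∈ X, ∀ d ∈ D, Commute x d :=
    commute_of_fpf qs ((core_isPGroup q H).to_le hDU) (not_dvd_card hX (h.prime q hq) qr) hco
      hcX hfpf (fun x hx => hDn x (hnU (hXH hx))) (hDn c (hnU hcH))
      fun d hd hcd x hx => by
        obtain ⟨k, rfl⟩ := hDz d hd hcd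
        exact (hXz x hx).zpow_right k
  intro x hx
  obtain ⟨k, hk⟩ := orderOf_eq_pow hX hx
  exact hDdet x (hnU (hXH hx)) (r ^ k) (by rw [← hk]; exact pow_orderOf_eq_one x)
    (((Nat.coprime_primes (h.prime r hr) (h.prime q hq)).2 qr.symm).pow_left k) (hXD x hx)

/-- One core: contradiction. -/
theorem false_one {q r s : ℕ} (hq : q ∈ σ) (hr : r ∈ σ) (hs : s ∈ σ) (pq : p ≠ q) (pr : p ≠ r)
    (ps : p ≠ s) (qr : q ≠ r) (qs : q ≠ s) (rs : r ≠ s) (hq2 : q ≠ 2) {z : G}
    (hz : z ∈ omegaZ q (core q H)) (hzo : orderOf z = q)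
    (hzn : ∀ g ∈ H, g * z * g⁻¹ ∈ zpowers z)
    (honly : ∀ x : ℕ, x.Prime → core x H ≠ ⊥ → x = q) {L : Subgroup G} (hLH : L ≤ H)
    (hprimes : ∀ x : ℕ, x.Prime → x ∣ Nat.card L → x = r ∨ x = s) {A B : Subgroup G}
    (hA : IsE s A) (hAL : A ≤ L) (hB : IsE r B) (hBL : B ≤ L) : False := by
  haveI := h.solv
  haveI := Fact.mk (h.prime q hq)
  haveI := Fact.mk (h.prime r hr)
  haveI := Fact.mk (h.prime s hs)
  obtain ⟨a0, ha0, ha0o, ha0z⟩ := exists_commute_of_normalizes hA hzo fun e he => hzn e (hLH (hAL he))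
  obtain ⟨b0, hb0, hb0o, hb0z⟩ := exists_commute_of_normalizes hB hzo fun e he => hzn e (hLH (hBL he))
  set C : Subgroup G := L ⊓ centralizer {z} with hC
  have ha0C : a0 ∈ C := ⟨hAL ha0, mem_centralizer_singleton_iff.2 ha0z.eq⟩
  have hb0C : b0 ∈ C := ⟨hBL hb0, mem_centralizer_singleton_iff.2 hb0z.eq⟩
  have hCH : C ≤ H := inf_le_left.trans hLH
  have hCz : ∀ g ∈ C, Commute g z := fun g hg => mem_centralizer_singleton_iff.1 hg.2
  haveI : Group.IsSolvable C := Group.isSolvable_of_isSolvable_injective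
    (f := Subgroup.inclusion hCH) (Subgroup.inclusion_injective hCH)
  obtain ⟨x, hx, hxd, hne⟩ := exists_core_ne_bot (L := C) fun e =>
    orderOf_ne_one_of_prime (h.prime r hr) hb0o (Subgroup.mem_bot.1 (e ▸ hb0C))
  have key : ∀ {y t : ℕ}, y ∈ σ → t ∈ σ → p ≠ y → p ≠ t → q ≠ y → q ≠ t → y ≠ t →
      core y C ≠ ⊥ → ∀ c ∈ C, orderOf c = t → False := by
    intro y t hy ht py pt qy qt yt hne c hc hco
    haveI := Fact.mk (h.prime y hy)
    refine hne ((Subgroup.eq_bot_iff_forall _).2 fun u hu => ?_)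
    have hfpf : ∀ v ∈ core y C, Commute c v → v = 1 := fun v hv hcv => by
      by_contra hv1
      obtain ⟨n, hn⟩ := exists_pow_orderOf (core_isPGroup y C) hv hv1
      exact h.nt hq hy ht qy yt qt hzo hn hco ((hCz v (core_le y C hv)).pow_left n).symm
        (hCz c hc).symm (hcv.pow_right n).symm
    have hcent := h.centralizes_core hq hy ht pq py pt qy qt hq2 hz hzo
      ((core_le y C).trans hCH) (core_isPGroup y C) (fun v hv => hCz v (core_le y C hv)) (hCH hc)
      hco (hCz c hc) (fun v hv => core_conj hc hv) hfpf u hu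
    obtain ⟨k, hk⟩ := orderOf_eq_pow (core_isPGroup y C) hu
    have hmem := mem_core_of_centralizes (L := H) (hCH (core_le y C hu)) hk fun x hx v hv => by
      by_cases hv1 : v = 1
      · rw [hv1]; exact Commute.one_right u
      obtain rfl := honly x hx fun e => hv1 (Subgroup.mem_bot.1 (e ▸ hv))
      exact hcent v hv
    have hbot : core y H = ⊥ := by_contra fun e => qy (honly y (h.prime y hy) e).symm
    rw [hbot] at hmem
    exact Subgroup.mem_bot.1 hmem
  rcases hprimes x hx (hxd.trans (Subgroup.card_dvd_of_le inf_le_left)) with rfl | rfl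
  · exact key hr hs pr ps qr qs rs hne a0 ha0C ha0o
  · exact key hs hr ps pr qs qr rs.symm hne b0 hb0C hb0o

/-- Two cores, one without a noncyclic elementary abelian subgroup: contradiction. -/
theorem false_two {q r s : ℕ} (hq : q ∈ σ) (hr : r ∈ σ) (hs : s ∈ σ) (pq : p ≠ q) (pr : p ≠ r)
    (ps : p ≠ s) (qr : q ≠ r) (qs : q ≠ s) (rs : r ≠ s) (hq2 : q ≠ 2) (hr2 : r ≠ 2) {z w : G}
    (hz : z ∈ omegaZ q (core q H)) (hzo : orderOf z = q)
    (hzn : ∀ g ∈ H, g * z * g⁻¹ ∈ zpowers z)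
    (hw : w ∈ omegaZ r (core r H)) (hwo : orderOf w = r)
    (hwn : ∀ g ∈ H, g * w * g⁻¹ ∈ zpowers w)
    (hno : ∀ E : Subgroup G, IsE r E → ¬ E ≤ core r H)
    (honly : ∀ x : ℕ, x.Prime → core x H ≠ ⊥ → x = q ∨ x = r) {L : Subgroup G} (hLH : L ≤ H)
    (hwL : w ∈ L) (hprimes : ∀ x : ℕ, x.Prime → x ∣ Nat.card L → x = r ∨ x = s)
    {A B : Subgroup G} (hA : IsE s A) (hAL : A ≤ L) (hB : IsE r B) (hBL : B ≤ L) : False := by
  haveI := h.solv
  haveI := Fact.mk (h.prime p h.hp)
  haveI := Fact.mk (h.prime q hq)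
  haveI := Fact.mk (h.prime r hr)
  haveI := Fact.mk (h.prime s hs)
  have hzH : z ∈ H := core_le q H (omegaZ_le _ _ hz)
  have hwH : w ∈ H := hLH hwL
  have hzw : Commute z w := commute_of_cores qr (omegaZ_le _ _ hz) (omegaZ_le _ _ hw)
  obtain ⟨c, hcA, hco, hcz⟩ := exists_commute_of_normalizes hA hzo fun e he => hzn e (hLH (hAL he))
  obtain ⟨d, hdA, hdo, hdw⟩ := exists_commute_of_normalizes hA hwo fun e he => hwn e (hLH (hAL he))
  have hcL := hAL hcA
  have hdL := hAL hdA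
  have hcH := hLH hcL
  have hdH := hLH hdL
  have htriple : ∀ g : G, orderOf g = s → Commute g z → Commute g w → False := fun g hg hgz hgw =>
    h.nt hq hr hs qr rs qs hzo hwo hg hzw hgz.symm hgw.symm
  have hzconj : ∀ g ∈ H, ∀ v ∈ zpowers z, g * v * g⁻¹ ∈ zpowers z := by
    rintro g hg _ ⟨k, rfl⟩
    simp only [← conj_zpow]
    exact zpow_mem (hzn g hg) k
  have hwconj : ∀ g ∈ H, ∀ v ∈ zpowers w, g * v * g⁻¹ ∈ zpowers w := by
    rintro g hg _ ⟨k, rfl⟩
    simp only [← conj_zpow]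
    exact zpow_mem (hwn g hg) k
  -- `d` has fixed points on `P`
  obtain ⟨v0, hv0, hv01, hdv0⟩ := h.exists_fixedP hq hs pq ps (zpowers_le.2 hzH)
    (isPGroup_zpowers hzo)
    (fun e => orderOf_ne_one_of_prime (h.prime q hq) hzo (zpowers_eq_bot.1 e)) hdH hdo
    (hzconj d hdH) fun v hv hdv => by
      by_contra hv1
      obtain ⟨k, hk⟩ := pow_mem_of_mem hzo hv hv1
      exact htriple d hdo (hk ▸ hdv.zpow_right k) hdw
  set R := core r L with hR
  have hRL : R ≤ L := core_le r L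
  have hwR : w ∈ R := le_core (N := zpowers w) (zpowers_le.2 hwL) (isPGroup_zpowers hwo)
    (fun l hl => hwconj l (hLH hl)) (mem_zpowers w)
  have hpelem : ∀ g ∈ R, Commute g w := fun g hg => by
    obtain ⟨k, hk⟩ := orderOf_eq_pow (core_isPGroup r L) hg
    exact commute_of_pElement hwo (by rw [← hk]; exact pow_orderOf_eq_one g) (hwn g (hLH (hRL hg)))
  -- commutators of `L` centralize `z` and `w`
  have hcomm : ∀ a ∈ H, ∀ b ∈ H, Commute (a * b * a⁻¹ * b⁻¹) z ∧ Commute (a * b * a⁻¹ * b⁻¹) w :=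
    fun a ha b hb =>
      ⟨comm_centralizes_cyclic (hzconj a ha) (hzconj b hb)
        (fun v hv => conj_inv_mem hzconj ha hv) (fun v hv => conj_inv_mem hzconj hb hv) z
        (mem_zpowers z),
      comm_centralizes_cyclic (hwconj a ha) (hwconj b hb)
        (fun v hv => conj_inv_mem hwconj ha hv) (fun v hv => conj_inv_mem hwconj hb hv) w
        (mem_zpowers w)⟩
  -- the commutators lie in the core
  set L0 : Subgroup G := L ⊓ (centralizer {z} ⊓ centralizer {w}) with hL0
  have hL0p : IsPGroup r L0 := by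
    refine IsPGroup.iff_orderOf.2 fun g => ⟨(orderOf (g : G)).primeFactorsList.length, ?_⟩
    rw [← Subgroup.orderOf_coe]
    refine Nat.eq_prime_pow_of_unique_prime_dvd (orderOf_pos _).ne' fun {x} hx hd => ?_
    rcases hprimes x hx (hd.trans (Subgroup.orderOf_dvd_natCard L g.2.1)) with e | e
    · exact e
    subst e
    have hg' := pow_mem g.2 (orderOf (g : G) / x)
    exact (htriple _ (orderOf_pow_orderOf_div (orderOf_pos _).ne' hd)
      (mem_centralizer_singleton_iff.1 hg'.2.1) (mem_centralizer_singleton_iff.1 hg'.2.2)).elim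
  have hL0R : L0 ≤ R := by
    refine le_core inf_le_left hL0p fun l hl v hv => ⟨L.mul_mem (L.mul_mem hl hv.1) (L.inv_mem hl), ?_⟩
    obtain ⟨h1, h2⟩ := hcomm l (hLH hl) v (hLH hv.1)
    have e : l * v * l⁻¹ = l * v * l⁻¹ * v⁻¹ * v := by group
    rw [e]
    exact ⟨mem_centralizer_singleton_iff.2
        (h1.mul_left (mem_centralizer_singleton_iff.1 hv.2.1)).eq,
      mem_centralizer_singleton_iff.2 (h2.mul_left (mem_centralizer_singleton_iff.1 hv.2.2)).eq⟩
  have hcommR : ∀ a ∈ L, ∀ b ∈ L, a * b * a⁻¹ * b⁻¹ ∈ R := fun a ha b hb => hL0R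
    ⟨L.mul_mem (L.mul_mem (L.mul_mem ha hb) (L.inv_mem ha)) (L.inv_mem hb),
      mem_centralizer_singleton_iff.2 (hcomm a (hLH ha) b (hLH hb)).1.eq,
      mem_centralizer_singleton_iff.2 (hcomm a (hLH ha) b (hLH hb)).2.eq⟩
  -- every `r`-element of `L` lies in the core
  have hRelem : ∀ g ∈ L, orderOf g = r → g ∈ R := by
    intro g hg hgo
    have hn : zpowers g ≤ normalizer (R : Set G) :=
      normalizes fun e he v hv => core_conj (zpowers_le.2 hg he) hv
    refine le_core (N := R ⊔ zpowers g) (sup_le hRL (zpowers_le.2 hg))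
      ((core_isPGroup r L).to_sup_of_normal_left' (isPGroup_zpowers hgo) hn) ?_
      (mem_sup_right (mem_zpowers g))
    intro l hl v hv
    have hvL : v ∈ L := sup_le hRL (zpowers_le.2 hg) hv
    have e : l * v * l⁻¹ = l * v * l⁻¹ * v⁻¹ * v := by group
    rw [e]
    exact mul_mem (mem_sup_left (hcommR l hl v hvL)) hv
  -- the centralizer of `d` in `R`
  set Y : Subgroup G := R ⊓ centralizer {d} with hY
  have hYuniq : ∀ u ∈ Y, orderOf u = r → u ∈ zpowers w := by
    intro u hu huo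
    by_contra hne
    obtain ⟨E, hE, hER, -, -, hspan⟩ := exists_isE_of_two hwo huo (hpelem u hu.1).symm hne hwR hu.1
    refine thin h.nt h.hp hr hs pr rs ps hdo hE h.hP
      (fun e he => h.Pn e (hLH (hRL (hER he)))) (fun e he => ?_) hv0 hv01 hdv0
    obtain ⟨i, j, rfl⟩ := hspan e he
    exact (hdw.zpow_right i).mul_right
      ((show Commute u d from mem_centralizer_singleton_iff.1 hu.2).symm.zpow_right j)
  have hYcyc : IsCyclic Y := isCyclic_of_no_isE hr2 ((core_isPGroup r L).to_le inf_le_left)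
    fun E hE hEY => by
      obtain ⟨e, he, hne⟩ := hE.exists_not_zpowers w hwo
      exact hne (hYuniq e (hEY he) (hE.orderOf_eq he fun q' => hne (q' ▸ one_mem _)))
  have hfpfY : ∀ u ∈ Y, Commute c u → u = 1 := fun u hu hcu => by
    by_contra hu1
    obtain ⟨n, hn⟩ := exists_pow_orderOf ((core_isPGroup r L).to_le inf_le_left) hu hu1
    obtain ⟨k, hk⟩ := hYuniq _ (pow_mem hu n) hn
    obtain ⟨l, hl⟩ := pow_mem_of_mem hwo ⟨k, hk⟩ (orderOf_ne_one_of_prime (h.prime r hr) hn)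
    exact htriple c hco hcz (hl ▸ (hcu.pow_right n).zpow_right l)
  have hcY : ∀ u ∈ Y, c * u * c⁻¹ ∈ Y := fun u hu => by
    refine ⟨core_conj hcL hu.1, mem_centralizer_singleton_iff.2 ?_⟩
    have h1 := (Commute.conj_iff c).2 (show Commute u d from mem_centralizer_singleton_iff.1 hu.2)
    rwa [(hA.comm hcA hdA).eq, mul_inv_cancel_right] at h1
  have hYz : ∀ u ∈ Y, Commute u z := by
    intro u hu
    set δ := cmap c Y (commute_of_cyclic hYcyc) hcY
    have hinj : Function.Injective δ := by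
      rw [injective_iff_map_eq_one]
      exact fun v hv => Subtype.ext (hfpfY v v.2 (cmap_eq_one_iff.1 hv))
    obtain ⟨v, hv⟩ := (Finite.injective_iff_surjective.1 hinj) ⟨u, hu⟩
    have hv' : c * v * c⁻¹ * (v : G)⁻¹ = u := congrArg Subtype.val hv
    rw [← hv']
    exact (hcomm c hcH v (hLH (hRL v.2.1))).1
  -- so `R` centralizes `z`
  set R0 : Subgroup G := R ⊓ centralizer {z} with hR0
  have hR0n : zpowers d ≤ normalizer (R0 : Set G) := normalizes fun e he v hv => by
    have heL : e ∈ L := zpowers_le.2 hdL he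
    refine ⟨core_conj heL hv.1, mem_centralizer_singleton_iff.2 ?_⟩
    have e1 : e * v * e⁻¹ = e * v * e⁻¹ * v⁻¹ * v := by group
    rw [e1]
    exact ((hcomm e (hLH heL) v (hLH (hRL hv.1))).1.mul_left
      (mem_centralizer_singleton_iff.1 hv.2)).eq
  have hRz : ∀ g ∈ R, Commute g z := by
    intro g hg
    obtain ⟨y, hy, hgy⟩ := Coprime.exists_fixed_of_invariant_coset hR0n
      (by
        obtain ⟨k, hk⟩ := IsPGroup.iff_card.1
          ((core_isPGroup r L).to_le (inf_le_left : R0 ≤ R))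
        rw [Nat.card_zpowers, hdo, hk]
        exact ((Nat.coprime_primes (h.prime s hs) (h.prime r hr)).2 rs.symm).pow_right k)
      (Or.inl inferInstance) (g := g) (fun a ha => by
        have haL : a ∈ L := zpowers_le.2 hdL ha
        refine ⟨?_, mem_centralizer_singleton_iff.2 ?_⟩
        · rw [show g⁻¹ * a * g * a⁻¹ = g⁻¹ * (a * g * a⁻¹) by group]
          exact R.mul_mem (R.inv_mem hg) (core_conj haL hg)
        · have h1 := (hcomm g⁻¹ (inv_mem (hLH (hRL hg))) a (hLH haL)).1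
          rw [inv_inv] at h1
          exact h1.eq)
    have hyR : y ∈ R := by simpa using mul_mem hg hgy.1
    have hyY : y ∈ Y := ⟨hyR,
      mem_centralizer_singleton_iff.2 (mem_centralizer_iff.1 hy d (mem_zpowers d)).symm⟩
    have e : g = y * (g⁻¹ * y)⁻¹ := by group
    rw [e]
    exact (hYz y hyY).mul_left
      (show Commute (g⁻¹ * y) z from mem_centralizer_singleton_iff.1 hgy.2).inv_left
  have hfpfR : ∀ u ∈ R, Commute c u → u = 1 := fun u hu hcu => by
    by_contra hu1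
    obtain ⟨n, hn⟩ := exists_pow_orderOf (core_isPGroup r L) hu hu1
    exact h.nt hq hr hs qr rs qs hzo hn hco ((hRz u hu).pow_left n).symm hcz.symm
      (hcu.pow_right n).symm
  have hcR : ∀ u ∈ R, c * u * c⁻¹ ∈ R := fun u hu => core_conj hcL hu
  have hRU := h.centralizes_core hq hr hs pq pr ps qr qs hq2 hz hzo (hRL.trans hLH)
    (core_isPGroup r L) hRz hcH hco hcz hcR hfpfR
  -- `R` centralizes the cyclic `r`-core
  have hVcyc : IsCyclic (core r H) := isCyclic_of_no_isE hr2 (core_isPGroup r H) hno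
  have hRV : ∀ u ∈ R, ∀ v ∈ core r H, Commute u v := by
    intro u hu
    let f : R → R := fun x => ⟨(x : G)⁻¹ * (c * x * c⁻¹), mul_mem (inv_mem x.2) (hcR x x.2)⟩
    have hinj : Function.Injective f := by
      intro a b hab
      have hab' : (a : G)⁻¹ * (c * a * c⁻¹) = (b : G)⁻¹ * (c * b * c⁻¹) :=
        congrArg Subtype.val hab
      have h1 : Commute c ((a : G) * (b : G)⁻¹) := by
        refine mul_inv_eq_iff_eq_mul.1 ?_
        calc c * ((a : G) * (b : G)⁻¹) * c⁻¹
            = (a : G) * ((a : G)⁻¹ * (c * a * c⁻¹)) * ((b : G)⁻¹ * (c * b * c⁻¹))⁻¹ * (b : G)⁻¹ := by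
              group
          _ = (a : G) * (b : G)⁻¹ := by rw [hab']; group
      exact Subtype.ext (mul_inv_eq_one.1 (hfpfR _ (mul_mem a.2 (inv_mem b.2)) h1))
    obtain ⟨x, hx⟩ := (Finite.injective_iff_surjective.1 hinj) ⟨u, hu⟩
    have hx' : (x : G)⁻¹ * (c * x * c⁻¹) = u := congrArg Subtype.val hx
    have hxH : (x : G)⁻¹ ∈ H := inv_mem (hLH (hRL x.2))
    have hn : ∀ l ∈ H, ∀ v ∈ core r H, l * v * l⁻¹ ∈ core r H := fun l hl v hv => core_conj hl hv
    intro v hv
    haveI := hVcyc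
    have h1 := comm_centralizes_cyclic (hn _ hxH) (hn c hcH)
      (fun y hy => conj_inv_mem hn hxH hy) (fun y hy => conj_inv_mem hn hcH hy) v hv
    rw [inv_inv] at h1
    rwa [← hx', show (x : G)⁻¹ * (c * x * c⁻¹) = (x : G)⁻¹ * c * x * c⁻¹ by group]
  refine hno B hB fun b hb => ?_
  by_cases hb1 : b = 1
  · rw [hb1]; exact one_mem _
  have hbo := hB.orderOf_eq hb hb1
  have hbR : b ∈ R := hRelem b (hBL hb) hbo
  refine mem_core_of_centralizes (k := 1) (hLH (hBL hb)) (by rw [hbo, pow_one]) fun x hx v hv => ?_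
  by_cases hv1 : v = 1
  · rw [hv1]; exact Commute.one_right b
  rcases honly x hx (fun e => hv1 (Subgroup.mem_bot.1 (e ▸ hv))) with rfl | rfl
  · exact hRU b hbR v hv
  · exact hRV b hbR v hv

end Base

end Cfsg.Agent.ThreeJoin
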